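import Mathlib
import Cfsg.Agent.GeoClasses.SympMax

/-!
Symplectic transvections and Siegel elements in characteristic two, and root groups: for each vector
`w` orthogonal to a centre `c`, a chosen element `sg c w (ξ w)` of a group `L`.
-/

set_option autoImplicit false

namespace Cfsg.Agent.MaxSub.RootGroup

open Matrix Cfsg.Agent.Forms

variable {F : Type*} [Field F] [CharP F 2] {n : ℕ}

local notation "V" => (Fin n ⊕ Fin n → F)
local notation "G" => GL (Fin n ⊕ Fin n) F
local notation "β" => sympBil n F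

/-- The action on vectors. -/
def app (g : G) (x : V) : V := (g : Matrix (Fin n ⊕ Fin n) (Fin n ⊕ Fin n) F) *ᵥ x

local infixr:73 " ⋆ " => app

omit [CharP F 2] in
@[simp] lemma app_mul (g h : G) (x : V) : (g * h) ⋆ x = g ⋆ h ⋆ x := by
  simp [app, Matrix.mulVec_mulVec]

omit [CharP F 2] in
@[simp] lemma app_one (x : V) : (1 : G) ⋆ x = x := by simp [app]

omit [CharP F 2] in
@[simp] lemma app_add (g : G) (x y : V) : g ⋆ (x + y) = g ⋆ x + g ⋆ y := Matrix.mulVec_add _ _ _

omit [CharP F 2] in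
@[simp] lemma app_smul (g : G) (c : F) (x : V) : g ⋆ (c • x) = c • (g ⋆ x) := Matrix.mulVec_smul _ _ _

omit [CharP F 2] in
@[simp] lemma app_zero (g : G) : g ⋆ (0 : V) = 0 := Matrix.mulVec_zero _

omit [CharP F 2] in
@[simp] lemma app_inv_app (g : G) (x : V) : g⁻¹ ⋆ g ⋆ x = x := by rw [← app_mul]; simp

omit [CharP F 2] in
@[simp] lemma app_app_inv (g : G) (x : V) : g ⋆ g⁻¹ ⋆ x = x := by rw [← app_mul]; simp

omit [CharP F 2] in
lemma app_injective (g : G) : Function.Injective (app g) := fun x y h => by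
  simpa using congrArg (app g⁻¹) h

omit [CharP F 2] in
lemma app_eq_zero_iff (g : G) {x : V} : g ⋆ x = 0 ↔ x = 0 :=
  ⟨fun h => app_injective g (by simpa using h), fun h => by simp [h]⟩

omit [CharP F 2] in
lemma ext_app {g h : G} (H : ∀ x : V, g ⋆ x = h ⋆ x) : g = h := GeoClasses.gl_ext_mulVec H

/-- The form is symmetric in characteristic two. -/
lemma bil_comm (u v : V) : β u v = β v u := by
  rw [GeoClasses.spB_swap v u, CharTwo.neg_eq]

omit [CharP F 2] in
@[simp] lemma bil_self (u : V) : β u u = 0 := sympBil_isAlt u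

omit [CharP F 2] in
lemma bil_eq_zero {u : V} (h : ∀ v, β u v = 0) : u = 0 := sympBil_nondegenerate.1 u h

omit [CharP F 2] in
lemma exists_bil_ne_zero {u : V} (hu : u ≠ 0) : ∃ v, β u v ≠ 0 := by
  by_contra h
  push Not at h
  exact hu (bil_eq_zero h)

lemma vec_add_self (x : V) : x + x = 0 := funext fun i => CharTwo.add_self_eq_zero (x i)

lemma vec_add_cancel (x y : V) : x + (x + y) = y := by rw [← add_assoc, vec_add_self, zero_add]

/-- The subgroup of isometries of the form. -/
def Sp : Subgroup G := Cfsg.spGL n F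

omit [CharP F 2] in
lemma mem_Sp {g : G} : g ∈ Sp (n := n) (F := F) ↔ ∀ u v : V, β (g ⋆ u) (g ⋆ v) = β u v :=
  GeoClasses.mem_spGL_iff

omit [CharP F 2] in
lemma bil_app {g : G} (hg : g ∈ Sp) (u v : V) : β (g ⋆ u) (g ⋆ v) = β u v := mem_Sp.1 hg u v

omit [CharP F 2] in
lemma bil_app_inv {g : G} (hg : g ∈ Sp) (u v : V) : β (g⁻¹ ⋆ u) v = β u (g ⋆ v) := by
  conv_rhs => rw [← app_app_inv g u, bil_app hg]

omit [CharP F 2] in
lemma bil_app_right {g : G} (hg : g ∈ Sp) (u v : V) : β u (g⁻¹ ⋆ v) = β (g ⋆ u) v := by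
  conv_rhs => rw [← app_app_inv g v, bil_app hg]

/-- The linear map `x ↦ x + (x,c) w + (x,w) c + γ (x,c) c`. -/
noncomputable def sgLin (c w : V) (γ : F) : V →ₗ[F] V :=
  LinearMap.id + ((LinearMap.flip β) c).smulRight w + ((LinearMap.flip β) w).smulRight c + (γ • (LinearMap.flip β) c).smulRight c

omit [CharP F 2] in
lemma sgLin_apply (c w : V) (γ : F) (x : V) :
    sgLin c w γ x = x + β x c • w + β x w • c + (γ * β x c) • c := by
  simp [sgLin]

lemma sgLin_sgLin {c w : V} (h : β c w = 0) (γ : F) (x : V) :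
    sgLin c w γ (sgLin c w γ x) = x := by
  have h' : β w c = 0 := by rw [bil_comm]; exact h
  simp only [sgLin_apply, map_add, map_smul, LinearMap.add_apply, LinearMap.smul_apply, bil_self,
    h, h', smul_eq_mul, mul_zero, add_zero, smul_add]
  match_scalars <;> grind

open Classical in
/-- The Siegel element `x ↦ x + (x,c) w + (x,w) c + γ (x,c) c`; the identity unless `(c,w) = 0`. -/
noncomputable def sg (c w : V) (γ : F) : G :=
  if h : β c w = 0 then
    ⟨LinearMap.toMatrix' (sgLin c w γ), LinearMap.toMatrix' (sgLin c w γ), by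
      rw [← LinearMap.toMatrix'_comp, ← LinearMap.toMatrix'_id]
      exact congrArg _ (LinearMap.ext (sgLin_sgLin h γ)), by
      rw [← LinearMap.toMatrix'_comp, ← LinearMap.toMatrix'_id]
      exact congrArg _ (LinearMap.ext (sgLin_sgLin h γ))⟩
  else 1

lemma app_sg {c w : V} (h : β c w = 0) (γ : F) (x : V) :
    sg c w γ ⋆ x = x + β x c • w + β x w • c + (γ * β x c) • c := by
  rw [sg, dif_pos h, app, ← sgLin_apply, ← Matrix.toLin'_apply, Matrix.toLin'_toMatrix']

/-- The transvection `x ↦ x + γ (x,c) c`. -/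
noncomputable def tv (c : V) (γ : F) : G := sg c 0 γ

@[simp] lemma app_tv (c : V) (γ : F) (x : V) : tv c γ ⋆ x = x + (γ * β x c) • c := by
  simp [tv, app_sg]

lemma tv_eq_spTau (c : V) (γ : F) : tv c γ = ClassicalMax.spTau c γ := by
  refine ext_app fun x => ?_
  rw [app_tv]
  exact (GeoClasses.spTau_apply c γ x).symm

lemma sg_mem_Sp (c w : V) (γ : F) : sg c w γ ∈ Sp := by
  by_cases h : β c w = 0
  · have h' : β w c = 0 := by rw [bil_comm]; exact h
    refine mem_Sp.2 fun u v => ?_
    simp only [app_sg h, map_add, map_smul, LinearMap.add_apply, LinearMap.smul_apply, bil_self, h,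
      h', smul_eq_mul, mul_zero, add_zero]
    rw [bil_comm c v, bil_comm w v]
    grind
  · rw [sg, dif_neg h]
    exact one_mem _

lemma tv_mem_Sp (c : V) (γ : F) : tv c γ ∈ Sp := sg_mem_Sp _ _ _

lemma sg_sq (c w : V) (γ : F) : sg c w γ * sg c w γ = 1 := by
  by_cases h : β c w = 0
  · refine ext_app fun x => ?_
    rw [app_mul, app_one, app_sg h γ x, ← sgLin_apply, app_sg h, ← sgLin_apply, sgLin_sgLin h]
  · rw [sg, dif_neg h, one_mul]

lemma sg_inv (c w : V) (γ : F) : (sg c w γ)⁻¹ = sg c w γ := inv_eq_of_mul_eq_one_right (sg_sq c w γ)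

lemma sg_mul {c w w' : V} (h : β c w = 0) (h' : β c w' = 0) (γ γ' : F) :
    sg c w γ * sg c w' γ' = sg c (w + w') (γ + γ' + β w w') := by
  have h2 : β w c = 0 := by rw [bil_comm]; exact h
  have h2' : β w' c = 0 := by rw [bil_comm]; exact h'
  have h3 : β c (w + w') = 0 := by rw [map_add, h, h', add_zero]
  refine ext_app fun x => ?_
  simp only [app_mul, app_sg h', app_sg h, app_sg h3, map_add, map_smul, LinearMap.add_apply,
    LinearMap.smul_apply, bil_self, h2, h2', smul_eq_mul, mul_zero, add_zero, h, h', smul_add,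
    bil_comm w' w]
  match_scalars <;> grind

lemma sg_mul_tv {c w : V} (h : β c w = 0) (γ γ' : F) : sg c w γ * tv c γ' = sg c w (γ + γ') := by
  rw [tv, sg_mul h (map_zero _)]
  simp

lemma tv_mul_tv (c : V) (γ γ' : F) : tv c γ * tv c γ' = tv c (γ + γ') :=
  sg_mul_tv (map_zero _) γ γ'

@[simp] lemma tv_zero (c : V) : tv c (0 : F) = 1 := ext_app fun x => by simp

lemma sg_add_smul {c w : V} (h : β c w = 0) (t γ : F) : sg c (w + t • c) γ = sg c w γ := by
  refine ext_app fun x => ?_
  rw [app_sg (by simp [h]), app_sg h]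
  simp only [map_add, map_smul, smul_eq_mul, smul_add]
  match_scalars <;> grind

lemma sg_smul_self (c : V) (t γ : F) : sg c (t • c) γ = tv c γ := by
  simpa [tv] using sg_add_smul (map_zero _) t γ

lemma sg_smul {c w : V} (h : β c w = 0) (μ γ : F) :
    sg (μ • c) w γ = sg c (μ • w) (μ ^ 2 * γ) := by
  refine ext_app fun x => ?_
  rw [app_sg (by simp [h]), app_sg (by simp [h])]
  simp only [map_smul, smul_eq_mul, smul_smul]
  match_scalars <;> ring

lemma tv_smul (c : V) (μ γ : F) : tv (μ • c) γ = tv c (μ ^ 2 * γ) := by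
  rw [tv, sg_smul (map_zero _), smul_zero, tv]

lemma sg_swap {c a : V} (h : β c a = 0) : sg c a 0 = sg a c 0 := by
  have h' : β a c = 0 := by rw [bil_comm]; exact h
  refine ext_app fun x => ?_
  rw [app_sg h, app_sg h']
  simp only [zero_mul, zero_smul, add_zero]
  abel

lemma sg_one_eq {c w : V} (h : β c w = 0) : sg c w 1 = tv (c + w) 1 * tv w 1 := by
  have h' : β w c = 0 := by rw [bil_comm]; exact h
  refine ext_app fun x => ?_
  simp only [app_mul, app_tv, app_sg h, one_mul, map_add, map_smul, LinearMap.add_apply,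
    LinearMap.smul_apply, smul_eq_mul, bil_self, h', mul_zero, add_zero, smul_add]
  match_scalars <;> grind

lemma conj_sg {g : G} (hg : g ∈ Sp) {c w : V} (h : β c w = 0) (γ : F) :
    g * sg c w γ * g⁻¹ = sg (g ⋆ c) (g ⋆ w) γ := by
  refine ext_app fun x => ?_
  rw [app_mul, app_mul, app_sg h, app_sg (by rw [bil_app hg, h])]
  simp only [app_add, app_smul, app_app_inv, bil_app_inv hg]

lemma conj_tv {g : G} (hg : g ∈ Sp) (c : V) (γ : F) : g * tv c γ * g⁻¹ = tv (g ⋆ c) γ := by
  rw [tv, conj_sg hg (map_zero _), app_zero, tv]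

lemma sg_injective {c w w' : V} {γ γ' : F} (hc : c ≠ 0) (h : β c w = 0) (h' : β c w' = 0)
    (he : sg c w γ = sg c w' γ') : ∃ t : F, w' = w + t • c ∧ γ' = γ := by
  obtain ⟨x, hx⟩ := exists_bil_ne_zero hc
  rw [bil_comm] at hx
  have hm : sg c w γ * sg c w' γ' = 1 := by rw [he, sg_sq]
  rw [sg_mul h h'] at hm
  have h3 : β c (w + w') = 0 := by rw [map_add, h, h', add_zero]
  have hxw := congrArg (fun g => g ⋆ x) hm
  simp only [app_sg h3, app_one] at hxw
  set s := β x (w + w') + (γ + γ' + β w w') * β x c with hs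
  have h4 : β x c • (w + w') + s • c = 0 := by
    rw [hs, add_smul]
    have h5 := congrArg (fun y => y - x) hxw
    simp only [sub_self] at h5
    rw [← h5]; abel
  have h6 : w + w' = ((β x c)⁻¹ * s) • c := by
    have h7 : β x c • (w + w') = s • c := by
      rw [eq_neg_of_add_eq_zero_left h4, ← neg_smul, CharTwo.neg_eq]
    rw [← smul_smul, ← h7, inv_smul_smul₀ hx]
  refine ⟨(β x c)⁻¹ * s, ?_, ?_⟩
  · rw [← h6, vec_add_cancel]
  · rw [h6, sg_smul_self] at hm
    have h8 := congrArg (fun g => g ⋆ x) hm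
    simp only [app_tv, app_one, add_eq_left, smul_eq_zero, hc, or_false, mul_eq_zero, hx] at h8
    have hw' : w' = w + ((β x c)⁻¹ * s) • c := by
      rw [← h6, vec_add_cancel]
    rw [hw', map_add, map_smul, bil_self, bil_comm w c, h, smul_eq_mul, mul_zero, add_zero] at h8
    grind

/-- An isometry fixing `a`, and trivial on `a^⊥` modulo `a`, is a Siegel element. -/
lemma exists_sg_of_stab {a b : V} (hab : β a b = 1) {g : G} (hg : g ∈ Sp) (ha : g ⋆ a = a)
    (h : ∀ x, β a x = 0 → ∃ t : F, g ⋆ x = x + t • a) :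
    ∃ w γ, β a w = 0 ∧ β b w = 0 ∧ g = sg a w γ := by
  have hba : β b a = 1 := by rw [bil_comm]; exact hab
  set w₀ := g ⋆ b + b with hw₀
  have hgb : g ⋆ b = b + w₀ := by rw [hw₀, add_comm (g ⋆ b) b, vec_add_cancel]
  have haw₀ : β a w₀ = 0 := by
    have h1 := bil_app hg a b
    rw [ha, hgb, map_add, hab] at h1
    simpa using h1
  set γ := β b w₀ with hγ
  have haw : β a (w₀ + γ • a) = 0 := by simp [haw₀]
  refine ⟨w₀ + γ • a, γ, haw, by simp [hba, hγ]; grind, ext_app fun x => ?_⟩
  set x' := x + β a x • b with hx'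
  have hax' : β a x' = 0 := by simp [hx', hab]; grind
  obtain ⟨t, ht⟩ := h x' hax'
  have ht' : t = β x' w₀ := by
    have h1 := bil_app hg x' b
    rw [ht, hgb] at h1
    simp [hab, haw₀] at h1
    grind
  have hx : x = x' + β a x • b := by rw [hx', add_assoc, vec_add_self, add_zero]
  conv_lhs => rw [hx]
  rw [app_add, app_smul, ht, hgb, ht', app_sg haw, hx']
  simp only [map_add, map_smul, LinearMap.add_apply, LinearMap.smul_apply, smul_eq_mul, hba,
    bil_comm x a, hγ]
  match_scalars <;> grind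

/-- A root group with centre `c`: a form `ξ` on `c^⊥` selecting one element for each vector. -/
structure Root (L : Subgroup G) (c : V) (ξ : V → F) : Prop where
  ne_zero : c ≠ 0
  mem : ∀ w, β c w = 0 → sg c w (ξ w) ∈ L
  map_add : ∀ u v, β c u = 0 → β c v = 0 → ξ (u + v) = ξ u + ξ v + β u v
  map_add_smul : ∀ u (t : F), β c u = 0 → ξ (u + t • c) = ξ u

variable {L : Subgroup (GL (Fin n ⊕ Fin n) F)} {c : Fin n ⊕ Fin n → F}
  {ξ : (Fin n ⊕ Fin n → F) → F}

lemma Root.map_zero (hr : Root L c ξ) : ξ 0 = 0 := by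
  have h := hr.map_add 0 0 (by simp) (by simp)
  simpa using h

lemma Root.map_smul_self (hr : Root L c ξ) (t : F) : ξ (t • c) = 0 := by
  have h := hr.map_add_smul 0 t (by simp)
  rwa [zero_add, hr.map_zero] at h

/-- Root groups are carried along by the group. -/
lemma Root.map (hr : Root L c ξ) (hL : L ≤ Sp) {g : G} (hg : g ∈ L) :
    Root L (g ⋆ c) (fun w => ξ (g⁻¹ ⋆ w)) where
  ne_zero := fun h => hr.ne_zero ((app_eq_zero_iff g).1 h)
  mem w hw := by
    have h : β c (g⁻¹ ⋆ w) = 0 := by rw [bil_app_right (hL hg)]; exact hw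
    have := mul_mem (mul_mem hg (hr.mem _ h)) (inv_mem hg)
    rwa [conj_sg (hL hg) h, app_app_inv] at this
  map_add u v hu hv := by
    simp only [app_add]
    rw [hr.map_add _ _ (by rw [bil_app_right (hL hg)]; exact hu)
      (by rw [bil_app_right (hL hg)]; exact hv), bil_app (inv_mem (hL hg))]
  map_add_smul u t hu := by
    simp only [app_add, app_smul, app_inv_app]
    exact hr.map_add_smul _ t (by rw [bil_app_right (hL hg)]; exact hu)

/-- Rescaling the centre of a root group. -/
lemma Root.smul (hr : Root L c ξ) {μ : F} (hμ : μ ≠ 0) :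
    Root L (μ • c) (fun w => ξ (μ • w) / μ ^ 2) where
  ne_zero := smul_ne_zero hμ hr.ne_zero
  mem w hw := by
    have h : β c w = 0 := by simpa [hμ] using hw
    rw [sg_smul h, mul_div_cancel₀ _ (pow_ne_zero 2 hμ)]
    exact hr.mem _ (by simp [h])
  map_add u v hu hv := by
    have h : β c u = 0 := by simpa [hμ] using hu
    have h' : β c v = 0 := by simpa [hμ] using hv
    simp only [smul_add]
    rw [hr.map_add _ _ (by simp [h]) (by simp [h']), map_smul, map_smul, LinearMap.smul_apply,
      smul_eq_mul, smul_eq_mul]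
    field_simp
  map_add_smul u t hu := by
    have h : β c u = 0 := by simpa [hμ] using hu
    simp only [smul_add, smul_comm μ t c, smul_smul]
    rw [hr.map_add_smul _ _ (by simp [h])]

/-- The scalars of the transvections with centre `c` in `L`. -/
def scal (L : Subgroup G) (c : V) : AddSubgroup F where
  carrier := {γ | tv c γ ∈ L}
  add_mem' {x y} hx hy := by
    show tv c (x + y) ∈ L
    rw [← tv_mul_tv]; exact mul_mem hx hy
  zero_mem' := by simp [one_mem]
  neg_mem' {x} hx := by rwa [CharTwo.neg_eq]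

lemma mem_scal {γ : F} : γ ∈ scal L c ↔ tv c γ ∈ L := Iff.rfl

lemma scal_map (hL : L ≤ Sp) {g : G} (hg : g ∈ L) {γ : F} (h : γ ∈ scal L c) :
    γ ∈ scal L (g ⋆ c) := by
  rw [mem_scal, ← conj_tv (hL hg)]
  exact mul_mem (mul_mem hg h) (inv_mem hg)

lemma Root.add_mem_scal (hr : Root L c ξ) {w : V} (hw : β c w = 0) {γ : F}
    (h : sg c w γ ∈ L) : γ + ξ w ∈ scal L c := by
  have := mul_mem h (hr.mem w hw)
  rw [sg_mul hw hw, bil_self, add_zero] at this
  rw [mem_scal]
  rwa [vec_add_self] at this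

/-- An element of `L` fixing the centre changes the form by scalars of transvections in `L`. -/
lemma Root.stab_mem_scal (hr : Root L c ξ) (hL : L ≤ Sp) {h : G} (hh : h ∈ L) (hc : h ⋆ c = c)
    {w : V} (hw : β c w = 0) : ξ w + ξ (h ⋆ w) ∈ scal L c := by
  have := mul_mem (mul_mem hh (hr.mem w hw)) (inv_mem hh)
  rw [conj_sg (hL hh) hw, hc] at this
  exact hr.add_mem_scal (by rw [← hc, bil_app (hL hh), hw]) this

end Cfsg.Agent.MaxSub.RootGroup
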