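import Cfsg.Agent.MaxSub.RootGroup.Forms
import Cfsg.Agent.Linear.SmallIsoSymp

/-!
Root groups over two elements: comparison of forms, third roots, and the groups containing every
product of two transvections.
-/

set_option autoImplicit false
set_option maxHeartbeats 800000

namespace Cfsg.Agent.MaxSub.RootGroup

open Matrix Cfsg.Agent.Forms
open scoped commutatorElement

variable {F : Type*} [Field F] [CharP F 2] {n : ℕ}

local notation "V" => (Fin n ⊕ Fin n → F)
local notation "G" => GL (Fin n ⊕ Fin n) F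
local notation "β" => sympBil n F
local infixr:73 " ⋆ " => app

variable {L : Subgroup (GL (Fin n ⊕ Fin n) F)} {a b c : Fin n ⊕ Fin n → F}
  {φ χ ξ : (Fin n ⊕ Fin n → F) → F}

/-- With two elements agreement of the forms is all that is needed for a quadratic pair. -/
lemma RPair.qPair_of_binary (P : RPair L a b φ χ) (hF : ∀ x : F, x = 0 ∨ x = 1) (ha : Rigid L a)
    (hb : Rigid L b) (h : ∀ v, β a v = 0 → β b v = 0 → χ v = φ v) : QPair L a b φ χ where
  toRPair := P
  rigid_left := ha
  rigid_right := hb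
  same := h
  homog v y _ _ := by
    rcases hF y with rfl | rfl
    · simp [P.left.map_zero]
    · simp

/-- In dimension at least six a zero of one form is a zero of the other. -/
lemma RPair.zero_transfer (P : RPair L a b φ χ) (ha : Rigid L a) (hn : 3 ≤ n) {v : V}
    (hva : β a v = 0) (hvb : β b v = 0) (hv : χ v = 0) : φ v = 0 := by
  rcases eq_or_ne v 0 with rfl | hv0
  · exact P.left.map_zero
  obtain ⟨v', hv'a, hv'b, hvv⟩ := P.exists_partner hv0 hva hvb
  obtain ⟨w, hw0, hwa, hwb, hwv, hwv'⟩ :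
      ∃ w : V, w ≠ 0 ∧ β a w = 0 ∧ β b w = 0 ∧ β v w = 0 ∧ β v' w = 0 := by
    let f : V →ₗ[F] (Fin 4 → F) := LinearMap.pi ![β a, β b, β v, β v']
    have h1 := f.finrank_range_add_finrank_ker
    have h2 : Module.finrank F (LinearMap.range f) ≤ 4 :=
      (Submodule.finrank_le _).trans (by simp)
    rw [Module.finrank_fintype_fun_eq_card, Fintype.card_sum, Fintype.card_fin] at h1
    obtain ⟨w, hw, hw0⟩ := Submodule.exists_mem_ne_zero_of_ne_bot
      (p := LinearMap.ker f) (fun h => by rw [h, finrank_bot] at h1; omega)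
    rw [LinearMap.mem_ker] at hw
    exact ⟨w, hw0, congrFun hw 0, congrFun hw 1, congrFun hw 2, congrFun hw 3⟩
  obtain ⟨y₁, hy₁a, hy₁b, hwy₁⟩ := P.exists_partner hw0 hwa hwb
  set y := y₁ + β v y₁ • v' with hy
  have hya : β a y = 0 := by simp [hy, hy₁a, hv'a]
  have hvy : β v y = 0 := by simp [hy, hvv]; grind
  have hwy : β w y = 1 := by simp [hy, hwy₁, bil_comm w v', hwv']
  have hr := P.right.mem v hvb
  rw [hv] at hr
  have hc : sg b v 0 ⋆ a = a + v := by simp [app_sg hvb, P.bil, hva]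
  have hroot := P.left.map P.le hr
  rw [hc] at hroot
  have hcy : β (a + v) y = 0 := by simp [hya, hvy]
  have hh := hroot.mem y hcy
  set g := sg (a + v) y (φ ((sg b v 0)⁻¹ ⋆ y)) with hg
  have hga : g ⋆ a = a := by simp [hg, app_sg hcy, hva, hya]
  have hwv0 : β w v = 0 := by rw [bil_comm]; exact hwv
  have hwa0 : β w a = 0 := by rw [bil_comm]; exact hwa
  have hgw : g ⋆ w = w + v + (1 : F) • a := by
    simp [hg, app_sg hcy, hwy, hwv0, hwa0]
    abel
  have h := P.left.stab_eq ha P.le hh hga hwa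
  rw [hgw, P.left.map_add_smul _ _ (by simp [hwa, hva]), P.left.map_add w v hwa hva, hwv0,
    add_zero] at h
  simpa using h

lemma RPair.same_of_three (P : RPair L a b φ χ) (hF : ∀ x : F, x = 0 ∨ x = 1) (ha : Rigid L a)
    (hb : Rigid L b) (hn : 3 ≤ n) {v : V} (hva : β a v = 0) (hvb : β b v = 0) : χ v = φ v := by
  rcases hF (χ v) with h | h
  · rw [h, P.zero_transfer ha hn hva hvb h]
  rcases hF (φ v) with h' | h'
  · rw [h', P.symm.zero_transfer hb hn hvb hva h']
  · rw [h, h']

/-- A third root `a + b`. -/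
lemma RPair.third (P : RPair L a b φ χ) {v : V} (hva : β a v = 0) (hvb : β b v = 0)
    (hφ : φ v = 0) (hχ : χ v = 1) :
    ∃ g ∈ L, g ⋆ a = a + b ∧
      ∀ w, β a w = 0 → β b w = 0 → φ (g⁻¹ ⋆ w) = φ (w + β w v • v) := by
  have hs := P.left.mem v hva
  have hr := P.right.mem v hvb
  rw [hφ] at hs
  rw [hχ] at hr
  refine ⟨sg a v 0 * sg b v 1, mul_mem hs hr, ?_, fun w hwa hwb => ?_⟩
  · have hva' : β v a = 0 := by rw [bil_comm]; exact hva
    have hvb' : β v b = 0 := by rw [bil_comm]; exact hvb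
    simp only [app_mul, app_sg hva, app_sg hvb, map_add, map_smul, LinearMap.add_apply,
      LinearMap.smul_apply, smul_eq_mul, bil_self, P.bil, P.bil', hva, hvb, hva', hvb']
    match_scalars <;> grind
  · have hwa' : β w a = 0 := by rw [bil_comm]; exact hwa
    have hwb' : β w b = 0 := by rw [bil_comm]; exact hwb
    have hva' : β v a = 0 := by rw [bil_comm]; exact hva
    have hvb' : β v b = 0 := by rw [bil_comm]; exact hvb
    have he : (sg a v 0 * sg b v 1)⁻¹ ⋆ w = (w + β w v • v) + β w v • a := by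
      rw [_root_.mul_inv_rev, sg_inv, sg_inv]
      simp only [app_mul, app_sg hva, app_sg hvb, map_add, map_smul, LinearMap.add_apply,
        LinearMap.smul_apply, smul_eq_mul, bil_self, P.bil, P.bil', hva, hvb, hva', hvb', hwa',
        hwb']
      match_scalars <;> grind
    rw [he, P.left.map_add_smul _ _ (by simp [hwa, hva])]

lemma QPair.move_to_sum (P : QPair L a b φ χ) (hF : ∀ x : F, x = 0 ∨ x = 1) {x : V}
    (hx : P.form x = 1) : ∃ l ∈ L, l ⋆ x = a + b := by
  have one : ∀ {x : V} {a b : V} {φ χ : V → F} (P : QPair L a b φ χ), P.form x = 1 → β x a = 1 →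
      ∃ l ∈ L, l ⋆ x = a + b := by
    intro x a b φ χ P hx hxa
    set w := wProj a b x with hw
    have hwa : β a w = 0 := P.wProj_left x
    have hwb : β b w = 0 := P.wProj_right x
    refine ⟨_, P.left.mem w hwa, ?_⟩
    have hxw : β x w = 0 := by rw [hw, wProj_apply]; simp [hxa]; grind
    rw [P.form_apply, hxa, one_mul, ← hw] at hx
    rw [app_sg hwa, hxw, hxa, show φ w = 1 + β x b by grind, one_smul, zero_smul, add_zero,
      mul_one, hw, wProj_apply, hxa, one_smul]
    match_scalars <;> grind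
  rcases hF (β x a) with hxa | hxa
  swap
  · exact one P hx hxa
  rcases hF (β x b) with hxb | hxb
  swap
  · obtain ⟨l, hl, h⟩ := one P.symm (by rw [P.form_symm]; exact hx) hxb
    exact ⟨l, hl, by rw [h, add_comm]⟩
  have hxa' : β a x = 0 := by rw [bil_comm]; exact hxa
  have hxb' : β b x = 0 := by rw [bil_comm]; exact hxb
  have hx0 : x ≠ 0 := fun h => by rw [h, map_zero] at hx; exact zero_ne_one hx
  obtain ⟨u, hua, hub, hxu⟩ := P.exists_partner hx0 hxa' hxb'
  obtain ⟨l, hl, h⟩ := one P.symm (x := sg a u (φ u) ⋆ x)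
    (by rw [P.form_symm, P.form_left_elem hua, hx]) (by simp [app_sg hua, hxa, hxb, hxu, P.bil])
  exact ⟨l * sg a u (φ u), mul_mem hl (P.left.mem u hua), by rw [app_mul, h, add_comm]⟩

lemma QPair.mono_eq (P : QPair L a b φ χ) {u : V} (hua : β a u = 0) (hub : β b u = 0)
    (hu : φ u = 1) : tv (a + b) 1 * tv u 1 ∈ L := by
  obtain ⟨m, hm, -, hma, hmb, hmw⟩ :=
    P.exists_mono hua hub (by rw [hu]; exact one_ne_zero)
  have hext : ∀ x : V, (tv (a + b) 1 * tv u 1) ⋆ x = m ⋆ x := by
    intro x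
    have h1 := hmw (wProj a b x) (P.wProj_left x) (P.wProj_right x)
    have hmx : m ⋆ (wProj a b x) = m ⋆ x + β x b • b + β x a • a := by
      rw [wProj_apply, app_add, app_add, app_smul, app_smul, hma, hmb, hu, inv_one, one_smul,
        one_smul]
    rw [hu, inv_one, one_mul, hmx] at h1
    have hua' : β u a = 0 := by rw [bil_comm]; exact hua
    have hub' : β u b = 0 := by rw [bil_comm]; exact hub
    have h2 : m ⋆ x = m ⋆ x + β x b • b + β x a • a + (β x b • b + β x a • a) := by
      rw [add_assoc (m ⋆ x), add_assoc (m ⋆ x), vec_add_self, add_zero]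
    rw [h2, h1]
    simp only [app_mul, app_tv, wProj_apply, map_add, map_smul, LinearMap.add_apply,
      LinearMap.smul_apply, smul_eq_mul, bil_self, hua, hub, hua', hub', bil_comm a u,
      bil_comm b u]
    match_scalars <;> grind
  rw [ext_app hext]
  exact hm

lemma tv_sq (x : V) : tv x (1 : F) * tv x 1 = 1 := sg_sq _ _ _

/-- Three pairs with one form give all products of two transvections. -/
lemma QPair.all_pairs (P : QPair L a b φ χ) {ξ : V → F} (Q₂ : QPair L a (a + b) φ ξ)
    (Q₃ : QPair L b (a + b) χ ξ) (hn : 2 ≤ n) (hF : ∀ x : F, x = 0 ∨ x = 1) :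
    ∀ x y : V, x ≠ 0 → y ≠ 0 → tv x 1 * tv y 1 ∈ L := by
  set c := a + b with hc
  obtain ⟨u₀, hu₀a, hu₀b, hu₀⟩ := P.exists_ne hn
  have hu₀1 : φ u₀ = 1 := (hF _).resolve_left hu₀
  have hac : a + c = b := vec_add_cancel a b
  have hbc : b + c = a := by rw [hc, add_comm a b, vec_add_cancel]
  have trans : ∀ {x y z : V}, tv x 1 * tv y 1 ∈ L → tv y 1 * tv z 1 ∈ L →
      tv x 1 * tv z 1 ∈ L := by
    intro x y z h1 h2
    have := mul_mem h1 h2
    rwa [mul_assoc, ← mul_assoc (tv y 1), tv_sq, one_mul] at this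
  have symm : ∀ {x y : V}, tv x 1 * tv y 1 ∈ L → tv y 1 * tv x 1 ∈ L := by
    intro x y h
    have := inv_mem h
    rwa [_root_.mul_inv_rev, show ∀ x : V, (tv x (1 : F))⁻¹ = tv x 1 from fun x => sg_inv _ _ _,
      show ∀ x : V, (tv x (1 : F))⁻¹ = tv x 1 from fun x => sg_inv _ _ _] at this
  let K : V → Prop := fun x => tv x 1 * tv c 1 ∈ L
  have hKu : ∀ u, β a u = 0 → β b u = 0 → φ u = 1 → K u := fun u hua hub hu =>
    symm (P.mono_eq hua hub hu)
  have hKc : K c := by show _ ∈ L; rw [tv_sq]; exact one_mem _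
  have hua_c : β c u₀ = 0 := by simp [hc, hu₀a, hu₀b]
  have hKb : K b := by
    refine trans (y := u₀) ?_ (hKu u₀ hu₀a hu₀b hu₀1)
    have := Q₂.mono_eq hu₀a hua_c hu₀1
    rwa [hac] at this
  have hKa : K a := by
    refine trans (y := u₀) ?_ (hKu u₀ hu₀a hu₀b hu₀1)
    have := Q₃.mono_eq hu₀b hua_c (by rw [P.same _ hu₀a hu₀b, hu₀1])
    rwa [hbc] at this
  have hmove : ∀ g ∈ L, (g ⋆ a = a ∨ g ⋆ b = b) → ∀ x, K x → K (g ⋆ x) := by
    intro g hg hfix x hx
    obtain ⟨z, hz, hgz⟩ : ∃ z, K z ∧ g ⋆ z = z := by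
      rcases hfix with h | h
      exacts [⟨a, hKa, h⟩, ⟨b, hKb, h⟩]
    have h1 := mul_mem (mul_mem hg (trans hx (symm hz))) (inv_mem hg)
    have he : g * (tv x 1 * tv z 1) * g⁻¹ = tv (g ⋆ x) 1 * tv (g ⋆ z) 1 := by
      rw [← conj_tv (P.le hg), ← conj_tv (P.le hg)]; group
    rw [he, hgz] at h1
    exact trans h1 hz
  have hS : ∀ v, β a v = 0 → ∀ x, K x → K (sg a v (φ v) ⋆ x) := fun v hv =>
    hmove _ (P.left.mem v hv) (Or.inl (by simp [app_sg hv, hv]))
  have hR : ∀ v, β b v = 0 → ∀ x, K x → K (sg b v (χ v) ⋆ x) := fun v hv =>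
    hmove _ (P.right.mem v hv) (Or.inr (by simp [app_sg hv, hv]))
  have hall : ∀ w, β a w = 0 → β b w = 0 → K (a + w) ∧ K (b + w) ∧ K (a + b + w) := by
    intro w hwa hwb
    have hwa' : β w a = 0 := by rw [bil_comm]; exact hwa
    have hwb' : β w b = 0 := by rw [bil_comm]; exact hwb
    have hcw : β c w = 0 := by simp [hc, hwa, hwb]
    have h1 := hS w hwa b hKb
    have h2 := hS w hwa c hKc
    have h3 := hR w hwb a hKa
    have h4 := hR w hwb c hKc
    rw [P.same w hwa hwb] at h3 h4
    simp only [app_sg hwa, app_sg hwb, hc, map_add, LinearMap.add_apply, bil_self, P.bil, P.bil',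
      hwa, hwb, zero_add, add_zero, one_smul, zero_smul, mul_one] at h1 h2 h3 h4
    rcases hF (φ w) with h | h <;> rw [h] at h1 h2 h3 h4 <;>
      simp only [zero_smul, one_smul, add_zero] at h1 h2 h3 h4
    · refine ⟨?_, h1, ?_⟩
      · exact h3
      · exact h2
    · refine ⟨?_, ?_, ?_⟩
      · convert h4 using 1; funext i; simp; grind
      · convert h2 using 1; funext i; simp; grind
      · convert h1 using 1; funext i; simp; grind
  have hK : ∀ x : V, x ≠ 0 → K x := by
    intro x hx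
    have hdec : x = wProj a b x + β x b • a + β x a • b := by
      rw [wProj_apply]; funext i; simp; grind
    obtain ⟨h1, h2, h3⟩ := hall _ (P.wProj_left x) (P.wProj_right x)
    rcases hF (β x b) with hb' | hb' <;> rcases hF (β x a) with ha' | ha'
    · -- in `W`
      have hxa : β a x = 0 := by rw [bil_comm]; exact ha'
      have hxb : β b x = 0 := by rw [bil_comm]; exact hb'
      obtain ⟨u, hua, hub, hxu⟩ := P.exists_partner hx hxa hxb
      have := hS u hua _ (hall x hxa hxb).1
      simpa [app_sg hua, hua, ha', hxu, add_comm a x, add_assoc, vec_add_self] using this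
    · rw [hdec, hb', ha']; simpa [add_comm b] using h2
    · rw [hdec, hb', ha']; simpa [add_comm a] using h1
    · rw [hdec, hb', ha', one_smul, one_smul,
        show wProj a b x + a + b = a + b + wProj a b x by abel]
      exact h3
  exact fun x y hx hy => trans (hK x hx) (symm (hK y hy))

/-- A group containing all products of two transvections. -/
theorem sp_or_A6_of_pairs [Fintype F] (hL : L ≤ Sp) (hn : 2 ≤ n) (hF : ∀ x : F, x = 0 ∨ x = 1)
    (h : ∀ x y : V, x ≠ 0 → y ≠ 0 → tv x 1 * tv y 1 ∈ L) :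
    Cfsg.spGL n F ≤ L ∨ (Fintype.card F = 2 ∧ n = 2 ∧
      Nonempty (↥L ≃* ↥(alternatingGroup (Fin 6)))) := by
  classical
  have hcard : Fintype.card F = 2 := by
    refine le_antisymm ?_ Fintype.one_lt_card
    rw [← Finset.card_univ]
    exact (Finset.card_le_card (fun x _ => by rcases hF x with rfl | rfl <;> simp :
      (Finset.univ : Finset F) ⊆ {0, 1})).trans Finset.card_le_two
  let j : Matrix.symplecticGroup (Fin n) F →* G :=
    (Cfsg.spGL n F).subtype.comp (Linear.Symp.toSpGL (F := F) (m := n)).toMonoidHom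
  have hjtau : ∀ v c, j (Linear.Symp.tau v c) = tv v c := fun v c => by
    rw [tv_eq_spTau]; rfl
  set K := L.comap j with hK
  set S := {g | ∃ x y : V, x ≠ 0 ∧ y ≠ 0 ∧ g = Linear.Symp.tau x (1 : F) * Linear.Symp.tau y 1}
  set E := Subgroup.closure S with hE
  have hEK : E ≤ K := by
    rw [hE, Subgroup.closure_le]
    rintro _ ⟨x, y, hx, hy, rfl⟩
    show j _ ∈ L
    rw [map_mul, hjtau, hjtau]
    exact h x y hx hy
  have hne : ∀ (g : Matrix.symplecticGroup (Fin n) F) (x : V), x ≠ 0 →
      Linear.Symp.app g x ≠ 0 := fun g x hx h0 => hx (by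
    have := congrArg (Linear.Symp.app g⁻¹) h0
    rw [Linear.Symp.app_inv_app] at this
    rw [this]; exact Matrix.mulVec_zero _)
  have hnorm : E.Normal := by
    refine Subgroup.Normal.of_conjugate_fixed fun g => ?_
    have hle : ∀ g : Matrix.symplecticGroup (Fin n) F, E.map (MulAut.conj g).toMonoidHom ≤ E := by
      intro g
      rw [hE, MonoidHom.map_closure, Subgroup.closure_le]
      rintro _ ⟨_, ⟨x, y, hx, hy, rfl⟩, rfl⟩
      refine Subgroup.subset_closure
        ⟨Linear.Symp.app g x, Linear.Symp.app g y, hne g x hx, hne g y hy, ?_⟩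
      show g * (Linear.Symp.tau x 1 * Linear.Symp.tau y 1) * g⁻¹ = _
      rw [← Linear.Symp.tau_conj, ← Linear.Symp.tau_conj]
      group
    refine le_antisymm (hle g) fun z hz => ?_
    have := hle g⁻¹ ⟨z, hz, rfl⟩
    refine ⟨_, this, ?_⟩
    simp [mul_assoc]
  let π := QuotientGroup.mk' E
  obtain ⟨z, hz⟩ : ∃ z : V, z ≠ 0 := by
    refine ⟨Pi.single (Sum.inl ⟨0, by omega⟩) 1, fun h => ?_⟩
    simpa using congrFun h (Sum.inl ⟨0, by omega⟩)
  set t := π (Linear.Symp.tau z (1 : F)) with ht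
  have htop : (Subgroup.zpowers t).comap π = ⊤ := by
    refine Linear.Symp.closure_tau_le fun v c => ?_
    rw [Subgroup.mem_comap]
    rcases hF c with rfl | rfl
    · rw [Linear.Symp.tau_zero, map_one]; exact one_mem _
    rcases eq_or_ne v 0 with rfl | hv
    · rw [Linear.Symp.tau_zero_vec, map_one]; exact one_mem _
    have h1 : π (Linear.Symp.tau v 1 * Linear.Symp.tau z 1) = 1 :=
      (QuotientGroup.eq_one_iff _).2 (Subgroup.subset_closure ⟨v, z, hv, hz, rfl⟩)
    rw [map_mul, ← ht] at h1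
    rw [eq_inv_of_mul_eq_one_left h1]
    exact inv_mem (Subgroup.mem_zpowers _)
  have hgen : ∀ g, ∃ k : ℤ, t ^ k = π g := fun g =>
    Subgroup.mem_zpowers_iff.1 (show π g ∈ Subgroup.zpowers t by
      rw [← Subgroup.mem_comap, htop]; trivial)
  have hcomm : commutator (Matrix.symplecticGroup (Fin n) F) ≤ E := by
    rw [commutator_def, Subgroup.commutator_le]
    intro g _ g' _
    obtain ⟨i, hi⟩ := hgen g
    obtain ⟨i', hi'⟩ := hgen g'
    refine (QuotientGroup.eq_one_iff _).1 ?_
    show π ⁅g, g'⁆ = 1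
    rw [map_commutatorElement, commutatorElement_eq_one_iff_commute, ← hi, ← hi']
    exact Commute.zpow_zpow_self t i i'
  have hofK : K = ⊤ → Cfsg.spGL n F ≤ L := by
    intro hK' g hg
    have hmem : Linear.Symp.toSpGL.symm ⟨g, hg⟩ ∈ K := by rw [hK']; trivial
    simpa [K, j] using hmem
  rcases Nat.lt_or_ge n 3 with h2 | h3
  swap
  · exact Or.inl (hofK (eq_top_iff.2
      ((Linear.Symp.commutator_eq_top (Or.inl h3)).symm.le.trans (hcomm.trans hEK))))
  obtain rfl : n = 2 := by omega
  have hidx : E.index ≤ 2 := by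
    rw [Subgroup.index_eq_card]
    have htt : t ^ 2 = 1 := by
      rw [ht, ← map_pow, sq, Linear.Symp.tau_sq_one CharTwo.two_eq_zero, map_one]
    calc Nat.card (_ ⧸ E) ≤ Nat.card (Subgroup.zpowers t) := by
          refine Nat.card_le_card_of_surjective (fun s => (s : _ ⧸ E)) fun q => ?_
          obtain ⟨g, rfl⟩ := QuotientGroup.mk'_surjective E q
          obtain ⟨i, hi⟩ := hgen g
          exact ⟨⟨t ^ i, Subgroup.zpow_mem_zpowers t i⟩, hi⟩
      _ = orderOf t := Nat.card_zpowers t
      _ ≤ 2 := orderOf_le_of_pow_eq_one two_pos htt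
  obtain ⟨e⟩ := Linear.Symp.sp_four_two_iso hcard
  have hKidx : (K.map e.toMonoidHom).index ≤ 2 := by
    have hdvd := Subgroup.index_dvd_of_le hEK
    rw [show (K.map e.toMonoidHom).index = K.index from Subgroup.index_map_equiv K e]
    exact (Nat.le_of_dvd (Nat.pos_of_ne_zero Subgroup.index_ne_zero_of_finite) hdvd).trans hidx
  by_cases h1 : K = ⊤
  · exact Or.inl (hofK h1)
  refine Or.inr ⟨hcard, rfl, ?_⟩
  have hne1 : (K.map e.toMonoidHom).index ≠ 1 := fun hh => h1 (by
    have := Subgroup.index_map_equiv K e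
    rw [show (K.map e.toMonoidHom).index = _ from this] at hh
    exact Subgroup.index_eq_one.1 hh)
  have hpos : (K.map e.toMonoidHom).index ≠ 0 := Subgroup.index_ne_zero_of_finite
  have hA : K.map e.toMonoidHom = alternatingGroup (Fin 6) :=
    Equiv.Perm.eq_alternatingGroup_of_index_eq_two (by omega)
  have hrange : L ≤ j.range := fun g hg =>
    ⟨Linear.Symp.toSpGL.symm ⟨g, hL hg⟩, by simp [j]⟩
  have hjinj : Function.Injective j :=
    Subtype.val_injective.comp (Linear.Symp.toSpGL (F := F) (m := 2)).injective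
  have e1 : ↥K ≃* ↥L :=
    (K.equivMapOfInjective j hjinj).trans
      (MulEquiv.subgroupCongr (Subgroup.map_comap_eq_self hrange))
  exact ⟨e1.symm.trans ((e.subgroupMap K).trans (MulEquiv.subgroupCongr hA))⟩

end Cfsg.Agent.MaxSub.RootGroup
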