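import Cfsg.Agent.MaxSub.RootGroup.Lines

/-!
If a root group is accompanied by one transvection, the group is the whole symplectic group.
-/

set_option autoImplicit false
set_option maxHeartbeats 400000

namespace Cfsg.Agent.MaxSub.RootGroup

open Matrix Cfsg.Agent.Forms

variable {F : Type*} [Field F] [CharP F 2] {n : ℕ}

local notation "V" => (Fin n ⊕ Fin n → F)
local notation "G" => GL (Fin n ⊕ Fin n) F
local notation "β" => sympBil n F
local infixr:73 " ⋆ " => app

variable {L : Subgroup (GL (Fin n ⊕ Fin n) F)} {a b c : Fin n ⊕ Fin n → F}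
  {φ χ ξ : (Fin n ⊕ Fin n → F) → F}

lemma scal_smul {μ γ : F} (hμ : μ ≠ 0) (h : γ ∈ scal L c) : γ / μ ^ 2 ∈ scal L (μ • c) := by
  rwa [mem_scal, tv_smul, mul_div_cancel₀ _ (pow_ne_zero 2 hμ)]

lemma scal_top_of_sq [Fintype F] {r : F} (hr : r ≠ 0) (h : ∀ y : F, r * y ^ 2 ∈ scal L c) (γ : F) :
    γ ∈ scal L c := by
  obtain ⟨y, hy⟩ := exists_sq (γ / r)
  have := h y
  rwa [hy, mul_div_cancel₀ _ hr] at this

/-- An element `sg c (ε a) γ` of `L` bounds the form on the line through `c`. -/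
lemma Root.phi_line (hr : Root L a φ) (hL : L ≤ Sp) {w : V} (hac : β a c = 0) (hw : β a w = 0)
    {ε γ : F} (h : sg c (ε • a) γ ∈ L) :
    φ ((γ * β w c) • c) + γ * β w c ^ 2 ∈ scal L a := by
  have hca : β c (ε • a) = 0 := by simp [bil_comm c a, hac]
  have ha : sg c (ε • a) γ ⋆ a = a := by simp [app_sg hca, hac]
  have hwa : β w a = 0 := by rw [bil_comm]; exact hw
  have hm := hr.stab_mem_scal hL h ha hw
  have hhw : sg c (ε • a) γ ⋆ w = (w + (γ * β w c) • c) + (β w c * ε) • a := by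
    rw [app_sg hca, map_smul, hwa, smul_zero, zero_smul, smul_smul, add_zero]
    abel
  rw [hhw, hr.map_add_smul _ _ (by simp [hw, hac]),
    hr.map_add _ _ hw (by simp [hac]), map_smul, smul_eq_mul] at hm
  convert hm using 1
  grind

/-- The key step: a second root centre near `a` forces all transvections at `a`. -/
lemma Root.scal_top_of_near [Fintype F] (ha : Root L a φ) (hc : Root L c ξ) (hL : L ≤ Sp)
    {w : V} (hac : β a c = 0) (hw : β a w = 0) (hwc : β w c = 1) {γ₀ : F} (hγ₀ : γ₀ ≠ 0)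
    (hγ : γ₀ ∈ scal L c) (γ : F) : γ ∈ scal L a := by
  have hca : β c a = 0 := by rw [bil_comm]; exact hac
  have hline : ∀ {ε δ : F}, sg c (ε • a) δ ∈ L → ∀ ν : F,
      φ ((δ * ν) • c) + δ * ν ^ 2 ∈ scal L a := by
    intro ε δ h ν
    have := ha.phi_line hL hac (w := ν • w) (by simp [hw]) h
    simpa [hwc] using this
  have htv : sg c ((0 : F) • a) γ₀ ∈ L := by rw [zero_smul]; exact hγ
  by_cases hall : ∀ ε : F, ξ (ε • a) ∈ scal L c
  · have hφ : ∀ ε : F, φ (ε • c) ∈ scal L a := by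
      intro ε
      have hcε : β c (ε • a) = 0 := by simp [hca]
      have h := mul_mem (hc.mem _ hcε) (hall ε)
      rw [sg_mul_tv hcε, CharTwo.add_self_eq_zero] at h
      have he : sg c (ε • a) 0 = sg a (ε • c) 0 := by
        refine ext_app fun x => ?_
        rw [app_sg hcε, app_sg (by simp [hac])]
        simp only [map_smul, smul_eq_mul, zero_mul, zero_smul, add_zero, smul_smul]
        rw [mul_comm (β x c) ε, mul_comm (β x a) ε]
        abel
      rw [he] at h
      have := ha.add_mem_scal (by simp [hac]) h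
      simpa using this
    refine scal_top_of_sq hγ₀ (fun y => ?_) γ
    have := (scal L a).add_mem (hline htv y) (hφ (γ₀ * y))
    convert this using 1
    grind
  · push Not at hall
    obtain ⟨ε, hε⟩ := hall
    have hmem := hc.mem (ε • a) (by simp [hca])
    set γ₁ := ξ (ε • a)
    have hγ₁ : γ₁ ≠ 0 := fun h => hε (by rw [h]; exact zero_mem _)
    have hne : γ₀ ≠ γ₁ := fun h => hε (h ▸ hγ)
    have hr : γ₀⁻¹ + γ₁⁻¹ ≠ 0 := by
      intro h
      apply hne
      field_simp at h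
      grind
    refine scal_top_of_sq hr (fun y => ?_) γ
    have h0 := hline htv (y / γ₀)
    have h1 := hline hmem (y / γ₁)
    rw [mul_div_cancel₀ _ hγ₀] at h0
    rw [mul_div_cancel₀ _ hγ₁] at h1
    have := (scal L a).add_mem h0 h1
    convert this using 1
    field_simp
    grind

lemma RPair.scal_top_left [Fintype F] (P : RPair L a b φ χ) {e : V} (he : e ≠ 0) (hea : β a e = 0)
    (heb : β b e = 0) {γa γb : F} (hγa : γa ≠ 0) (hγb : γb ≠ 0) (hsa : γa ∈ scal L a)
    (hsb : γb ∈ scal L b) (hv : ∀ v : V, v ≠ 0 → β a v = 0 → β b v = 0 → φ v ≠ 0) (γ : F) :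
    γ ∈ scal L a := by
  by_cases hv' : ∃ v : V, v ≠ 0 ∧ β a v = 0 ∧ β b v = 0 ∧ χ v = 0
  · obtain ⟨v, hv0, hva, hvb, hχ⟩ := hv'
    obtain ⟨w, hwa, hwb, hvw⟩ := P.exists_partner hv0 hva hvb
    have hr := P.right.mem v hvb
    have hgav : sg b v (χ v) ⋆ a = a + v := by simp [app_sg hvb, P.bil, hva, hχ]
    have hroot := P.left.map P.le hr
    have hscal := scal_map P.le hr hsa
    rw [hgav] at hroot hscal
    exact P.left.scal_top_of_near hroot P.le (w := w) (by simp [hva]) hwa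
      (by simp [bil_comm w a, hwa, bil_comm w v, hvw]) hγa hscal γ
  push Not at hv'
  obtain ⟨e', he'a, he'b, hee⟩ := P.exists_partner he hea heb
  have hκ : χ ((1 : F) • e) ≠ 0 := by rw [one_smul]; exact hv' e he hea heb
  have hline : ∀ σ : F, σ ≠ 0 → ∃ g ∈ L, ∃ ν ε : F, ν ≠ 0 ∧ g ⋆ b = ν • a + ε • e ∧
      ν * 1 + χ ((1 : F) • e) * ν * ε = σ := by
    intro σ hσ
    obtain ⟨g, hg, ν, ε, hν, hgb, -, hσ', -⟩ :=
      P.line hea heb hee (σ := σ) (τ := 1)
        (hv _ (smul_ne_zero hσ he) (by simp [hea]) (by simp [heb])) hκ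
    exact ⟨g, hg, ν, ε, hν, hgb, hσ'⟩
  by_cases hall : ∀ σ : F, σ ≠ 0 → ∃ g ∈ L, g ⋆ b = σ • a
  · refine scal_top_of_sq hγb (fun y => ?_) γ
    rcases eq_or_ne y 0 with rfl | hy
    · simp
    obtain ⟨g, hg, hgb⟩ := hall y hy
    have h := scal_map P.le hg hsb
    rw [hgb, mem_scal, tv_smul, mul_comm] at h
    exact h
  push Not at hall
  obtain ⟨σ, hσ, hno⟩ := hall
  obtain ⟨g, hg, ν, ε, hν, hgb, hσ'⟩ := hline σ hσ
  rcases eq_or_ne ε 0 with rfl | hε
  · simp only [mul_zero, add_zero, mul_one] at hσ'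
    exact absurd (by rw [hgb, hσ', zero_smul, add_zero]) (hno g hg)
  have hroot := (P.right.map P.le hg).smul (inv_ne_zero hν)
  have hscal := scal_smul (inv_ne_zero hν) (scal_map P.le hg hsb)
  have hc : ν⁻¹ • g ⋆ b = a + (ν⁻¹ * ε) • e := by
    rw [hgb, smul_add, inv_smul_smul₀ hν, smul_smul]
  rw [hc] at hroot hscal
  refine P.left.scal_top_of_near hroot P.le (w := (ν * ε⁻¹) • e') (by simp [hea]) (by simp [he'a]) ?_
    (div_ne_zero hγb (pow_ne_zero 2 (inv_ne_zero hν))) hscal γ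
  simp [bil_comm e' a, he'a, bil_comm e' e, hee]
  field_simp

/-- A transvection next to root groups with non-orthogonal centres gives the symplectic group. -/
theorem RPair.sp_le [Fintype F] (P : RPair L a b φ χ) (hn : 2 ≤ n) {g₀ : G} (hg₀ : g₀ ∈ L)
    {μ : F} (hμ : μ ≠ 0) (hb : b = μ • g₀ ⋆ a) {γ₀ : F} (hγ₀ : γ₀ ≠ 0) (hs : γ₀ ∈ scal L a) :
    Cfsg.spGL n F ≤ L := by
  obtain ⟨e, he0, hea, heb⟩ := exists_perp_pair (F := F) hn a b
  have hsb : γ₀ / μ ^ 2 ∈ scal L b := hb ▸ scal_smul hμ (scal_map P.le hg₀ hs)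
  have hb' : g₀⁻¹ ⋆ b = μ • a := by rw [hb, app_smul, app_inv_app]
  have hback : (∀ γ, γ ∈ scal L b) → ∀ γ, γ ∈ scal L a := by
    intro h γ
    have h' := scal_map P.le (inv_mem hg₀) (h (γ / μ ^ 2))
    rwa [hb', mem_scal, tv_smul, mul_div_cancel₀ _ (pow_ne_zero 2 hμ)] at h'
  have hforth : (∀ γ, γ ∈ scal L a) → ∀ γ, γ ∈ scal L b := by
    intro h γ
    have h' := scal_smul hμ (scal_map P.le hg₀ (h (γ * μ ^ 2)))
    rwa [← hb, mul_div_cancel_right₀ _ (pow_ne_zero 2 hμ)] at h'
  have htop : ∀ γ, γ ∈ scal L a := by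
    by_cases hφ : ∀ v : V, v ≠ 0 → β a v = 0 → β b v = 0 → φ v ≠ 0
    · exact P.scal_top_left he0 hea heb hγ₀ (div_ne_zero hγ₀ (pow_ne_zero 2 hμ)) hs hsb hφ
    push Not at hφ
    obtain ⟨v, hv0, hva, hvb, hφv⟩ := hφ
    obtain ⟨w, hwa, hwb, hvw⟩ := P.exists_partner hv0 hva hvb
    have hr := P.left.mem v hva
    have hgav : sg a v (φ v) ⋆ b = b + v := by simp [app_sg hva, P.bil', hvb, hφv]
    have hroot := P.right.map P.le hr
    have hscal := scal_map P.le hr hsb
    rw [hgav] at hroot hscal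
    exact hback fun γ => P.right.scal_top_of_near hroot P.le (w := w) (by simp [hvb]) hwb
      (by simp [bil_comm w b, hwb, bil_comm w v, hvw]) (div_ne_zero hγ₀ (pow_ne_zero 2 hμ)) hscal γ
  have htopb := hforth htop
  -- every vector is a centre
  have hsg : ∀ u γ, β a u = 0 → sg a u γ ∈ L := fun u γ hu => by
    have := mul_mem (P.left.mem u hu) (htop (φ u + γ))
    rwa [sg_mul_tv hu, ← add_assoc, CharTwo.add_self_eq_zero, zero_add] at this
  have hsgb : ∀ u γ, β b u = 0 → sg b u γ ∈ L := fun u γ hu => by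
    have := mul_mem (P.right.mem u hu) (htopb (χ u + γ))
    rwa [sg_mul_tv hu, ← add_assoc, CharTwo.add_self_eq_zero, zero_add] at this
  let C : V → Prop := fun x => ∀ γ, γ ∈ scal L x
  have hCsmul : ∀ (x : V) (t : F), C x → C (t • x) := by
    intro x t hx γ
    rw [mem_scal, tv_smul]
    exact hx _
  have hCmap : ∀ (x : V) (g : G), g ∈ L → C x → C (g ⋆ x) :=
    fun x g hg hx γ => scal_map P.le hg (hx γ)
  have hCa : ∀ x, β x a ≠ 0 → C x := by
    intro x hx
    set k := β x a with hk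
    set y := k⁻¹ • x with hy
    set u := y + b + β b y • a with hu
    have hya : β a y = 1 := by rw [bil_comm, hy]; simp [← hk, hx]
    have hua : β a u = 0 := by simp [hu, hya, P.bil]; grind
    have hub : β b u = 0 := by simp [hu, P.bil']; grind
    have h := hCmap b _ (hsg u (β b y) hua) htopb
    have he : sg a u (β b y) ⋆ b = y := by
      rw [app_sg hua, P.bil', hub, hu, one_smul, zero_smul, add_zero, mul_one]
      funext i; simp; grind
    rw [he] at h
    have := hCsmul y k h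
    rwa [hy, smul_inv_smul₀ hx] at this
  have hCb : ∀ x, β x b ≠ 0 → C x := by
    intro x hx
    set k := β x b with hk
    set y := k⁻¹ • x with hy
    set u := y + a + β a y • b with hu
    have hyb : β b y = 1 := by rw [bil_comm, hy]; simp [← hk, hx]
    have hub : β b u = 0 := by simp [hu, hyb, P.bil']; grind
    have hua : β a u = 0 := by simp [hu, P.bil]; grind
    have h := hCmap a _ (hsgb u (β a y) hub) htop
    have he : sg b u (β a y) ⋆ a = y := by
      rw [app_sg hub, P.bil, hua, hu, one_smul, zero_smul, add_zero, mul_one]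
      funext i; simp; grind
    rw [he] at h
    have := hCsmul y k h
    rwa [hy, smul_inv_smul₀ hx] at this
  refine GeoClasses.spGL_le_of_spTau_mem fun x γ => ?_
  rw [← tv_eq_spTau]
  rcases eq_or_ne x 0 with rfl | hx
  · rw [show tv (0 : V) γ = 1 from ext_app fun y => by simp]; exact one_mem _
  by_cases hxa : β x a = 0
  swap
  · exact hCa x hxa γ
  by_cases hxb : β x b = 0
  swap
  · exact hCb x hxb γ
  obtain ⟨u, hua, hub, hxu⟩ := P.exists_partner hx (by rw [bil_comm]; exact hxa)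
    (by rw [bil_comm]; exact hxb)
  have h := hCmap _ _ (hsg u 0 hua) (hCb (x + a) (by simp [hxb, P.bil]))
  have he : sg a u 0 ⋆ (x + a) = x := by
    simp [app_sg hua, hxa, hxu, hua, add_assoc, vec_add_self]
  rw [he] at h
  exact h γ

end Cfsg.Agent.MaxSub.RootGroup
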