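import Cfsg.Agent.MaxSub.RootGroup.Forms

/-!
Two root groups over two elements whose forms differ: the group permutes a spread of five lines and
is the symmetric group of degree five.
-/

set_option autoImplicit false
set_option maxHeartbeats 800000

namespace Cfsg.Agent.MaxSub.RootGroup

open Matrix Cfsg.Agent.Forms

namespace Five

/-- Vectors in coordinates. -/
abbrev B4 := Bool × Bool × Bool × Bool

/-- Addition of coordinate vectors. -/
def badd (x y : B4) : B4 := (x.1 ^^ y.1, x.2.1 ^^ y.2.1, x.2.2.1 ^^ y.2.2.1, x.2.2.2 ^^ y.2.2.2)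

/-- The form in coordinates. -/
def bil : B4 → B4 → Bool
  | (p, q, r, t), (p', q', r', t') => (p && q') ^^ (q && p') ^^ (r && t') ^^ (t && r')

/-- The four generators in coordinates. -/
def genB : Fin 4 → B4 → B4
  | 0, (p, q, r, t) => (p ^^ t ^^ q, q, r ^^ q, t)
  | 1, (p, q, r, t) => (p ^^ r, q, r, t ^^ q)
  | 2, (p, q, r, t) => (p, q ^^ t, r ^^ p, t)
  | 3, (p, q, r, t) => (p, q ^^ r ^^ p, r, t ^^ p)

/-- The line of the spread through a vector. -/
def line : B4 → Fin 5
  | (p, q, r, t) =>
    if !q && !t then 0 else if !p && !r then 1 else if p == q && r == t then 2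
    else if (p, q, r, t) == (true, false, false, true) || (p, q, r, t) == (false, true, true, true)
      || (p, q, r, t) == (true, true, true, false) then 3 else 4

/-- A vector on each line. -/
def rep : Fin 5 → B4
  | 0 => (true, false, false, false)
  | 1 => (false, true, false, false)
  | 2 => (true, true, false, false)
  | 3 => (true, false, false, true)
  | 4 => (true, false, true, true)

/-- A word in the generators carrying the first basis vector to a given one. -/
def word : B4 → List (Fin 4)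
  | (false, false, false, true) => [0, 2, 0, 3]
  | (false, false, true, false) => [1, 2]
  | (false, false, true, true) => [0, 3, 2]
  | (false, true, false, false) => [0, 3, 0, 3]
  | (false, true, false, true) => [0, 2, 0, 3, 2]
  | (false, true, true, false) => [3, 1, 2]
  | (false, true, true, true) => [2, 0, 3, 2]
  | (true, false, false, false) => []
  | (true, false, false, true) => [2, 0, 3]
  | (true, false, true, false) => [2]
  | (true, false, true, true) => [3, 2]
  | (true, true, false, false) => [1, 3]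
  | (true, true, false, true) => [3]
  | (true, true, true, false) => [3, 0, 3]
  | (true, true, true, true) => [0, 3]
  | (false, false, false, false) => []

/-- The zero vector. -/
def zero : B4 := (false, false, false, false)

/-- The first basis vector. -/
def base : B4 := (true, false, false, false)

/-- The second vector of the first line. -/
def base' : B4 := (false, false, true, false)

lemma word_spec : ∀ x : B4, x ≠ zero → (word x).foldr genB base = x := by decide

lemma line_rep : ∀ i, line (rep i) = i ∧ rep i ≠ zero := by decide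

lemma genB_zero : ∀ i x, genB i x = zero ↔ x = zero := by decide

lemma genB_genB : ∀ i x, genB i (genB i x) = x := by decide

lemma genB_line : ∀ i x y, x ≠ zero → y ≠ zero → line x = line y →
    line (genB i x) = line (genB i y) := by decide

lemma line_zero_iff : ∀ x : B4, x ≠ zero → line x = 0 →
    x = base ∨ x = base' ∨ x = badd base base' := by decide

lemma gen_one_line : ∀ i, line (genB 1 (rep i)) = Equiv.swap (2 : Fin 5) 4 i := by decide

/-- A linear map in coordinates. -/
def lin (A C B D : B4) : B4 → B4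
  | (p, q, r, t) => badd (badd (cond p A zero) (cond q B zero))
      (badd (cond r C zero) (cond t D zero))

/-- The first line. -/
def line0 : List B4 := [base, base', badd base base']

/-- The second line. -/
def line1 : List B4 :=
  [(false, true, false, false), (false, false, false, true), (false, true, false, true)]

lemma rigidity_all : (line0.all fun A => line0.all fun C => line1.all fun B => line1.all fun D =>
    !(bil A B && !bil A D && !bil C B && bil C D &&
      (List.finRange 5).all fun i => line (lin A C B D (rep i)) == i) ||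
    (A == base && C == base' && B == (false, true, false, false) &&
      D == (false, false, false, true))) = true := by
  decide

lemma rigidity {A C B D : B4} (hA : A ∈ line0) (hC : C ∈ line0) (hB : B ∈ line1) (hD : D ∈ line1)
    (h1 : bil A B = true) (h2 : bil A D = false) (h3 : bil C B = false) (h4 : bil C D = true)
    (h5 : ∀ i, line (lin A C B D (rep i)) = i) :
    A = base ∧ C = base' ∧ B = (false, true, false, false) ∧ D = (false, false, false, true) := by
  have h := rigidity_all
  simp only [List.all_eq_true] at h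
  have h6 := h A hA C hC B hB D hD
  simpa [h1, h2, h3, h4, h5, and_assoc] using h6

lemma mem_line0 : ∀ x : B4, x ≠ zero → line x = 0 → x ∈ line0 := by decide

lemma mem_line1 : ∀ x : B4, x ≠ zero → line x = 1 → x ∈ line1 := by decide

end Five

open Five (B4 badd)

variable {F : Type*} [Field F] [CharP F 2] {n : ℕ}

local notation "V" => (Fin n ⊕ Fin n → F)
local notation "G" => GL (Fin n ⊕ Fin n) F
local notation "β" => sympBil n F
local infixr:73 " ⋆ " => app

/-- A bit as a field element. -/
def bit (x : Bool) : F := cond x 1 0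

lemma bit_xor (x y : Bool) : (bit (x ^^ y) : F) = bit x + bit y := by
  cases x <;> cases y <;> simp [bit, CharTwo.add_self_eq_zero]

omit [CharP F 2] in
lemma bit_and (x y : Bool) : (bit (x && y) : F) = bit x * bit y := by
  cases x <;> cases y <;> simp [bit]

omit [CharP F 2] in
lemma bit_injective : Function.Injective (bit : Bool → F) := by
  intro x y h
  cases x <;> cases y <;> simp [bit] at h ⊢

/-- The setting: forms `φ = (1,0,0)` and `χ = (0,1,0)` on `e₁, e₂, e₁ + e₂`. -/
structure FiveData (L : Subgroup G) (a b e₁ e₂ : V) (φ χ : V → F) : Prop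
    extends RPair L a b φ χ where
  two : n = 2
  binary : ∀ x : F, x = 0 ∨ x = 1
  rigid : Rigid L a
  a₁ : β a e₁ = 0
  a₂ : β a e₂ = 0
  b₁ : β b e₁ = 0
  b₂ : β b e₂ = 0
  e₁₂ : β e₁ e₂ = 1
  phi₁ : φ e₁ = 1
  phi₂ : φ e₂ = 0
  chi₁ : χ e₁ = 0
  chi₂ : χ e₂ = 1

variable {L : Subgroup (GL (Fin n ⊕ Fin n) F)} {a b e₁ e₂ : Fin n ⊕ Fin n → F}
  {φ χ : (Fin n ⊕ Fin n → F) → F}

/-- The vector with given coordinates. -/
def toV (a b e₁ e₂ : V) (x : B4) : V :=
  (bit x.1 : F) • a + (bit x.2.1 : F) • b + (bit x.2.2.1 : F) • e₁ + (bit x.2.2.2 : F) • e₂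

/-- The generator with a given index. -/
noncomputable def gen (a b e₁ e₂ : V) : Fin 4 → G
  | 0 => sg a e₁ 1
  | 1 => sg a e₂ 0
  | 2 => sg b e₁ 0
  | 3 => sg b e₂ 1

local notation "tV" => toV a b e₁ e₂

/-- The element of a word. -/
noncomputable def wordEl (a b e₁ e₂ : Fin n ⊕ Fin n → F) (x : B4) : GL (Fin n ⊕ Fin n) F :=
  ((Five.word x).map (gen a b e₁ e₂)).prod

namespace FiveData

variable (D : FiveData L a b e₁ e₂ φ χ)

include D

omit D in
lemma toV_badd (x y : B4) : tV (badd x y) = tV x + tV y := by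
  simp only [toV, badd, bit_xor]
  module

omit D in
lemma toV_base : tV Five.base = a ∧ tV Five.base' = e₁ := by
  constructor <;> simp [toV, Five.base, Five.base', bit]

lemma coord (x : B4) : β (tV x) b = bit x.1 ∧ β (tV x) a = bit x.2.1 ∧ β (tV x) e₂ = bit x.2.2.1 ∧
    β (tV x) e₁ = bit x.2.2.2 := by
  have hba := D.bil'
  simp [toV, D.bil, hba, D.a₁, D.a₂, D.b₁, D.b₂, D.e₁₂, bil_comm e₁ a, bil_comm e₂ a,
    bil_comm e₁ b, bil_comm e₂ b, bil_comm e₂ e₁]

lemma toV_injective : Function.Injective (toV a b e₁ e₂ : B4 → V) := by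
  rintro ⟨p, q, r, t⟩ ⟨p', q', r', t'⟩ h
  obtain ⟨h1, h2, h3, h4⟩ := D.coord (p, q, r, t)
  obtain ⟨k1, k2, k3, k4⟩ := D.coord (p', q', r', t')
  rw [h] at h1 h2 h3 h4
  obtain rfl : p = p' := bit_injective (h1.symm.trans k1)
  obtain rfl : q = q' := bit_injective (h2.symm.trans k2)
  obtain rfl : r = r' := bit_injective (h3.symm.trans k3)
  obtain rfl : t = t' := bit_injective (h4.symm.trans k4)
  rfl

lemma bil_toV (x y : B4) : β (tV x) (tV y) = bit (Five.bil x y) := by
  obtain ⟨h1, h2, h3, h4⟩ := D.coord x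
  obtain ⟨p, q, r, t⟩ := x
  obtain ⟨p', q', r', t'⟩ := y
  simp only at h1 h2 h3 h4
  conv_lhs => arg 2; simp only [toV]
  simp only [map_add, map_smul, smul_eq_mul, h1, h2, h3, h4, Five.bil, bit_xor, bit_and]
  ring

lemma toV_surjective : Function.Surjective (toV a b e₁ e₂ : B4 → V) := by
  intro v
  let Φ : V →ₗ[F] (Fin 4 → F) :=
    LinearMap.pi ![(LinearMap.flip β) b, (LinearMap.flip β) a, (LinearMap.flip β) e₂,
      (LinearMap.flip β) e₁]
  have hba := D.bil'
  have hsurj : Function.Surjective Φ := fun c => by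
    refine ⟨c 0 • a + c 1 • b + c 2 • e₁ + c 3 • e₂, funext fun i => ?_⟩
    fin_cases i <;>
      simp [Φ, D.bil, hba, D.a₁, D.a₂, D.b₁, D.b₂, D.e₁₂, bil_comm e₁ a, bil_comm e₂ a,
        bil_comm e₁ b, bil_comm e₂ b, bil_comm e₂ e₁]
  have hinj : Function.Injective Φ := by
    refine (LinearMap.injective_iff_surjective_of_finrank_eq_finrank ?_).2 hsurj
    rw [Module.finrank_fintype_fun_eq_card, Module.finrank_fintype_fun_eq_card, Fintype.card_sum,
      Fintype.card_fin, Fintype.card_fin, D.two]
  classical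
  let f : F → Bool := fun x => decide (x = 1)
  have hf : ∀ x : F, bit (f x) = x := fun x => by
    rcases D.binary x with rfl | rfl <;> simp [f, bit]
  refine ⟨(f (Φ v 0), f (Φ v 1), f (Φ v 2), f (Φ v 3)), hinj (funext fun i => ?_)⟩
  obtain ⟨h1, h2, h3, h4⟩ := D.coord (f (Φ v 0), f (Φ v 1), f (Φ v 2), f (Φ v 3))
  rw [hf] at h1 h2 h3 h4
  fin_cases i
  exacts [h1, h2, h3, h4]

/-- Coordinates. -/
noncomputable def co : B4 ≃ V := Equiv.ofBijective _ ⟨D.toV_injective, D.toV_surjective⟩

lemma toV_eq_zero (x : B4) : tV x = 0 ↔ x = Five.zero := by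
  have h : tV Five.zero = 0 := by simp [toV, Five.zero, bit]
  exact ⟨fun hx => D.toV_injective (hx.trans h.symm), fun hx => hx ▸ h⟩

lemma gen_mem (i : Fin 4) : gen a b e₁ e₂ i ∈ L := by
  fin_cases i
  · simpa [gen, D.phi₁] using D.left.mem e₁ D.a₁
  · simpa [gen, D.phi₂] using D.left.mem e₂ D.a₂
  · simpa [gen, D.chi₁] using D.right.mem e₁ D.b₁
  · simpa [gen, D.chi₂] using D.right.mem e₂ D.b₂

lemma gen_app (i : Fin 4) (x : B4) : gen a b e₁ e₂ i ⋆ tV x = tV (Five.genB i x) := by
  obtain ⟨h1, h2, h3, h4⟩ := D.coord x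
  obtain ⟨p, q, r, t⟩ := x
  simp only at h1 h2 h3 h4
  fin_cases i
  all_goals
    simp only [gen, app_sg D.a₁, app_sg D.a₂, app_sg D.b₁, app_sg D.b₂, h1, h2, h3, h4]
    simp only [toV, Five.genB, bit_xor]
    module

lemma prod_gen (l : List (Fin 4)) : (l.map (gen a b e₁ e₂)).prod ∈ L ∧
    (∀ x, (l.map (gen a b e₁ e₂)).prod ⋆ tV x = tV (l.foldr Five.genB x)) ∧
    ∀ x y, x ≠ Five.zero → y ≠ Five.zero → Five.line x = Five.line y →
      l.foldr Five.genB x ≠ Five.zero ∧
      Five.line (l.foldr Five.genB x) = Five.line (l.foldr Five.genB y) := by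
  induction l with
  | nil => exact ⟨one_mem _, fun x => by simp, fun x y hx _ h => ⟨hx, h⟩⟩
  | cons i l ih =>
    obtain ⟨hl, happ, hline⟩ := ih
    refine ⟨by simpa using mul_mem (D.gen_mem i) hl, fun x => ?_, fun x y hx hy h => ?_⟩
    · rw [List.map_cons, List.prod_cons, app_mul, happ, D.gen_app, List.foldr_cons]
    · obtain ⟨h1, h2⟩ := hline x y hx hy h
      obtain ⟨h1', -⟩ := hline y x hy hx h.symm
      simp only [List.foldr_cons]
      exact ⟨fun h0 => h1 ((Five.genB_zero _ _).1 h0), Five.genB_line _ _ _ h1 h1' h2⟩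

lemma wordEl_mem (x : B4) : wordEl a b e₁ e₂ x ∈ L := (D.prod_gen _).1

lemma wordEl_app_base {x : B4} (hx : x ≠ Five.zero) : wordEl a b e₁ e₂ x ⋆ a = tV x := by
  refine (congrArg (app (wordEl a b e₁ e₂ x))
    (toV_base (a := a) (b := b) (e₁ := e₁) (e₂ := e₂)).1.symm).trans ?_
  rw [wordEl, (D.prod_gen _).2.1, Five.word_spec x hx]

/-- The line of a vector. -/
noncomputable def lineV (v : V) : Fin 5 := Five.line (D.co.symm v)

lemma lineV_toV (x : B4) : D.lineV (tV x) = Five.line x :=
  congrArg Five.line (D.co.symm_apply_apply x)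

lemma wordEl_line {x : B4} {v v' : V} (hv : v ≠ 0) (hv' : v' ≠ 0)
    (h : D.lineV v = D.lineV v') : D.lineV (wordEl a b e₁ e₂ x ⋆ v) = D.lineV (wordEl a b e₁ e₂ x ⋆ v') := by
  obtain ⟨y, rfl⟩ := D.toV_surjective v
  obtain ⟨y', rfl⟩ := D.toV_surjective v'
  rw [D.lineV_toV, D.lineV_toV] at h
  rw [wordEl, (D.prod_gen _).2.1, (D.prod_gen _).2.1, D.lineV_toV, D.lineV_toV]
  exact ((D.prod_gen _).2.2 y y' (fun h0 => hv ((D.toV_eq_zero y).2 h0))
    (fun h0 => hv' ((D.toV_eq_zero y').2 h0)) h).2

/-- An element fixing `a` fixes the first line. -/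
lemma stab_line {h : G} (hh : h ∈ L) (ha : h ⋆ a = a) :
    h ⋆ e₁ = e₁ ∨ h ⋆ e₁ = a + e₁ := by
  have hperp : β a (h ⋆ e₁) = 0 := by
    conv_lhs => rw [← ha]
    rw [bil_app (D.le hh), D.a₁]
  obtain ⟨⟨p, q, r, t⟩, hx⟩ := D.toV_surjective (h ⋆ e₁)
  have hq : q = false := by
    obtain ⟨-, h2, -⟩ := D.coord (p, q, r, t)
    rw [hx, bil_comm, hperp] at h2
    exact bit_injective (F := F) h2.symm
  have hval := D.left.stab_eq D.rigid D.le hh ha D.a₁
  rw [D.phi₁, ← hx] at hval
  subst hq
  have hw : tV (p, false, r, t) = ((bit r : F) • e₁ + (bit t : F) • e₂) + (bit p : F) • a := by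
    simp [toV, bit]; abel
  rw [hw, D.left.map_add_smul _ _ (by simp [D.a₁, D.a₂]),
    D.left.map_add _ _ (by simp [D.a₁]) (by simp [D.a₂]), map_smul, map_smul,
    LinearMap.smul_apply, D.e₁₂] at hval
  rw [← hx, hw]
  have hz := D.left.map_zero
  cases r <;> cases t <;> simp [bit, D.phi₁, D.phi₂, hz] at hval ⊢
  cases p <;> simp [add_comm]

lemma line_base (g : G) (hg : g ∈ L) :
    D.lineV (g ⋆ e₁) = D.lineV (g ⋆ a) ∧ D.lineV (g ⋆ (a + e₁)) = D.lineV (g ⋆ a) := by
  obtain ⟨x, hx⟩ := D.toV_surjective (g ⋆ a)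
  have hx0 : x ≠ Five.zero := fun h => D.left.ne_zero ((app_eq_zero_iff g).1
    (hx.symm.trans ((D.toV_eq_zero x).2 h)))
  set w := wordEl a b e₁ e₂ x
  have hwa : w ⋆ a = g ⋆ a := (D.wordEl_app_base hx0).trans hx
  obtain ⟨h, hhL, hha, hg'⟩ : ∃ h ∈ L, h ⋆ a = a ∧ g = w * h :=
    ⟨w⁻¹ * g, mul_mem (inv_mem (D.wordEl_mem x)) hg,
      app_injective w (by rw [app_mul, app_app_inv, hwa]), (mul_inv_cancel_left w g).symm⟩
  obtain ⟨hb, hb'⟩ := toV_base (a := a) (b := b) (e₁ := e₁) (e₂ := e₂)
  have hsum : tV (badd Five.base Five.base') = a + e₁ := by rw [toV_badd, hb, hb']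
  have l0 : D.lineV a = 0 := (congrArg D.lineV hb.symm).trans ((D.lineV_toV _).trans rfl)
  have l1 : D.lineV e₁ = 0 := (congrArg D.lineV hb'.symm).trans ((D.lineV_toV _).trans rfl)
  have l2 : D.lineV (a + e₁) = 0 := by rw [← hsum, D.lineV_toV]; rfl
  have n1 : e₁ ≠ 0 := fun h => by simpa [h] using D.e₁₂
  have n2 : a + e₁ ≠ 0 := fun h => by
    have := congrArg (fun v => β v b) h
    simp [D.bil, bil_comm e₁ b, D.b₁] at this
  have he := D.stab_line hhL hha
  rw [hg', app_mul, app_mul, app_mul, app_add, hha]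
  constructor <;> rcases he with he | he <;> rw [he]
  · exact D.wordEl_line n1 D.left.ne_zero (l1.trans l0.symm)
  · exact D.wordEl_line n2 D.left.ne_zero (l2.trans l0.symm)
  · exact D.wordEl_line n2 D.left.ne_zero (l2.trans l0.symm)
  · rw [vec_add_cancel]
    exact D.wordEl_line n1 D.left.ne_zero (l1.trans l0.symm)

/-- Every element of `L` respects the spread. -/
lemma respects (g : G) (hg : g ∈ L) {v v' : V} (hv : v ≠ 0) (hv' : v' ≠ 0)
    (h : D.lineV v = D.lineV v') : D.lineV (g ⋆ v) = D.lineV (g ⋆ v') := by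
  obtain ⟨x, rfl⟩ := D.toV_surjective v
  have hx0 : x ≠ Five.zero := fun h0 => hv ((D.toV_eq_zero x).2 h0)
  set w := wordEl a b e₁ e₂ x
  have hwa : w ⋆ a = tV x := D.wordEl_app_base hx0
  obtain ⟨y, rfl⟩ := D.toV_surjective v'
  have hy0 : y ≠ Five.zero := fun h0 => hv' ((D.toV_eq_zero y).2 h0)
  -- the inverse word also respects lines
  have hrev : ∀ l : List (Fin 4), ((l.map (gen a b e₁ e₂)).prod)⁻¹ =
      (l.reverse.map (gen a b e₁ e₂)).prod := by
    intro l
    induction l with
    | nil => simp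
    | cons i l ih =>
      rw [List.map_cons, List.prod_cons, _root_.mul_inv_rev, ih, List.reverse_cons, List.map_append,
        List.prod_append]
      congr 1
      simp only [List.map_cons, List.map_nil, List.prod_cons, List.prod_nil, mul_one]
      fin_cases i <;> exact sg_inv _ _ _
  obtain ⟨-, happ, hline⟩ := D.prod_gen (Five.word x).reverse
  obtain ⟨hz0, hz⟩ := hline y x hy0 hx0 (by rw [← D.lineV_toV, ← D.lineV_toV, h])
  set z := (Five.word x).reverse.foldr Five.genB y
  have hwy : w⁻¹ ⋆ tV y = tV z := by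
    rw [show w⁻¹ = _ from hrev (Five.word x), happ]
  have hbase : (Five.word x).reverse.foldr Five.genB x = Five.base := by
    apply D.toV_injective
    rw [← happ, ← hrev, (toV_base (a := a) (b := b) (e₁ := e₁) (e₂ := e₂)).1, ← hwa]
    exact app_inv_app _ _
  rw [hbase] at hz
  have hcase := Five.line_zero_iff z hz0 hz
  have hy' : tV y = w ⋆ tV z := by rw [← hwy, app_app_inv]
  rw [hy', ← hwa, ← app_mul, ← app_mul]
  obtain ⟨h1, h2⟩ := D.line_base _ (mul_mem hg (D.wordEl_mem x))
  obtain ⟨hb, hb'⟩ := toV_base (a := a) (b := b) (e₁ := e₁) (e₂ := e₂)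
  rcases hcase with hc | hc | hc <;> rw [hc]
  · rw [hb]
  · rw [hb']; exact h1.symm
  · rw [toV_badd, hb, hb']; exact h2.symm

/-- The permutation of the five lines. -/
noncomputable def permFun (g : G) (i : Fin 5) : Fin 5 := D.lineV (g ⋆ tV (Five.rep i))

lemma rep_ne (i : Fin 5) : tV (Five.rep i) ≠ 0 := fun h =>
  (Five.line_rep i).2 ((D.toV_eq_zero _).1 h)

lemma lineV_app (g : G) (hg : g ∈ L) {v : V} (hv : v ≠ 0) :
    D.lineV (g ⋆ v) = D.permFun g (D.lineV v) :=
  D.respects g hg hv (D.rep_ne _) (by rw [D.lineV_toV, (Five.line_rep _).1])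

lemma permFun_mul {g h : G} (hg : g ∈ L) (i : Fin 5) :
    D.permFun (g * h) i = D.permFun g (D.permFun h i) := by
  rw [permFun, app_mul, D.lineV_app g hg (fun h0 => D.rep_ne i ((app_eq_zero_iff h).1 h0))]
  rfl

lemma permFun_one (i : Fin 5) : D.permFun 1 i = i := by
  rw [permFun, app_one, D.lineV_toV, (Five.line_rep i).1]

/-- The action on the lines. -/
noncomputable def perm : L →* Equiv.Perm (Fin 5) where
  toFun g :=
    { toFun := D.permFun g
      invFun := D.permFun (g⁻¹ : L)
      left_inv := fun i => by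
        rw [← D.permFun_mul (g⁻¹ : L).2, ← Subgroup.coe_mul, inv_mul_cancel, Subgroup.coe_one,
          D.permFun_one]
      right_inv := fun i => by
        rw [← D.permFun_mul g.2, ← Subgroup.coe_mul, mul_inv_cancel, Subgroup.coe_one,
          D.permFun_one] }
  map_one' := Equiv.ext fun i => D.permFun_one i
  map_mul' g h := Equiv.ext fun i => D.permFun_mul g.2 i

lemma perm_injective : Function.Injective D.perm := by
  rw [injective_iff_map_eq_one]
  rintro ⟨g, hg⟩ h
  have hfix : ∀ v : V, v ≠ 0 → D.lineV (g ⋆ v) = D.lineV v := fun v hv => by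
    rw [D.lineV_app g hg hv]
    exact congrArg (fun σ : Equiv.Perm (Fin 5) => σ (D.lineV v)) h
  let img : B4 → B4 := fun x => D.co.symm (g ⋆ tV x)
  have himg : ∀ x, tV (img x) = g ⋆ tV x := fun x => D.co.apply_symm_apply _
  have hzero : ∀ x, x ≠ Five.zero → img x ≠ Five.zero := fun x hx h0 => hx ((D.toV_eq_zero x).1
    ((app_eq_zero_iff g).1 ((himg x).symm.trans ((D.toV_eq_zero _).2 h0))))
  have hline : ∀ x, x ≠ Five.zero → Five.line (img x) = Five.line x := fun x hx => by
    rw [← D.lineV_toV, himg, hfix _ (fun h0 => hx ((D.toV_eq_zero x).1 h0)), D.lineV_toV]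
  have hbil : ∀ x y, Five.bil (img x) (img y) = Five.bil x y := fun x y => by
    apply bit_injective (F := F)
    rw [← D.bil_toV, himg, himg, bil_app (D.le hg), D.bil_toV]
  have himg0 : img Five.zero = Five.zero := by
    apply D.toV_injective
    rw [himg, (D.toV_eq_zero _).2 rfl, app_zero]
  have hadd : ∀ x y, img (badd x y) = badd (img x) (img y) := fun x y => by
    apply D.toV_injective
    rw [himg, toV_badd, toV_badd, himg, himg, app_add]
  set A := img (true, false, false, false)
  set C := img (false, false, true, false)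
  set B := img (false, true, false, false)
  set D' := img (false, false, false, true)
  have hlin : ∀ x, img x = Five.lin A C B D' x := by
    rintro ⟨p, q, r, t⟩
    have hx : ((p, q, r, t) : B4) = badd (badd (cond p (true, false, false, false) Five.zero)
        (cond q (false, true, false, false) Five.zero))
        (badd (cond r (false, false, true, false) Five.zero)
          (cond t (false, false, false, true) Five.zero)) := by
      cases p <;> cases q <;> cases r <;> cases t <;> rfl
    conv_lhs => rw [hx, hadd, hadd, hadd]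
    cases p <;> cases q <;> cases r <;> cases t <;> simp only [cond, himg0, Five.lin] <;> rfl
  obtain ⟨hA, hC, hB, hD⟩ := Five.rigidity
    (Five.mem_line0 A (hzero _ (by decide)) (hline _ (by decide)))
    (Five.mem_line0 C (hzero _ (by decide)) (hline _ (by decide)))
    (Five.mem_line1 B (hzero _ (by decide)) (hline _ (by decide)))
    (Five.mem_line1 D' (hzero _ (by decide)) (hline _ (by decide)))
    ((hbil _ _).trans (by decide)) ((hbil _ _).trans (by decide)) ((hbil _ _).trans (by decide))
    ((hbil _ _).trans (by decide))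
    (fun i => by rw [← hlin, hline _ (Five.line_rep i).2, (Five.line_rep i).1])
  refine Subtype.ext (ext_app fun v => ?_)
  obtain ⟨x, rfl⟩ := D.toV_surjective v
  rw [Subgroup.coe_one, app_one]
  show g ⋆ tV x = tV x
  rw [← himg, hlin, hA, hC, hB, hD]
  obtain ⟨p, q, r, t⟩ := x
  congr 1
  cases p <;> cases q <;> cases r <;> cases t <;> rfl

lemma perm_surjective : Function.Surjective D.perm := by
  rw [← MonoidHom.range_eq_top]
  classical
  refine Equiv.Perm.subgroup_eq_top_of_swap_mem (τ := Equiv.swap (2 : Fin 5) 4)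
    (by rw [Fintype.card_fin]; norm_num) ?_ ⟨⟨_, D.gen_mem 1⟩, ?_⟩ ⟨2, 4, by decide, rfl⟩
  · have hpre : MulAction.IsPretransitive D.perm.range (Fin 5) := by
      refine MulAction.IsPretransitive.mk fun i j => ?_
      have key : ∀ j, ∃ σ : D.perm.range, σ • (0 : Fin 5) = j := fun j => by
        refine ⟨⟨_, ⟨⟨_, D.wordEl_mem (Five.rep j)⟩, rfl⟩⟩, ?_⟩
        show D.permFun (wordEl a b e₁ e₂ (Five.rep j)) 0 = j
        rw [permFun, show Five.rep 0 = Five.base from rfl,
          (toV_base (a := a) (b := b) (e₁ := e₁) (e₂ := e₂)).1,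
          D.wordEl_app_base (Five.line_rep j).2, D.lineV_toV, (Five.line_rep j).1]
      obtain ⟨σ, hσ⟩ := key i
      obtain ⟨ρ, hρ⟩ := key j
      exact ⟨ρ * σ⁻¹, by rw [mul_smul, ← hσ, inv_smul_smul, hρ]⟩
    rw [← Nat.card_eq_fintype_card, ← Nat.card_eq_fintype_card,
      ← MulAction.index_stabilizer_of_transitive D.perm.range (0 : Fin 5)]
    exact Subgroup.index_dvd_card _
  · refine Equiv.ext fun i => ?_
    show D.permFun (gen a b e₁ e₂ 1) i = _
    rw [permFun, D.gen_app, D.lineV_toV, Five.gen_one_line]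

theorem iso : Nonempty (L ≃* Equiv.Perm (Fin 5)) :=
  ⟨MulEquiv.ofBijective D.perm ⟨D.perm_injective, D.perm_surjective⟩⟩

end FiveData

end Cfsg.Agent.MaxSub.RootGroup
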