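import Cfsg.Agent.MaxSub.RootGroup.CaseA

/-!
Root groups without transvections: the forms on `⟨a, b⟩^⊥` are quadratic and define a quadratic form
`Q` with polar form the given one; the group contains a torus of the pair, and over more than two
elements every centre is singular.
-/

set_option autoImplicit false
set_option maxHeartbeats 800000

namespace Cfsg.Agent.MaxSub.RootGroup

open Matrix Cfsg.Agent.Forms

variable {F : Type*} [Field F] [CharP F 2] {n : ℕ}

local notation "V" => (Fin n ⊕ Fin n → F)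
local notation "G" => GL (Fin n ⊕ Fin n) F
local notation "β" => sympBil n F
local infixr:73 " ⋆ " => app

variable {L : Subgroup (GL (Fin n ⊕ Fin n) F)} {a b c : Fin n ⊕ Fin n → F}
  {φ χ ξ : (Fin n ⊕ Fin n → F) → F}

/-- `L` has no transvection with centre `c`. -/
def Rigid (L : Subgroup G) (c : V) : Prop := ∀ γ, γ ∈ scal L c → γ = 0

lemma Rigid.map (h : Rigid L c) (hL : L ≤ Sp) {g : G} (hg : g ∈ L) : Rigid L (g ⋆ c) := by
  intro γ hγ
  have := scal_map hL (inv_mem hg) hγ
  rw [app_inv_app] at this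
  exact h γ this

lemma Rigid.smul (h : Rigid L c) {μ : F} (hμ : μ ≠ 0) : Rigid L (μ • c) := by
  intro γ hγ
  rw [mem_scal, tv_smul] at hγ
  simpa [hμ] using h _ hγ

lemma Root.eq_of_mem (hr : Root L c ξ) (hR : Rigid L c) {w : V} (hw : β c w = 0) {γ : F}
    (h : sg c w γ ∈ L) : γ = ξ w := by
  have := hR _ (hr.add_mem_scal hw h)
  grind

lemma Root.stab_eq (hr : Root L c ξ) (hR : Rigid L c) (hL : L ≤ Sp) {h : G} (hh : h ∈ L)
    (hc : h ⋆ c = c) {w : V} (hw : β c w = 0) : ξ (h ⋆ w) = ξ w := by
  have := hR _ (hr.stab_mem_scal hL hh hc hw)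
  grind

/-- The component of `x` orthogonal to `a` and `b`. -/
noncomputable def wProj (a b : V) : V →ₗ[F] V :=
  LinearMap.id + (LinearMap.flip β b).smulRight a + (LinearMap.flip β a).smulRight b

omit [CharP F 2] in
lemma wProj_apply (a b x : V) : wProj a b x = x + β x b • a + β x a • b := by simp [wProj]

lemma RPair.wProj_left (P : RPair L a b φ χ) (x : V) : β a (wProj a b x) = 0 := by
  simp [wProj_apply, P.bil, bil_comm x a]
  grind

lemma RPair.wProj_right (P : RPair L a b φ χ) (x : V) : β b (wProj a b x) = 0 := by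
  simp [wProj_apply, P.bil', bil_comm x b]
  grind

lemma wProj_of_perp {x : V} (ha : β a x = 0) (hb : β b x = 0) : wProj a b x = x := by
  simp [wProj_apply, bil_comm x a, bil_comm x b, ha, hb]

/-- Root groups without transvections whose forms agree and are quadratic on `⟨a, b⟩^⊥`. -/
structure QPair (L : Subgroup G) (a b : V) (φ χ : V → F) : Prop extends RPair L a b φ χ where
  rigid_left : Rigid L a
  rigid_right : Rigid L b
  same : ∀ v, β a v = 0 → β b v = 0 → χ v = φ v
  homog : ∀ v (y : F), β a v = 0 → β b v = 0 → φ (y • v) = y ^ 2 * φ v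

lemma QPair.symm (P : QPair L a b φ χ) : QPair L b a χ φ where
  toRPair := P.toRPair.symm
  rigid_left := P.rigid_right
  rigid_right := P.rigid_left
  same v hb ha := (P.same v ha hb).symm
  homog v y hb ha := by
    rw [P.same v ha hb, P.same (y • v) (by simp [ha]) (by simp [hb]), P.homog v y ha hb]

/-- The quadratic form of a pair. -/
noncomputable def QPair.form (P : QPair L a b φ χ) : QuadraticForm F V :=
  QuadraticMap.ofPolar (fun x => β x a * β x b + φ (wProj a b x))
    (fun t x => by
      simp only [map_smul, LinearMap.smul_apply, smul_eq_mul]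
      rw [P.homog _ _ (P.wProj_left x) (P.wProj_right x)]
      ring)
    (fun x x' y => by
      simp only [QuadraticMap.polar, map_add, LinearMap.add_apply]
      rw [P.left.map_add _ _ (by simp [P.wProj_left]) (P.wProj_left _),
        P.left.map_add _ _ (P.wProj_left _) (P.wProj_left _),
        P.left.map_add _ _ (P.wProj_left _) (P.wProj_left _),
        P.left.map_add _ _ (P.wProj_left _) (P.wProj_left _)]
      simp only [map_add, LinearMap.add_apply]
      grind)
    (fun t x y => by
      simp only [QuadraticMap.polar, map_add, map_smul, LinearMap.add_apply, LinearMap.smul_apply,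
        smul_eq_mul]
      rw [P.left.map_add _ _ (by simp [P.wProj_left]) (P.wProj_left _),
        P.left.map_add _ _ (P.wProj_left _) (P.wProj_left _),
        P.homog _ _ (P.wProj_left x) (P.wProj_right x)]
      simp only [map_smul, LinearMap.smul_apply, smul_eq_mul]
      grind)

lemma QPair.form_apply (P : QPair L a b φ χ) (x : V) :
    P.form x = β x a * β x b + φ (wProj a b x) := rfl

lemma QPair.form_symm (P : QPair L a b φ χ) : P.symm.form = P.form := by
  ext x
  have h : wProj b a x = wProj a b x := by simp only [wProj_apply]; abel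
  rw [P.symm.form_apply, P.form_apply, h, P.same _ (P.wProj_left x) (P.wProj_right x), mul_comm]

lemma QPair.polar_form (P : QPair L a b φ χ) (x y : V) :
    QuadraticMap.polar P.form x y = β x y := by
  simp only [QuadraticMap.polar, P.form_apply, map_add, LinearMap.add_apply]
  rw [P.left.map_add _ _ (P.wProj_left _) (P.wProj_left _)]
  simp only [wProj_apply, map_add, map_smul, LinearMap.add_apply, LinearMap.smul_apply, smul_eq_mul,
    bil_self, P.bil, P.bil', bil_comm a y, bil_comm b y]
  grind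

lemma QPair.form_add (P : QPair L a b φ χ) (x y : V) :
    P.form (x + y) = P.form x + P.form y + β x y := by
  rw [← P.polar_form x y, QuadraticMap.polar]
  abel

lemma QPair.form_left (P : QPair L a b φ χ) : P.form a = 0 := by
  have h : wProj a b a = 0 := by simp [wProj_apply, P.bil, vec_add_self]
  rw [P.form_apply, h, P.left.map_zero, bil_self, zero_mul, zero_add]

lemma QPair.form_right (P : QPair L a b φ χ) : P.form b = 0 := by
  rw [← P.form_symm]; exact P.symm.form_left

lemma QPair.form_eq_left (P : QPair L a b φ χ) {w : V} (hw : β a w = 0) : P.form w = φ w := by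
  have hwa : β w a = 0 := by rw [bil_comm]; exact hw
  rw [P.form_apply, wProj_apply, hwa, zero_mul, zero_add, zero_smul, add_zero,
    P.left.map_add_smul _ _ hw]

lemma QPair.form_eq_right (P : QPair L a b φ χ) {w : V} (hw : β b w = 0) : P.form w = χ w := by
  rw [← P.form_symm]; exact P.symm.form_eq_left hw

lemma form_sg {Q : QuadraticForm F V} (hQ : ∀ x y, Q (x + y) = Q x + Q y + β x y) {w : V}
    (hc : Q c = 0) (hcw : β c w = 0) (x : V) : Q (sg c w (Q w) ⋆ x) = Q x := by
  have hwc : β w c = 0 := by rw [bil_comm]; exact hcw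
  rw [app_sg hcw, hQ, hQ, hQ, QuadraticMap.map_smul, QuadraticMap.map_smul, QuadraticMap.map_smul]
  simp only [map_add, map_smul, LinearMap.add_apply, LinearMap.smul_apply, smul_eq_mul, hc, hwc,
    bil_self]
  grind

lemma QPair.form_left_elem (P : QPair L a b φ χ) {w : V} (hw : β a w = 0) (x : V) :
    P.form (sg a w (φ w) ⋆ x) = P.form x := by
  rw [← P.form_eq_left hw]
  exact form_sg P.form_add P.form_left hw x

lemma QPair.form_right_elem (P : QPair L a b φ χ) {w : V} (hw : β b w = 0) (x : V) :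
    P.form (sg b w (χ w) ⋆ x) = P.form x := by
  rw [← P.form_eq_right hw]
  exact form_sg P.form_add P.form_right hw x

/-- The monomial element of a non-singular vector of `⟨a, b⟩^⊥`. -/
lemma QPair.exists_mono (P : QPair L a b φ χ) {u : V} (hua : β a u = 0) (hub : β b u = 0)
    (hu : φ u ≠ 0) : ∃ m ∈ L, (∀ x, P.form (m ⋆ x) = P.form x) ∧ m ⋆ a = (φ u)⁻¹ • b ∧
      m ⋆ b = φ u • a ∧
      ∀ w, β a w = 0 → β b w = 0 → m ⋆ w = w + ((φ u)⁻¹ * β w u) • u := by
  set κ := φ u with hκ
  set u' := κ⁻¹ • u with hu'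
  have hua' : β a u' = 0 := by simp [hu', hua]
  have hub' : β b u' = 0 := by simp [hu', hub]
  have hκ' : χ u' = κ⁻¹ := by
    rw [P.same _ hua' hub', hu', P.homog _ _ hua hub, ← hκ]
    field_simp
  set s := sg a u κ with hs
  set r := sg b u' κ⁻¹ with hr
  have hsL : s ∈ L := P.left.mem u hua
  have hrL : r ∈ L := by rw [hr, ← hκ']; exact P.right.mem u' hub'
  have hua'' : β u a = 0 := by rw [bil_comm]; exact hua
  have hub'' : β u b = 0 := by rw [bil_comm]; exact hub
  refine ⟨s * r * s, mul_mem (mul_mem hsL hrL) hsL, fun x => ?_, ?_, ?_, fun w hwa hwb => ?_⟩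
  · rw [app_mul, app_mul, hs, hκ, P.form_left_elem hua, ← hκ, hr, ← hκ', P.form_right_elem hub',
      hκ, P.form_left_elem hua]
  all_goals simp only [hu'] at hub'
  all_goals simp only [app_mul, hs, hr, hu', app_sg hua, app_sg hub', map_add, map_smul,
    LinearMap.add_apply, LinearMap.smul_apply, smul_eq_mul, bil_self, P.bil, P.bil', hua, hub,
    hua'', hub'']
  · match_scalars <;> field_simp <;> grind
  · match_scalars <;> field_simp <;> grind
  · simp only [bil_comm w a, bil_comm w b, hwa, hwb]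
    match_scalars <;> field_simp <;> grind

lemma QPair.exists_ne (P : QPair L a b φ χ) (hn : 2 ≤ n) :
    ∃ u : V, β a u = 0 ∧ β b u = 0 ∧ φ u ≠ 0 := by
  by_contra h
  push Not at h
  obtain ⟨e, he, hea, heb⟩ := exists_perp_pair (F := F) hn a b
  obtain ⟨e', he'a, he'b, hee⟩ := P.exists_partner he hea heb
  have := P.left.map_add e e' hea he'a
  rw [h _ (by simp [hea, he'a]) (by simp [heb, he'b]), h _ hea heb, h _ he'a he'b, hee] at this
  simp at this

/-- The torus of the pair. -/
lemma QPair.exists_torus (P : QPair L a b φ χ) (hn : 2 ≤ n) {y : F} (hy : y ≠ 0) :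
    ∃ h ∈ L, (∀ x, P.form (h ⋆ x) = P.form x) ∧ h ⋆ a = y ^ 2 • a ∧
      h ⋆ b = (y ^ 2)⁻¹ • b ∧ ∀ w, β a w = 0 → β b w = 0 → h ⋆ w = w := by
  obtain ⟨u, hua, hub, hu⟩ := P.exists_ne hn
  obtain ⟨m, hm, hmQ, hma, hmb, hmw⟩ := P.exists_mono hua hub hu
  have hyu : φ (y • u) = y ^ 2 * φ u := P.homog u y hua hub
  obtain ⟨m', hm', hmQ', hma', hmb', hmw'⟩ := P.exists_mono (u := y • u) (by simp [hua])
    (by simp [hub]) (by rw [hyu]; exact mul_ne_zero (pow_ne_zero 2 hy) hu)
  refine ⟨m' * m, mul_mem hm' hm, fun x => by rw [app_mul, hmQ', hmQ], ?_, ?_, fun w hwa hwb => ?_⟩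
  · rw [app_mul, hma, app_smul, hmb', hyu, smul_smul]
    congr 1
    field_simp
  · rw [app_mul, hmb, app_smul, hma', hyu, smul_smul]
    congr 1
    field_simp
  · have h1 := hmw' (w + ((φ u)⁻¹ * β w u) • u) (by simp [hwa, hua]) (by simp [hwb, hub])
    rw [app_mul, hmw w hwa hwb, h1, hyu]
    simp only [map_add, map_smul, LinearMap.add_apply, LinearMap.smul_apply, smul_eq_mul, bil_self]
    match_scalars <;> field_simp <;> grind

/-- Over more than two elements two non-orthogonal rigid root groups form a quadratic pair. -/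
lemma RPair.qPair_of_big [Fintype F] (P : RPair L a b φ χ) (ha : Rigid L a) (hb : Rigid L b)
    {k : F} (hk0 : k ≠ 0) (hk1 : k ≠ 1) : QPair L a b φ χ := by
  have main : ∀ e : V, β a e = 0 → β b e = 0 →
      ∃ d : F, ∀ y : F, φ (y • e) = d * y ^ 2 ∧ χ (y • e) = d * y ^ 2 := by
    intro e hea heb
    rcases eq_or_ne e 0 with rfl | he
    · exact ⟨0, fun y => by simp [P.left.map_zero, P.right.map_zero]⟩
    obtain ⟨e', he'a, he'b, hee⟩ := P.exists_partner he hea heb
    have hee' : β e' e = 1 := by rw [bil_comm]; exact hee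
    -- one side zero, the other not, is impossible
    have one_side : ∀ (a b : V) (φ χ : V → F), RPair L a b φ χ → Rigid L b → β a e = 0 →
        β b e = 0 → β a e' = 0 → β b e' = 0 → (∀ y : F, φ (y • e) = 0) →
        ∀ τ : F, χ (τ • e) = 0 := by
      intro a b φ χ P hb hea heb he'a he'b h0 τ
      by_contra hκ
      have hz : ∀ σ : F, σ ≠ 0 → ∀ y : F,
          χ (y • e) = y ^ 2 / (σ ^ 2 * χ (τ • e)) := by
        intro σ hσ y
        set κ := χ (τ • e) with hκ'
        have h1 : β a (σ • e) = 0 := by simp [hea]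
        have h2 : β b (τ • e) = 0 := by simp [heb]
        have hs := P.left.mem _ h1
        rw [h0] at hs
        have hr := P.right.mem _ h2
        rw [← hκ'] at hr
        set z := sg a (σ • e) 0 * sg b (τ • e) κ * (sg a (σ • e) 0 * sg b (τ • e) κ) with hz
        have hzL : z ∈ L := mul_mem (mul_mem hs hr) (mul_mem hs hr)
        have hea'' : β e a = 0 := by rw [bil_comm]; exact hea
        have heb'' : β e b = 0 := by rw [bil_comm]; exact heb
        have hzb : z ⋆ b = b := by
          simp only [hz, app_mul, app_sg h1, app_sg h2, map_add, map_smul, LinearMap.add_apply,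
            LinearMap.smul_apply, smul_eq_mul, bil_self, P.bil, P.bil', hea, heb, hea'', heb'']
          match_scalars <;> grind
        set Y := y / (σ ^ 2 * κ) with hY
        have hy : β b (Y • e') = 0 := by simp [he'b]
        have hzy : z ⋆ (Y • e') = (Y • e' + y • e) + (Y * (σ * κ)) • b := by
          have hye : y = Y * (σ ^ 2 * κ) := by rw [hY]; field_simp
          conv_rhs => rw [hye]
          simp only [hz, app_mul, app_sg h1, app_sg h2, map_add, map_smul, LinearMap.add_apply,
            LinearMap.smul_apply, smul_eq_mul, bil_self, P.bil, P.bil', hea, heb, hea'', heb'',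
            bil_comm e' a, bil_comm e' b, he'a, he'b, hee']
          match_scalars <;> grind
        have h3 := P.right.stab_eq hb P.le hzL hzb hy
        rw [hzy, P.right.map_add_smul _ _ (by simp [he'b, heb]),
          P.right.map_add _ _ hy (by simp [heb]), map_smul, map_smul, LinearMap.smul_apply, hee',
          smul_eq_mul, smul_eq_mul, hY] at h3
        have h4 : χ (y • e) = y * (y / (σ ^ 2 * κ)) := by grind
        rw [h4]
        ring
      have e1 := hz 1 one_ne_zero τ
      have e2 := hz k hk0 τ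
      have hτ : τ ≠ 0 := fun h => hκ (by rw [h, zero_smul]; exact P.right.map_zero)
      rw [e1, one_pow, one_mul] at e2
      have : k ^ 2 = 1 := by
        field_simp at e2
        grind
      exact hk1 (by grind)
    by_cases hφ : ∀ y : F, φ (y • e) = 0
    · exact ⟨0, fun y => ⟨by rw [hφ, zero_mul], by
        rw [one_side a b φ χ P hb hea heb he'a he'b hφ, zero_mul]⟩⟩
    by_cases hχ : ∀ y : F, χ (y • e) = 0
    · exact absurd (one_side b a χ φ P.symm ha heb hea he'b he'a hχ) hφ
    push Not at hφ hχ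
    obtain ⟨σ₀, hσ₀⟩ := hφ
    obtain ⟨τ₀, hτ₀⟩ := hχ
    have ratio : ∀ σ τ, φ (σ • e) ≠ 0 → χ (τ • e) ≠ 0 →
        φ (σ • e) * τ ^ 2 = χ (τ • e) * σ ^ 2 := by
      intro σ τ hσ hτ
      obtain ⟨g, -, ν, ε, hν, -, hκν, hστ, ht⟩ := P.line hea heb hee hσ hτ
      set t := χ (τ • e) * ε ^ 2 with ht'
      rcases eq_or_ne t 0 with h0 | h0
      · have : ε = 0 := by simpa [ht', hτ] using h0
        rw [this, mul_zero, add_zero] at hστ
        rw [← hκν, ← hστ]
        ring
      · have hl : ∀ (a : V) (φ : V → F), Root L a φ → Rigid L a → β a e = 0 → β a e' = 0 →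
            ∀ y : F, φ (y • e) = y ^ 2 / t := by
          intro a φ hr hR hea he'a y
          have := hR _ (hr.phi_line P.le hea (w := (y / t) • e') (by simp [he'a]) (ε := 0)
            (by rw [zero_smul]; exact ht))
          rw [map_smul, LinearMap.smul_apply, hee', smul_eq_mul, mul_one,
            mul_div_cancel₀ _ h0] at this
          have h5 : φ (y • e) = t * (y / t) ^ 2 := by grind
          rw [h5]
          field_simp
        rw [hl a φ P.left ha hea he'a σ, hl b χ P.right hb heb he'b τ]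
        ring
    have hσ0 : σ₀ ≠ 0 := fun h => hσ₀ (by rw [h, zero_smul]; exact P.left.map_zero)
    have hτ0 : τ₀ ≠ 0 := fun h => hτ₀ (by rw [h, zero_smul]; exact P.right.map_zero)
    set d := φ (σ₀ • e) / σ₀ ^ 2 with hd
    have hd0 : d ≠ 0 := div_ne_zero hσ₀ (pow_ne_zero 2 hσ0)
    have hχd : ∀ τ, χ (τ • e) ≠ 0 → χ (τ • e) = d * τ ^ 2 := fun τ h => by
      have := ratio σ₀ τ hσ₀ h
      rw [hd]
      field_simp
      grind
    have hφd : ∀ σ, φ (σ • e) ≠ 0 → φ (σ • e) = d * σ ^ 2 := fun σ h => by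
      have h2 := ratio σ τ₀ h hτ₀
      rw [hχd τ₀ hτ₀] at h2
      have : τ₀ ^ 2 ≠ 0 := pow_ne_zero 2 hτ0
      apply mul_right_cancel₀ this
      linear_combination h2
    have full : ∀ (a : V) (ξ : V → F), Root L a ξ → β a e = 0 →
        (∀ σ : F, ξ (σ • e) ≠ 0 → ξ (σ • e) = d * σ ^ 2) → ∀ σ₁ : F, ξ (σ₁ • e) ≠ 0 →
        ∀ y : F, ξ (y • e) = d * y ^ 2 := by
      intro a ξ hr hea hξ σ₁ hσ₁ y
      by_cases hy : ξ (y • e) = 0
      · have h := hr.map_add (σ₁ • e) (y • e) (by simp [hea]) (by simp [hea])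
        rw [map_smul, map_smul, LinearMap.smul_apply, bil_self, smul_zero, smul_zero, add_zero, hy,
          add_zero, ← add_smul] at h
        have h2 := hξ (σ₁ + y) (by rw [h]; exact hσ₁)
        rw [h, hξ σ₁ hσ₁] at h2
        rw [hy]
        grind
      · exact hξ y hy
    exact ⟨d, fun y => ⟨full a φ P.left hea hφd σ₀ hσ₀ y, full b χ P.right heb hχd τ₀ hτ₀ y⟩⟩
  refine { toRPair := P, rigid_left := ha, rigid_right := hb, same := ?_, homog := ?_ }
  · intro v hva hvb
    obtain ⟨d, hd⟩ := main v hva hvb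
    obtain ⟨h1, h2⟩ := hd 1
    rw [one_smul] at h1 h2
    rw [h1, h2]
  · intro v y hva hvb
    obtain ⟨d, hd⟩ := main v hva hvb
    have h1 := (hd 1).1
    rw [one_smul] at h1
    rw [(hd y).1, h1]
    ring

/-- Over more than two elements rigid centres not orthogonal to `a` are singular. -/
lemma QPair.form_centre_of_bil [Fintype F] (P : QPair L a b φ χ) (hn : 2 ≤ n) {k : F} (hk0 : k ≠ 0)
    (hk1 : k ≠ 1) (hc : Root L c ξ) (hR : Rigid L c) (hac : β a c ≠ 0) : P.form c = 0 := by
  set μ := (β a c)⁻¹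
  have hμ : μ ≠ 0 := inv_ne_zero hac
  have hbil : β a (μ • c) = 1 := by simp [μ, hac]
  have P' : QPair L a (μ • c) φ (fun w => ξ (μ • w) / μ ^ 2) :=
    RPair.qPair_of_big ⟨P.le, P.left, hc.smul hμ, hbil⟩ P.rigid_left (hR.smul hμ) hk0 hk1
  obtain ⟨h, hh, hQ, hha, hhb, hhw⟩ := P.exists_torus hn hk0
  obtain ⟨h', hh', -, hha', hhc', hhw'⟩ := P'.exists_torus hn hk0
  have hk2 : (k ^ 2 : F) ≠ 0 := pow_ne_zero 2 hk0
  have hperp : ∀ (b : V) (χ : V → F) (g : G), RPair L a b φ χ → g ⋆ a = k ^ 2 • a →
      (∀ w, β a w = 0 → β b w = 0 → g ⋆ w = w) →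
      ∀ x, β a x = 0 → ∃ t : F, g ⋆ x = x + t • a := by
    intro b χ g P hga hgw x hx
    have hxa : β x a = 0 := by rw [bil_comm]; exact hx
    have h1 := hgw _ (P.wProj_left x) (P.wProj_right x)
    rw [wProj_apply, hxa, zero_smul, add_zero, app_add, app_smul, hga] at h1
    refine ⟨β x b * (k ^ 2 + 1), ?_⟩
    have h2 : g ⋆ x = g ⋆ x + β x b • k ^ 2 • a + β x b • k ^ 2 • a := by
      rw [add_assoc, vec_add_self, add_zero]
    rw [h2, h1]
    module
  have hkey : ∀ x, β a x = 0 → ∃ t : F, (h⁻¹ * h') ⋆ x = x + t • a := by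
    intro x hx
    obtain ⟨t, ht⟩ := hperp _ _ h P.toRPair hha hhw x hx
    obtain ⟨t', ht'⟩ := hperp _ _ h' P'.toRPair hha' hhw' x hx
    refine ⟨(t' + t) / k ^ 2, app_injective h ?_⟩
    rw [app_mul, app_app_inv, ht', app_add, app_smul, ht, hha, smul_smul, div_mul_cancel₀ _ hk2,
      add_assoc, ← add_smul]
    congr 2
    grind
  have hka : (h⁻¹ * h') ⋆ a = a := app_injective h (by rw [app_mul, app_app_inv, hha', hha])
  obtain ⟨w, γ, hw, -, he⟩ := exists_sg_of_stab P.bil (P.le (mul_mem (inv_mem hh) hh')) hka hkey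
  have hγ : γ = φ w := P.left.eq_of_mem P.rigid_left hw (he ▸ mul_mem (inv_mem hh) hh')
  have hQ' : P.form (h' ⋆ (μ • c)) = P.form (μ • c) := by
    rw [← mul_inv_cancel_left h h', app_mul, hQ, he, hγ, P.form_left_elem hw]
  rw [hhc', QuadraticMap.map_smul, QuadraticMap.map_smul, smul_eq_mul, smul_eq_mul,
    mul_left_eq_self₀] at hQ'
  rcases hQ' with h1 | h1
  · exfalso
    field_simp at h1
    grind
  · simpa [hμ] using h1

/-- Over more than two elements rigid centres are singular. -/
theorem QPair.form_centre [Fintype F] (P : QPair L a b φ χ) (hn : 2 ≤ n) {k : F} (hk0 : k ≠ 0)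
    (hk1 : k ≠ 1) (hc : Root L c ξ) (hR : Rigid L c) : P.form c = 0 := by
  by_cases hca : β a c = 0
  swap
  · exact P.form_centre_of_bil hn hk0 hk1 hc hR hca
  by_cases hcb : β b c = 0
  swap
  · rw [← P.form_symm]
    exact P.symm.form_centre_of_bil hn hk0 hk1 hc hR hcb
  obtain ⟨u, hua, hub, hcu⟩ := P.exists_partner hc.ne_zero hca hcb
  have hs := P.left.mem u hua
  rw [← P.form_left_elem hua c, ← P.form_symm]
  refine P.symm.form_centre_of_bil hn hk0 hk1 (hc.map P.le hs) (hR.map P.le hs) ?_
  simp [app_sg hua, bil_comm c a, hca, hcu, hcb, P.bil']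

end Cfsg.Agent.MaxSub.RootGroup
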