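import Cfsg.Agent.MaxSub.RootGroup.Basic

/-!
Two root groups with non-orthogonal centres, restricted to one line orthogonal to both: the product
of two root elements acts with odd order, so a power of it carries one centre close to the other.
-/

set_option autoImplicit false
set_option maxHeartbeats 800000

namespace Cfsg.Agent.MaxSub.RootGroup

open Matrix Cfsg.Agent.Forms

variable {F : Type*} [Field F] [CharP F 2] {n : ℕ}

local notation "V" => (Fin n ⊕ Fin n → F)
local notation "G" => GL (Fin n ⊕ Fin n) F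
local notation "β" => sympBil n F
local infixr:73 " ⋆ " => app

/-- Two root groups with centres `a`, `b`, `(a,b) = 1`. -/
structure RPair (L : Subgroup G) (a b : V) (φ χ : V → F) : Prop where
  le : L ≤ Sp
  left : Root L a φ
  right : Root L b χ
  bil : β a b = 1

variable {L : Subgroup (GL (Fin n ⊕ Fin n) F)} {a b : Fin n ⊕ Fin n → F}
  {φ χ : (Fin n ⊕ Fin n → F) → F}

lemma RPair.symm (P : RPair L a b φ χ) : RPair L b a χ φ :=
  ⟨P.le, P.right, P.left, by rw [bil_comm]; exact P.bil⟩

lemma RPair.bil' (P : RPair L a b φ χ) : β b a = 1 := P.symm.bil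

/-- A non-zero vector orthogonal to `a` and `b` has a partner there. -/
lemma RPair.exists_partner (P : RPair L a b φ χ) {e : V} (he : e ≠ 0) (hea : β a e = 0)
    (heb : β b e = 0) : ∃ e' : V, β a e' = 0 ∧ β b e' = 0 ∧ β e e' = 1 := by
  obtain ⟨u, hu⟩ := exists_bil_ne_zero he
  refine ⟨(β e u)⁻¹ • (u + β b u • a + β a u • b), ?_, ?_, ?_⟩
  · simp only [map_smul, map_add, bil_self, P.bil, smul_eq_mul]; grind
  · simp only [map_smul, map_add, bil_self, P.bil', smul_eq_mul]; grind
  · simp only [map_smul, map_add, smul_eq_mul, bil_comm e a, bil_comm e b, hea, heb]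
    grind

omit [CharP F 2] in
/-- A non-zero vector orthogonal to two given ones. -/
lemma exists_perp_pair (hn : 2 ≤ n) (a b : V) : ∃ e : V, e ≠ 0 ∧ β a e = 0 ∧ β b e = 0 := by
  let f : V →ₗ[F] F × F := (β a).prod (β b)
  have h1 := f.finrank_range_add_finrank_ker
  have h2 : Module.finrank F (LinearMap.range f) ≤ 2 :=
    (Submodule.finrank_le _).trans (by simp)
  rw [Module.finrank_fintype_fun_eq_card, Fintype.card_sum, Fintype.card_fin] at h1
  obtain ⟨e, he, he0⟩ := Submodule.exists_mem_ne_zero_of_ne_bot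
    (p := LinearMap.ker f) (fun h => by rw [h, finrank_bot] at h1; omega)
  rw [LinearMap.mem_ker] at he
  exact ⟨e, he0, congrArg Prod.fst he, congrArg Prod.snd he⟩

/-- Over a finite field of characteristic two every element is a square. -/
lemma exists_sq [Fintype F] (x : F) : ∃ y : F, y ^ 2 = x := by
  obtain ⟨y, hy⟩ := FiniteField.isSquare_of_char_two (F := F) (ringChar.eq F 2) x
  exact ⟨y, by rw [hy]; ring⟩

omit [CharP F 2] in
/-- Powers of a plane element of determinant one: coefficients of `D` and `1`. -/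
lemma pow_eq_lin {R : Type*} [Ring R] [Algebra F R] {D : R} {t : F}
    (h : D * D = t • D + 1) (j : ℕ) : ∃ A C : F, D ^ j = A • D + C • 1 := by
  induction j with
  | zero => exact ⟨0, 1, by simp⟩
  | succ j ih =>
    obtain ⟨A, C, hj⟩ := ih
    refine ⟨A * t + C, A, ?_⟩
    rw [pow_succ, hj, add_mul, smul_mul_assoc, smul_mul_assoc, h, one_mul, smul_add, smul_smul,
      add_smul]
    abel

/-- The action of `g` on `⟨a, b⟩` modulo the fixed vector `e`. -/
def PlaneAct (a b e : V) (g : G) (M : Matrix (Fin 2) (Fin 2) F) : Prop :=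
  g ⋆ e = e ∧ ∃ p q : F, g ⋆ a = M 0 0 • a + M 1 0 • b + p • e ∧
    g ⋆ b = M 0 1 • a + M 1 1 • b + q • e

omit [CharP F 2] in
lemma planeAct_one (a b e : V) : PlaneAct a b e 1 1 := ⟨by simp, 0, 0, by simp, by simp⟩

omit [CharP F 2] in
lemma PlaneAct.mul {a b e : V} {g h : G} {M N : Matrix (Fin 2) (Fin 2) F} (hg : PlaneAct a b e g M)
    (hh : PlaneAct a b e h N) : PlaneAct a b e (g * h) (M * N) := by
  obtain ⟨he, p, q, ha, hb⟩ := hg
  obtain ⟨he', p', q', ha', hb'⟩ := hh
  refine ⟨by rw [app_mul, he', he], N 0 0 * p + N 1 0 * q + p', N 0 1 * p + N 1 1 * q + q', ?_, ?_⟩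
  · rw [app_mul, ha', app_add, app_add, app_smul, app_smul, app_smul, ha, hb, he]
    simp only [Matrix.mul_apply, Fin.sum_univ_two]
    match_scalars <;> ring
  · rw [app_mul, hb', app_add, app_add, app_smul, app_smul, app_smul, ha, hb, he]
    simp only [Matrix.mul_apply, Fin.sum_univ_two]
    match_scalars <;> ring

omit [CharP F 2] in
lemma PlaneAct.pow {a b e : V} {g : G} {M : Matrix (Fin 2) (Fin 2) F} (hg : PlaneAct a b e g M) :
    ∀ j : ℕ, PlaneAct a b e (g ^ j) (M ^ j) := by
  intro j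
  induction j with
  | zero => simpa using planeAct_one _ _ e
  | succ j ih => rw [pow_succ, pow_succ]; exact ih.mul hg

/-- The line lemma: a member of `L` carries `b` into `⟨a, e⟩`. -/
lemma RPair.line [Fintype F] (P : RPair L a b φ χ) {e e' : V} (hea : β a e = 0) (heb : β b e = 0)
    (hee : β e e' = 1) {σ τ : F} (hπ : φ (σ • e) ≠ 0) (hκ : χ (τ • e) ≠ 0) :
    ∃ g ∈ L, ∃ ν ε : F, ν ≠ 0 ∧ g ⋆ b = ν • a + ε • e ∧ χ (τ • e) * ν ^ 2 = φ (σ • e) ∧
      ν * τ + χ (τ • e) * ν * ε = σ ∧ tv e (χ (τ • e) * ε ^ 2) ∈ L := by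
  have hba := P.bil'
  have hea' : β e a = 0 := by rw [bil_comm]; exact hea
  have heb' : β e b = 0 := by rw [bil_comm]; exact heb
  have he0 : e ≠ 0 := fun h => by simp [h] at hee
  set π := φ (σ • e)
  set κ := χ (τ • e)
  have h1 : β a (σ • e) = 0 := by simp [hea]
  have h2 : β b (τ • e) = 0 := by simp [heb]
  set s := sg a (σ • e) π
  set r := sg b (τ • e) κ
  have hs : s ∈ L := P.left.mem _ h1
  have hr : r ∈ L := P.right.mem _ h2
  have hsx : ∀ x : V, s ⋆ x = x + β x a • (σ • e) + β x (σ • e) • a + (π * β x a) • a :=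
    app_sg h1 π
  have hrx : ∀ x : V, r ⋆ x = x + β x b • (τ • e) + β x (τ • e) • b + (κ * β x b) • b :=
    app_sg h2 κ
  have hse : s ⋆ e = e := by simp [hsx, hea']
  have hsa : s ⋆ a = a := by simp [hsx, h1]
  have hsb : s ⋆ b = b + σ • e + π • a := by simp [hsx, hba, heb]
  have hre : r ⋆ e = e := by simp [hrx, heb']
  have hrb : r ⋆ b = b := by simp [hrx, h2]
  have hra : r ⋆ a = a + τ • e + κ • b := by simp [hrx, P.bil, hea]
  let Ms : Matrix (Fin 2) (Fin 2) F := !![1, π; 0, 1]
  let Mr : Matrix (Fin 2) (Fin 2) F := !![1, 0; κ, 1]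
  have hPs : PlaneAct a b e s Ms := ⟨hse, 0, σ, by simp [Ms, hsa], by simp [Ms, hsb]; abel⟩
  have hPr : PlaneAct a b e r Mr := ⟨hre, τ, 0, by simp [Mr, hra]; abel, by simp [Mr, hrb]⟩
  set d := s * r
  set D := Ms * Mr with hD
  have hPd : PlaneAct a b e d D := hPs.mul hPr
  have hD2 : D * D = (π * κ) • D + 1 := by
    ext i j
    fin_cases i <;> fin_cases j <;>
      simp [D, Ms, Mr, Matrix.mul_apply, Fin.sum_univ_two] <;> grind
  have hRR : Mr * Mr = 1 := by
    ext i j
    fin_cases i <;> fin_cases j <;> simp [Mr, Matrix.mul_apply, Fin.sum_univ_two] <;> grind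
  have hSS : Ms * Ms = 1 := by
    ext i j
    fin_cases i <;> fin_cases j <;> simp [Ms, Matrix.mul_apply, Fin.sum_univ_two] <;> grind
  have hDD' : D * (Mr * Ms) = 1 := by
    rw [hD, mul_assoc, ← mul_assoc Mr, hRR, one_mul, hSS]
  have hu : IsUnit D := ⟨⟨D, Mr * Ms, hDD', mul_eq_one_comm.1 hDD'⟩, rfl⟩
  have hfin : IsOfFinOrder D := by
    obtain ⟨U, hU⟩ := hu
    rw [← hU]
    exact (Units.coeHom _).isOfFinOrder (isOfFinOrder_of_finite U)
  have hMpos : 0 < orderOf D := hfin.orderOf_pos
  obtain ⟨k, hk⟩ : ∃ k, orderOf D = 2 * k + 1 := by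
    rcases Nat.even_or_odd (orderOf D) with ⟨j, hj⟩ | ⟨j, hj⟩
    · exfalso
      obtain ⟨A, C, hAC⟩ := pow_eq_lin hD2 j
      have h3 : D ^ j * D ^ j = 1 := by rw [← pow_add, ← hj]; exact pow_orderOf_eq_one D
      rw [hAC] at h3
      have h4 : (A ^ 2 * (π * κ)) • D + (A ^ 2 + C ^ 2) • (1 : Matrix (Fin 2) (Fin 2) F) = 1 := by
        refine Eq.trans ?_ h3
        rw [add_mul, mul_add, mul_add, smul_mul_smul_comm, smul_mul_smul_comm,
          smul_mul_smul_comm, smul_mul_smul_comm, hD2, one_mul, mul_one, one_mul]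
        ext i l
        simp only [Matrix.add_apply, Matrix.smul_apply, smul_eq_mul]
        linear_combination (-(A * C * D i l)) * (CharTwo.two_eq_zero : (2 : F) = 0)
      have h5 := congrFun (congrFun h4 0) 1
      have h6 := congrFun (congrFun h4 1) 1
      simp only [D, Ms, Mr, Matrix.add_apply, Matrix.smul_apply, Matrix.mul_apply,
        Fin.sum_univ_two, Matrix.of_apply, Matrix.cons_val', Matrix.cons_val_zero,
        Matrix.cons_val_one, Matrix.cons_val_fin_one, Matrix.one_apply, smul_eq_mul] at h5 h6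
      have hA : A = 0 := by
        simp [hπ, hκ] at h5
        exact h5
      have hC : C = 1 := by
        rw [hA] at h6
        simp at h6
        exact h6.elim id fun h => by rw [h, CharTwo.neg_eq]
      rw [hA, hC, zero_smul, zero_add, one_smul] at hAC
      have hle : orderOf D ≤ j := orderOf_le_of_pow_eq_one (by omega) hAC
      omega
    · exact ⟨j, hj⟩
  set M := orderOf D
  set g := d ^ (k + 1)
  set N := D ^ (k + 1) with hN
  have hgL : g ∈ L := pow_mem (mul_mem hs hr) _
  -- the intertwining relation in the plane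
  have hDM : D ^ M = 1 := pow_orderOf_eq_one D
  have hR : Mr * D = (Mr * Ms) * Mr := by rw [hD, mul_assoc]
  have hRj : ∀ j, Mr * D ^ j = (Mr * Ms) ^ j * Mr := by
    intro j
    induction j with
    | zero => simp
    | succ j ih => rw [pow_succ, ← mul_assoc, ih, mul_assoc, hR, ← mul_assoc, ← pow_succ]
  have hinv : ∀ j, D ^ j * (Mr * Ms) ^ j = 1 := by
    intro j
    have hc : Commute D (Mr * Ms) := hDD'.trans (mul_eq_one_comm.1 hDD').symm
    rw [← hc.mul_pow, hDD', one_pow]
  have hDR : D * Mr = Ms := by rw [hD, mul_assoc, hRR, mul_one]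
  have key : Ms * N = N * Mr := by
    have e1 : (Mr * Ms) ^ k = D ^ (k + 1) := by
      calc (Mr * Ms) ^ k = D ^ M * (Mr * Ms) ^ k := by rw [hDM, one_mul]
        _ = D ^ (k + 1) * (D ^ k * (Mr * Ms) ^ k) := by
            rw [← mul_assoc, ← pow_add]; congr 2; omega
        _ = _ := by rw [hinv, mul_one]
    rw [hN, ← hDR, mul_assoc, hRj, pow_succ', ← mul_assoc, ← mul_assoc, hDD', one_mul, e1,
      pow_succ']
  have hdet : N.det = 1 := by
    rw [hN, Matrix.det_pow, hD, Matrix.det_mul, Matrix.det_fin_two, Matrix.det_fin_two]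
    simp [Ms, Mr]
  rw [Matrix.det_fin_two] at hdet
  have k1 := congrFun (congrFun key 0) 1
  have k2 := congrFun (congrFun key 0) 0
  simp only [Ms, Mr, Matrix.mul_apply, Fin.sum_univ_two, Matrix.of_apply, Matrix.cons_val',
    Matrix.cons_val_zero, Matrix.cons_val_one, Matrix.cons_val_fin_one, Fin.isValue, one_mul,
    mul_one, zero_mul, mul_zero, add_zero, zero_add] at k1 k2
  have h11 : N 1 1 = 0 := by
    simp [hπ] at k1
    exact k1
  rw [h11, mul_zero, zero_sub, CharTwo.neg_eq] at hdet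
  set ν := N 0 1
  have hν : ν ≠ 0 := fun h => by simp [h] at hdet
  have hκν : κ * ν ^ 2 = π := by
    have e2 : π * N 1 0 = ν * κ := by grind
    grind
  obtain ⟨hge, p, ε, hga, hgb⟩ := hPd.pow (k + 1)
  rw [← hN] at hga hgb
  change g ⋆ a = _ at hga
  change g ⋆ b = _ at hgb
  change g ⋆ e = e at hge
  rw [h11, zero_smul, add_zero] at hgb
  -- the odd power of `d` fixes `a` and `b`
  set z := d ^ M
  obtain ⟨hze, α, α', hza, hzb⟩ := hPd.pow M
  rw [hDM] at hza hzb
  simp only [Matrix.one_apply_eq, Matrix.one_apply_ne zero_ne_one,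
    Matrix.one_apply_ne one_ne_zero, one_smul, zero_smul, add_zero, zero_add] at hza hzb
  change z ⋆ a = _ at hza
  change z ⋆ b = _ at hzb
  change z ⋆ e = e at hze
  have hzinv_e : z⁻¹ ⋆ e = e := by conv_lhs => rw [← hze, app_inv_app]
  have hzinv_a : z⁻¹ ⋆ a = a + α • e := by
    apply app_injective z
    rw [app_app_inv, app_add, app_smul, hza, hze, add_assoc, vec_add_self, add_zero]
  have hzinv_b : z⁻¹ ⋆ b = b + α' • e := by
    apply app_injective z
    rw [app_app_inv, app_add, app_smul, hzb, hze, add_assoc, vec_add_self, add_zero]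
  have hsd : s * d * s = d⁻¹ ∧ r * d * r = d⁻¹ := by
    constructor <;>
    · apply eq_inv_of_mul_eq_one_left
      simp only [d, s, r, mul_assoc]
      simp only [← mul_assoc, sg_sq, one_mul]
  have hconj : ∀ t ∈ ({s, r} : Set G), ∀ j : ℕ, t * d ^ j * t = (d ^ j)⁻¹ := by
    intro t ht j
    have htt : t * t = 1 := by rcases ht with rfl | rfl <;> exact sg_sq _ _ _
    have htd : t * d * t = d⁻¹ := by rcases ht with rfl | rfl; exacts [hsd.1, hsd.2]
    have ht' : t⁻¹ = t := inv_eq_of_mul_eq_one_right htt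
    conv_lhs => arg 2; rw [← ht']
    rw [← conj_pow, ht', htd, inv_pow]
  have hα : α = 0 := by
    have h := congrArg (fun x => x ⋆ b) (hconj s (Or.inl rfl) M)
    change (s * z * s) ⋆ b = z⁻¹ ⋆ b at h
    simp only [app_mul, hzinv_b, hsb, app_add, app_smul, hza, hzb, hze, hse, hsa] at h
    have h' := congrArg (fun x => β e' x) h
    have : β e' e = 1 := by rw [bil_comm]; exact hee
    simp only [map_add, map_smul, smul_eq_mul, this] at h'
    have : π * α = 0 := by grind
    simpa [hπ] using this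
  have hα' : α' = 0 := by
    have h := congrArg (fun x => x ⋆ a) (hconj r (Or.inr rfl) M)
    change (r * z * r) ⋆ a = z⁻¹ ⋆ a at h
    simp only [app_mul, hzinv_a, hra, app_add, app_smul, hza, hzb, hze, hre, hrb] at h
    have h' := congrArg (fun x => β e' x) h
    have : β e' e = 1 := by rw [bil_comm]; exact hee
    simp only [map_add, map_smul, smul_eq_mul, this] at h'
    have : κ * α' = 0 := by grind
    simpa [hκ] using this
  -- compare `s g` with `g z⁻¹ r` on `a`
  have hsg : s * g = g * z⁻¹ * r := by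
    have hsdr : s = d * r := by rw [show d = s * r from rfl, mul_assoc, sg_sq, mul_one]
    have hr2 : r * g = g⁻¹ * r := by
      rw [← hconj r (Or.inr rfl) (k + 1)]
      simp only [mul_assoc, r, sg_sq, mul_one]
      rfl
    have hdg : d * g⁻¹ = g * z⁻¹ := by
      rw [eq_mul_inv_iff_mul_eq]
      show d * (d ^ (k + 1))⁻¹ * d ^ M = d ^ (k + 1)
      rw [hk, show 2 * k + 1 = (k + 1) + k by omega, pow_add d (k + 1) k, mul_assoc,
        ← mul_assoc _ (d ^ (k + 1)), inv_mul_cancel, one_mul, ← pow_succ']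
    calc s * g = (d * r) * g := congrArg (· * g) hsdr
      _ = d * (r * g) := mul_assoc _ _ _
      _ = d * g⁻¹ * r := by rw [hr2, ← mul_assoc]
      _ = g * z⁻¹ * r := by rw [hdg]
  have hσ : ν * τ + κ * ν * ε = σ := by
    have h := congrArg (fun x => x ⋆ a) hsg
    simp only [app_mul, hra, app_add, app_smul, hzinv_a, hzinv_b, hzinv_e, hga, hgb, hge, hsa, hsb,
      hse, hα, hα', zero_smul, add_zero] at h
    have h' := congrArg (fun x => β e' x) h
    have : β e' e = 1 := by rw [bil_comm]; exact hee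
    simp only [map_add, map_smul, smul_eq_mul, this] at h'
    have hN10 : N 1 0 * ν = 1 := by grind
    grind
  refine ⟨g, hgL, ν, ε, hν, hgb, hκν, hσ, ?_⟩
  have hgrg := mul_mem (mul_mem hgL hr) (inv_mem hgL)
  rw [show r = sg b (τ • e) κ from rfl, conj_sg (P.le hgL) h2, app_smul, hge, hgb] at hgrg
  have heq : sg (ν • a + ε • e) (τ • e) κ = s * tv e (κ * ε ^ 2) := by
    refine ext_app fun x => ?_
    have h3 : β (ν • a + ε • e) (τ • e) = 0 := by simp [hea]
    rw [app_sg h3, app_mul, app_tv, app_add, app_smul, hse, hsx, ← hσ, ← hκν]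
    simp only [map_add, map_smul, smul_eq_mul]
    match_scalars <;> grind
  rw [heq] at hgrg
  have := mul_mem hs hgrg
  rwa [← mul_assoc, sg_sq, one_mul] at this

end Cfsg.Agent.MaxSub.RootGroup
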