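import Cfsg.Agent.MaxSub.RootGroup.Orth
import Cfsg.Agent.MaxSub.RootGroup.Five
import Cfsg.Agent.MaxSub.RootGroup.Binary

/-!
Irreducible subgroups of `Sp_2n(q)`, `q` even, containing a root group.
-/

set_option autoImplicit false
set_option maxHeartbeats 800000

namespace Cfsg.Agent.MaxSub.RootGroup

open Matrix Cfsg.Agent.Forms

variable {F : Type*} [Field F] [CharP F 2] {n : ℕ}

local notation "V" => (Fin n ⊕ Fin n → F)
local notation "G" => GL (Fin n ⊕ Fin n) F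
local notation "M2n" => Matrix (Fin n ⊕ Fin n) (Fin n ⊕ Fin n) F
local notation "β" => sympBil n F
local infixr:73 " ⋆ " => app

variable {L : Subgroup (GL (Fin n ⊕ Fin n) F)} {a b : Fin n ⊕ Fin n → F}
  {φ χ : (Fin n ⊕ Fin n → F) → F}

/-- Forms differing at one vector give the symmetric group of degree five. -/
lemma RPair.five (P : RPair L a b φ χ) (hF : ∀ x : F, x = 0 ∨ x = 1) (hn : n = 2) (ha : Rigid L a)
    {v : V} (hva : β a v = 0) (hvb : β b v = 0) (hφ : φ v = 0) (hχ : χ v = 1) :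
    Nonempty (↥L ≃* Equiv.Perm (Fin 5)) := by
  have hv0 : v ≠ 0 := fun h => by rw [h, P.right.map_zero] at hχ; exact zero_ne_one hχ
  obtain ⟨e, hea, heb, hve⟩ := P.exists_partner hv0 hva hvb
  obtain ⟨e₁, h1a, h1b, h12, hφ1⟩ :
      ∃ e₁ : V, β a e₁ = 0 ∧ β b e₁ = 0 ∧ β e₁ v = 1 ∧ φ e₁ = 1 := by
    rcases hF (φ e) with h | h
    · refine ⟨e + v, by simp [hea, hva], by simp [heb, hvb], by simp [bil_comm e v, hve], ?_⟩
      rw [P.left.map_add e v hea hva, h, hφ, bil_comm e v, hve]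
      ring
    · exact ⟨e, hea, heb, by rw [bil_comm]; exact hve, h⟩
  rcases hF (χ e₁) with h | h
  · exact FiveData.iso ⟨P, hn, hF, ha, h1a, hva, h1b, hvb, h12, hφ1, hφ, h, hχ⟩
  exfalso
  obtain ⟨g, hg, hga, hgw⟩ := P.third hva hvb hφ hχ
  have hroot := P.left.map P.le hg
  rw [hga] at hroot
  have P' : RPair L (a + b) b (fun w => φ (g⁻¹ ⋆ w)) χ :=
    ⟨P.le, hroot, P.right, by simp [P.bil]⟩
  have h1c : β (a + b) e₁ = 0 := by simp [h1a, h1b]
  have hξ : φ (g⁻¹ ⋆ e₁) = 0 := by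
    rw [hgw e₁ h1a h1b, h12, one_smul, P.left.map_add e₁ v h1a hva, hφ1, hφ, h12]
    simp [CharTwo.add_self_eq_zero]
  obtain ⟨g', hg', hga', hgw'⟩ := P'.third h1c h1b hξ h
  have hga'' : g' ⋆ (a + b) = a := by rw [hga', add_assoc, vec_add_self, add_zero]
  have hroot' := hroot.map P.le hg'
  rw [hga''] at hroot'
  have := P.left.eq_of_mem ha h1a (hroot'.mem e₁ h1a)
  rw [hgw' e₁ h1c h1b, bil_self, zero_smul, add_zero, hξ, hφ1] at this
  exact zero_ne_one this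

/-- The groups containing a root group. -/
theorem classify [Fintype F] (hn : 2 ≤ n) (hL : L ≤ Sp) (hr : Root L a φ)
    (hirr : ∀ W : Submodule F V, (∀ g ∈ L, ∀ w ∈ W, g ⋆ w ∈ W) → W = ⊥ ∨ W = ⊤) :
    Cfsg.spGL n F ≤ L ∨
    (∃ Q : QuadraticForm F V, (∀ u v, QuadraticMap.polar ⇑Q u v = β u v) ∧
      (L = Cfsg.isometryGroup F ⇑Q ∨ ∀ g : G, g ∈ L ↔
        (g ∈ Cfsg.isometryGroup F ⇑Q ∧ Even ((g : M2n) - 1).rank))) ∨
    (Fintype.card F = 2 ∧ n = 2 ∧
      (Nonempty (↥L ≃* ↥(alternatingGroup (Fin 6))) ∨ Nonempty (↥L ≃* Equiv.Perm (Fin 5)))) := by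
  have horb : ∀ U : Submodule F V, (∀ g ∈ L, g ⋆ a ∈ U) → U = ⊤ := by
    intro U hU
    set S := Submodule.span F {x | ∃ g ∈ L, g ⋆ a = x}
    have hS : S = ⊤ := by
      refine (hirr S fun g hg w hw => ?_).resolve_left fun h => ?_
      · induction hw using Submodule.span_induction with
        | mem x hx =>
          obtain ⟨g', hg', rfl⟩ := hx
          exact Submodule.subset_span ⟨g * g', mul_mem hg hg', app_mul g g' a⟩
        | zero => simp
        | add x y _ _ hx hy => rw [app_add]; exact add_mem hx hy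
        | smul c x _ hx => rw [app_smul]; exact S.smul_mem c hx
      · have : a ∈ S := Submodule.subset_span ⟨1, one_mem L, app_one a⟩
        rw [h, Submodule.mem_bot] at this
        exact hr.ne_zero this
    rw [eq_top_iff, ← hS, Submodule.span_le]
    rintro _ ⟨g, hg, rfl⟩
    exact hU g hg
  obtain ⟨g₀, hg₀, hne⟩ : ∃ g ∈ L, β a (g ⋆ a) ≠ 0 := by
    by_contra hcon
    push Not at hcon
    obtain ⟨v, hv⟩ := exists_bil_ne_zero hr.ne_zero
    have hk := horb (LinearMap.ker (β a)) fun g hg => hcon g hg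
    exact hv (show v ∈ LinearMap.ker (β a) from hk ▸ Submodule.mem_top)
  set μ := (β a (g₀ ⋆ a))⁻¹ with hμdef
  have hμ : μ ≠ 0 := inv_ne_zero hne
  have P : RPair L a (μ • g₀ ⋆ a) φ _ :=
    ⟨hL, hr, (hr.map hL hg₀).smul hμ, by rw [map_smul, smul_eq_mul, inv_mul_cancel₀ hne]⟩
  by_cases hR : Rigid L a
  swap
  · obtain ⟨γ₀, hγ⟩ : ∃ γ, γ ∈ scal L a ∧ γ ≠ 0 := by simpa [Rigid] using hR
    exact Or.inl (P.sp_le hn hg₀ hμ rfl hγ.2 hγ.1)
  have hRg : ∀ {g : G}, g ∈ L → Rigid L (g ⋆ a) := fun hg => hR.map hL hg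
  -- a pair all of whose centres are singular
  have orth : ∀ {b : V} {χ : V → F} (Q : QPair L a b φ χ), (∀ g ∈ L, Q.form (g ⋆ a) = 0) →
      ∃ Q : QuadraticForm F V, (∀ u v, QuadraticMap.polar ⇑Q u v = β u v) ∧
      (L = Cfsg.isometryGroup F ⇑Q ∨ ∀ g : G, g ∈ L ↔
        (g ∈ Cfsg.isometryGroup F ⇑Q ∧ Even ((g : M2n) - 1).rank)) := by
    intro b χ P hsing
    refine ⟨P.form, P.polar_form, P.orth_dichotomy hn fun g hg x => ?_⟩
    let U : Submodule F V :=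
      { carrier := {x | P.form (g ⋆ x) = P.form x}
        zero_mem' := by simp
        add_mem' := fun {x y} hx hy => by
          simp only [Set.mem_setOf_eq] at hx hy ⊢
          rw [app_add, P.form_add, P.form_add, hx, hy, bil_app (hL hg)]
        smul_mem' := fun c x hx => by
          simp only [Set.mem_setOf_eq] at hx ⊢
          rw [app_smul, QuadraticMap.map_smul, QuadraticMap.map_smul, hx] }
    have hU : U = ⊤ := horb U fun g' hg' => by
      show P.form (g ⋆ g' ⋆ a) = P.form (g' ⋆ a)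
      rw [← app_mul, hsing _ (mul_mem hg hg'), hsing _ hg']
    exact (hU ▸ Submodule.mem_top : x ∈ U)
  by_cases hF : ∀ x : F, x = 0 ∨ x = 1
  swap
  · obtain ⟨k, hk0, hk1⟩ : ∃ k : F, k ≠ 0 ∧ k ≠ 1 := by simpa [not_or] using hF
    have Q := P.qPair_of_big hR ((hRg hg₀).smul hμ) hk0 hk1
    exact Or.inr (Or.inl (orth Q fun g hg =>
      Q.form_centre hn hk0 hk1 (hr.map hL hg) (hRg hg)))
  have hcard : Fintype.card F = 2 := by
    classical
    refine le_antisymm ?_ Fintype.one_lt_card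
    rw [← Finset.card_univ]
    exact (Finset.card_le_card (fun x _ => by rcases hF x with rfl | rfl <;> simp :
      (Finset.univ : Finset F) ⊆ {0, 1})).trans Finset.card_le_two
  have hbil : β a (g₀ ⋆ a) = 1 := (hF _).resolve_left hne
  have mkPair : ∀ {g : G}, g ∈ L → β a (g ⋆ a) = 1 →
      RPair L a (g ⋆ a) φ (fun w => φ (g⁻¹ ⋆ w)) :=
    fun hg h => ⟨hL, hr, hr.map hL hg, h⟩
  by_cases hsame : ∀ g ∈ L, β a (g ⋆ a) = 1 →
      ∀ v, β a v = 0 → β (g ⋆ a) v = 0 → φ (g⁻¹ ⋆ v) = φ v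
  swap
  · push Not at hsame
    obtain ⟨g, hg, hgb, v, hva, hvb, hv⟩ := hsame
    have P₁ := mkPair hg hgb
    have hn2 : n = 2 := by
      by_contra h
      exact hv (P₁.same_of_three hF hR (hRg hg) (by omega) hva hvb)
    refine Or.inr (Or.inr ⟨hcard, hn2, Or.inr ?_⟩)
    rcases hF (φ v) with h | h
    · exact P₁.five hF hn2 hR hva hvb h ((hF _).resolve_left fun h' => hv (h'.trans h.symm))
    · exact P₁.symm.five hF hn2 (hRg hg) hvb hva
        ((hF _).resolve_right fun h' => hv (h'.trans h.symm)) h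
  have P₁ := mkPair hg₀ hbil
  have Q₁ := P₁.qPair_of_binary hF hR (hRg hg₀) (hsame g₀ hg₀ hbil)
  by_cases hsing : ∀ g ∈ L, Q₁.form (g ⋆ a) = 0
  · exact Or.inr (Or.inl (orth Q₁ hsing))
  push Not at hsing
  obtain ⟨g, hg, hg1⟩ := hsing
  obtain ⟨l, hl, hlg⟩ := Q₁.move_to_sum hF ((hF _).resolve_left hg1)
  set c := a + g₀ ⋆ a with hc
  set g' := l * g
  have hg' : g' ∈ L := mul_mem hl hg
  have hg'a : g' ⋆ a = c := by rw [app_mul, hlg]
  have hroot : Root L c (fun w => φ (g'⁻¹ ⋆ w)) := hg'a ▸ hr.map hL hg'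
  have hRc : Rigid L c := hg'a ▸ hRg hg'
  have hac : β a c = 1 := by simp [hc, hbil]
  have hsame' : ∀ v, β a v = 0 → β c v = 0 → φ (g'⁻¹ ⋆ v) = φ v := fun v hva hvc =>
    hsame g' hg' (by rw [hg'a]; exact hac) v hva (by rw [hg'a]; exact hvc)
  have Q₂ : QPair L a c φ (fun w => φ (g'⁻¹ ⋆ w)) :=
    RPair.qPair_of_binary ⟨hL, hr, hroot, hac⟩ hF hR hRc hsame'
  have Q₃ : QPair L (g₀ ⋆ a) c (fun w => φ (g₀⁻¹ ⋆ w)) (fun w => φ (g'⁻¹ ⋆ w)) := by
    refine RPair.qPair_of_binary ⟨hL, P₁.right, hroot, by simp [hc, P₁.bil']⟩ hF (hRg hg₀) hRc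
      fun v hvb hvc => ?_
    have hva : β a v = 0 := by simpa [hc, hvb] using hvc
    show φ (g'⁻¹ ⋆ v) = φ (g₀⁻¹ ⋆ v)
    rw [hsame' v hva hvc, hsame g₀ hg₀ hbil v hva hvb]
  rcases sp_or_A6_of_pairs hL hn hF (Q₁.all_pairs Q₂ Q₃ hn hF) with h | ⟨h1, h2, h3⟩
  · exact Or.inl h
  · exact Or.inr (Or.inr ⟨h1, h2, Or.inl h3⟩)

end Cfsg.Agent.MaxSub.RootGroup
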