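import Cfsg.Agent.MaxSub.RootGroup.Forms
import Cfsg.Agent.GeoClasses.OrthNondeg
import Cfsg.Agent.OrthGen.CharTwo
import Cfsg.Agent.OrthGen.MatrixForm

/-!
A group of isometries of the quadratic form of a pair of root groups is the orthogonal group or its
subgroup of elements `g` with `g - 1` of even rank.
-/

set_option autoImplicit false
set_option maxHeartbeats 800000

namespace Cfsg.Agent.MaxSub.RootGroup

open Matrix Module QuadraticMap Cfsg.Agent.Forms Cfsg.Agent.Classical

section Parity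

universe u v

variable {F : Type u} [Field F] {W : Type v} [AddCommGroup W] [Module F W]

/-- The orthogonal sum with a hyperbolic plane. -/
noncomputable def extQ (Q : QuadraticForm F W) : QuadraticForm F (W × (F × F)) :=
  Q.prod (QuadraticMap.linMulLin (LinearMap.fst F F F) (LinearMap.snd F F F))

lemma extQ_apply (Q : QuadraticForm F W) (x : W) (s t : F) :
    extQ Q (x, (s, t)) = Q x + s * t := by simp [extQ]

lemma polar_extQ (Q : QuadraticForm F W) (x y : W) (s t s' t' : F) :
    polar (extQ Q) (x, (s, t)) (y, (s', t')) = polar Q x y + (s * t' + s' * t) := by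
  simp only [polar, Prod.mk_add_mk, extQ_apply]
  ring

lemma bNondeg_extQ {Q : QuadraticForm F W} (hQ : BNondeg Q) : BNondeg (extQ Q) := by
  rintro ⟨x, s, t⟩ h
  have h1 : x = 0 := hQ x fun y => by simpa [polar_extQ] using h (y, (0, 0))
  have h2 : t = 0 := by simpa [polar_extQ, h1] using h (0, (1, 0))
  have h3 : s = 0 := by simpa [polar_extQ, h1] using h (0, (0, 1))
  simp [h1, h2, h3]

/-- An isometry extended by the identity of the plane. -/
noncomputable def extHom (Q : QuadraticForm F W) : OQ Q →* OQ (extQ Q) where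
  toFun g := ⟨LinearEquiv.prodCongr g.1 (LinearEquiv.refl F (F × F)), fun ⟨x, s, t⟩ => by
    simp [extQ_apply, OQ_map_app]⟩
  map_one' := Subtype.ext (LinearEquiv.ext fun ⟨x, y⟩ => rfl)
  map_mul' g h := Subtype.ext (LinearEquiv.ext fun ⟨x, y⟩ => rfl)

lemma extHom_apply (Q : QuadraticForm F W) (g : OQ Q) (x : W) (y : F × F) :
    (extHom Q g).1 (x, y) = (g.1 x, y) := rfl

lemma dickson_extHom [FiniteDimensional F W] (Q : QuadraticForm F W) (g : OQ Q) :
    dickson (extHom Q g) = dickson g := by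
  have h : fixSpace (extHom Q g) = (fixSpace g).prod ⊤ := by
    ext ⟨x, y⟩
    simp [Submodule.mem_prod, mem_fixSpace, extHom_apply]
  have h2 : finrank F ↥((fixSpace g).prod (⊤ : Submodule F (F × F))) = finrank F (fixSpace g) + 2 := by
    have hr : (fixSpace g).prod (⊤ : Submodule F (F × F)) =
        LinearMap.range (LinearMap.prodMap (fixSpace g).subtype (LinearMap.id : F × F →ₗ[F] _)) := by
      ext ⟨x, y⟩
      simp [Submodule.mem_prod, LinearMap.mem_range]
    rw [hr, LinearMap.finrank_range_of_inj, Module.finrank_prod, Module.finrank_prod,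
      Module.finrank_self]
    intro x y hxy
    simpa [Prod.ext_iff] using hxy
  rw [dickson, dickson, h, h2, Module.finrank_prod, Module.finrank_prod, Module.finrank_self]
  rw [show finrank F (fixSpace g) + 2 + (finrank F W + (1 + 1))
    = finrank F (fixSpace g) + finrank F W + 2 * 2 by ring, pow_add, pow_mul]
  simp

variable [FiniteDimensional F W] {Q : QuadraticForm F W}

lemma five_le_ext (hn : 4 ≤ finrank F W) : 5 ≤ finrank F (W × (F × F)) := by
  rw [Module.finrank_prod, Module.finrank_prod, Module.finrank_self]; omega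

/-- The parity of an isometry, multiplicative in dimension at least four. -/
noncomputable def parity (hQ : BNondeg Q) (hn : 4 ≤ finrank F W) : OQ Q →* ℤˣ :=
  (dicksonHom (bNondeg_extQ hQ) (OrthGen.RQ_eq_top (bNondeg_extQ hQ)
    (GeoClasses.notExceptional_five (five_le_ext hn)))).comp (extHom Q)

lemma parity_apply (hQ : BNondeg Q) (hn : 4 ≤ finrank F W) (g : OQ Q) :
    parity hQ hn g = dickson g := dickson_extHom Q g

lemma parity_siegel [Finite F] (hQ : BNondeg Q) (hn : 4 ≤ finrank F W) {u a : W} (hu : Q u = 0)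
    (ha : polar Q u a = 0) : parity hQ hn (siegel Q hu ha) = 1 := by
  have hu' : extQ Q (u, (0, 0)) = 0 := by simp [extQ_apply, hu]
  have ha' : polar (extQ Q) (u, ((0 : F), (0 : F))) (a, (0, 0)) = 0 := by simp [polar_extQ, ha]
  have he : extHom Q (siegel Q hu ha) = siegel (extQ Q) hu' ha' := by
    refine Subtype.ext (LinearEquiv.ext fun ⟨x, s, t⟩ => ?_)
    rw [extHom_apply, siegel_apply, siegel_apply, polar_extQ, polar_extQ, extQ_apply]
    simp [Prod.ext_iff]
  have h := siegel_mem_EQ (extQ Q) hu' ha'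
  rw [← GeoClasses.commutator_eq_EQ (bNondeg_extQ hQ) (five_le_ext hn), ← he] at h
  have := Abelianization.commutator_subset_ker (dicksonHom (bNondeg_extQ hQ)
    (OrthGen.RQ_eq_top (bNondeg_extQ hQ) (GeoClasses.notExceptional_five (five_le_ext hn)))) h
  exact this

end Parity

variable {F : Type*} [Field F] [CharP F 2] {n : ℕ}

local notation "V" => (Fin n ⊕ Fin n → F)
local notation "G" => GL (Fin n ⊕ Fin n) F
local notation "M2n" => Matrix (Fin n ⊕ Fin n) (Fin n ⊕ Fin n) F
local notation "β" => sympBil n F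
local infixr:73 " ⋆ " => app

variable {L : Subgroup (GL (Fin n ⊕ Fin n) F)} {a b : Fin n ⊕ Fin n → F}
  {φ χ : (Fin n ⊕ Fin n → F) → F}

lemma QPair.bNondeg (P : QPair L a b φ χ) : BNondeg P.form := fun x hx =>
  bil_eq_zero fun y => by rw [← P.polar_form]; exact hx y

lemma QPair.four_le (hn : 2 ≤ n) : 4 ≤ finrank F V := by
  rw [Module.finrank_fintype_fun_eq_card, Fintype.card_sum, Fintype.card_fin]; omega

lemma QPair.mem_iso (P : QPair L a b φ χ) {g : G} :
    g ∈ Cfsg.isometryGroup F ⇑P.form ↔ ∀ x, P.form (g ⋆ x) = P.form x :=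
  ⟨fun h x => h x x, fun h x _ => h x⟩

/-- An isometry as a member of `OQ`. -/
noncomputable def QPair.toO (P : QPair L a b φ χ) (g : G)
    (h : ∀ x, P.form (g ⋆ x) = P.form x) : OQ P.form :=
  OrthGen.matEquiv P.form ⟨g, P.mem_iso.2 h⟩

lemma QPair.toO_apply (P : QPair L a b φ χ) (g : G) (h : ∀ x, P.form (g ⋆ x) = P.form x) (x : V) :
    (P.toO g h).1 x = g ⋆ x := rfl

lemma dickson_eq_one_iff {Q : QuadraticForm F V} (g : G) (hg : g ∈ Cfsg.isometryGroup F ⇑Q) :
    dickson (OrthGen.matEquiv Q ⟨g, hg⟩) = 1 ↔ Even ((g : M2n) - 1).rank := by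
  have he : ((OrthGen.matEquiv Q ⟨g, hg⟩).1.toLinearMap - LinearMap.id)
      = Matrix.mulVecLin ((g : M2n) - 1) := by
    refine LinearMap.ext fun x => ?_
    simp only [LinearMap.sub_apply, Matrix.mulVecLin_apply, Matrix.sub_mulVec, Matrix.one_mulVec,
      LinearEquiv.coe_coe, LinearMap.id_apply]
    rfl
  have h := LinearMap.finrank_range_add_finrank_ker (Matrix.mulVecLin ((g : M2n) - 1))
  rw [dickson, fixSpace, he, Matrix.rank]
  set k := finrank F (LinearMap.ker (Matrix.mulVecLin ((g : M2n) - 1)))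
  set r := finrank F (LinearMap.range (Matrix.mulVecLin ((g : M2n) - 1)))
  rw [← h, show k + (r + k) = r + 2 * k by ring, pow_add, pow_mul]
  simp only [Int.units_sq, one_pow, mul_one]
  rcases Nat.even_or_odd r with he | ho
  · simp [he.neg_one_pow, he]
  · simp [ho.neg_one_pow, Nat.not_even_iff_odd.2 ho]

omit [CharP F 2] in
/-- Two elements agreeing on `a`, `b` and their common perpendicular agree. -/
lemma ext_pair (hab : β a b = 1) (hba : β b a = 1) {g h : G} (ha : g ⋆ a = h ⋆ a)
    (hb : g ⋆ b = h ⋆ b) (hw : ∀ w, β a w = 0 → β b w = 0 → g ⋆ w = h ⋆ w) : g = h := by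
  refine ext_app fun x => ?_
  have h1 := hw (x - (β a x • b + β b x • a)) (by simp [hab]) (by simp [hba])
  have hx : x = (x - (β a x • b + β b x • a)) + (β a x • b + β b x • a) := by abel
  rw [hx, app_add g, app_add h, h1]
  simp [ha, hb]

lemma QPair.move_to_multiple (P : QPair L a b φ χ) {x : V} (hx : P.form x = 0) (hxa : β x a ≠ 0) :
    ∃ l ∈ L, (∀ y, P.form (l ⋆ y) = P.form y) ∧ ∃ d : F, d ≠ 0 ∧ l ⋆ x = d • b := by
  set d := β x a with hd
  set w := wProj a b x with hw
  have hwa : β a w = 0 := P.wProj_left x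
  have hwb : β b w = 0 := P.wProj_right x
  set v := d⁻¹ • w with hv
  have hva : β a v = 0 := by simp [hv, hwa]
  have hl := P.left.mem v hva
  refine ⟨_, hl, P.form_left_elem hva, d, hxa, ?_⟩
  have hα : β x b = d⁻¹ * φ w := by
    rw [P.form_apply, ← hw, ← hd] at hx
    field_simp
    grind
  have hφv : φ v = (d⁻¹) ^ 2 * φ w := P.homog w _ hwa hwb
  have hxw : β x w = 0 := by
    rw [hw, wProj_apply]; simp; grind
  rw [app_sg hva, hφv]
  generalize φ w = q at hα ⊢
  rw [hv, map_smul, hxw, smul_eq_mul, mul_zero, zero_smul, add_zero, smul_smul,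
    mul_inv_cancel₀ hxa, one_smul, hw, wProj_apply, hα, ← hd]
  match_scalars <;> field_simp <;> grind

/-- The group is transitive on singular vectors, by elements preserving the form. -/
lemma QPair.move_singular [Fintype F] (P : QPair L a b φ χ) (hn : 2 ≤ n) {x : V} (hx0 : x ≠ 0)
    (hx : P.form x = 0) : ∃ l ∈ L, l ⋆ x = a := by
  obtain ⟨u, hua, hub, hu⟩ := P.exists_ne hn
  obtain ⟨m, hm, -, hma, hmb, -⟩ := P.exists_mono hua hub hu
  have toA : ∀ d : F, d ≠ 0 → ∃ l ∈ L, l ⋆ (d • a) = a := by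
    intro d hd
    obtain ⟨y, hy⟩ := exists_sq d⁻¹
    have hy0 : y ≠ 0 := fun h => by simp [h] at hy; exact hd hy.symm
    obtain ⟨h, hh, -, hha, -⟩ := P.exists_torus hn hy0
    exact ⟨h, hh, by rw [app_smul, hha, smul_smul, hy, mul_inv_cancel₀ hd, one_smul]⟩
  have fromB : ∀ d : F, d ≠ 0 → ∃ l ∈ L, l ⋆ (d • b) = a := by
    intro d hd
    obtain ⟨l, hl, hla⟩ := toA (d * φ u) (mul_ne_zero hd hu)
    exact ⟨l * m, mul_mem hl hm, by rw [app_mul, app_smul, hmb, smul_smul, hla]⟩
  have first : ∀ x : V, P.form x = 0 → β x a ≠ 0 → ∃ l ∈ L, l ⋆ x = a := by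
    intro x hx hxa
    obtain ⟨l, hl, -, d, hd, hlx⟩ := P.move_to_multiple hx hxa
    obtain ⟨l', hl', h⟩ := fromB d hd
    exact ⟨l' * l, mul_mem hl' hl, by rw [app_mul, hlx, h]⟩
  have second : ∀ x : V, P.form x = 0 → β x b ≠ 0 → ∃ l ∈ L, l ⋆ x = a := by
    intro x hx hxb
    obtain ⟨l, hl, -, d, hd, hlx⟩ := P.symm.move_to_multiple (by rw [P.form_symm]; exact hx) hxb
    obtain ⟨l', hl', h⟩ := toA d hd
    exact ⟨l' * l, mul_mem hl' hl, by rw [app_mul, hlx, h]⟩
  by_cases hxa : β x a = 0
  swap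
  · exact first x hx hxa
  by_cases hxb : β x b = 0
  swap
  · exact second x hx hxb
  have hxa' : β a x = 0 := by rw [bil_comm]; exact hxa
  have hxb' : β b x = 0 := by rw [bil_comm]; exact hxb
  obtain ⟨v, hva, hvb, hxv⟩ := P.exists_partner hx0 hxa' hxb'
  have hs := P.left.mem v hva
  obtain ⟨l, hl, h⟩ := second (sg a v (φ v) ⋆ x) (by rw [P.form_left_elem hva]; exact hx)
    (by simp [app_sg hva, hxa, hxb, hxv, P.bil])
  exact ⟨l * sg a v (φ v), mul_mem hl hs, by rw [app_mul]; exact h⟩

/-- The even isometries of the form of a pair. -/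
noncomputable def QPair.evenGroup (P : QPair L a b φ χ) (hn : 2 ≤ n) : Subgroup G :=
  ((parity P.bNondeg (QPair.four_le hn)).ker.comap (OrthGen.matEquiv P.form).toMonoidHom).map
    (Cfsg.isometryGroup F ⇑P.form).subtype

lemma QPair.mem_evenGroup (P : QPair L a b φ χ) (hn : 2 ≤ n) {g : G} :
    g ∈ P.evenGroup hn ↔ g ∈ Cfsg.isometryGroup F ⇑P.form ∧ Even ((g : M2n) - 1).rank := by
  constructor
  · rintro ⟨⟨g, hg⟩, hk, rfl⟩
    refine ⟨hg, (dickson_eq_one_iff g hg).1 ?_⟩
    rw [← parity_apply P.bNondeg (QPair.four_le hn)]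
    exact hk
  · rintro ⟨hg, he⟩
    refine ⟨⟨g, hg⟩, ?_, rfl⟩
    show parity P.bNondeg (QPair.four_le hn) _ = 1
    rw [parity_apply]
    exact (dickson_eq_one_iff g hg).2 he

lemma QPair.siegel_eq (P : QPair L a b φ χ) {w : V} (hw : β a w = 0)
    (hw' : polar P.form a w = 0) (x : V) :
    (siegel P.form P.form_left hw').1 x = sg a w (φ w) ⋆ x := by
  rw [siegel_apply, app_sg hw, P.polar_form, P.polar_form, P.form_eq_left hw, bil_comm a x,
    bil_comm w x]
  match_scalars <;> grind

lemma QPair.left_mem_even [Fintype F] (P : QPair L a b φ χ) (hn : 2 ≤ n) {w : V}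
    (hw : β a w = 0) : sg a w (φ w) ∈ P.evenGroup hn := by
  have hp : polar P.form a w = 0 := by rw [P.polar_form]; exact hw
  refine ⟨⟨_, P.mem_iso.2 (P.form_left_elem hw)⟩, ?_, rfl⟩
  show parity P.bNondeg (QPair.four_le hn) _ = 1
  convert parity_siegel P.bNondeg (QPair.four_le hn) P.form_left hp using 2
  exact Subtype.ext (LinearEquiv.ext fun x => (P.siegel_eq hw hp x).symm)

lemma QPair.evenGroup_symm (P : QPair L a b φ χ) (hn : 2 ≤ n) :
    P.symm.evenGroup hn = P.evenGroup hn := by
  ext g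
  rw [P.symm.mem_evenGroup, P.mem_evenGroup, P.form_symm]

lemma QPair.inf_even [Fintype F] (P : QPair L a b φ χ) (hn : 2 ≤ n) :
    QPair (L ⊓ P.evenGroup hn) a b φ χ where
  le := inf_le_left.trans P.le
  left := ⟨P.left.ne_zero, fun w hw => ⟨P.left.mem w hw, P.left_mem_even hn hw⟩, P.left.map_add,
    P.left.map_add_smul⟩
  right := ⟨P.right.ne_zero, fun w hw => ⟨P.right.mem w hw,
    P.evenGroup_symm hn ▸ P.symm.left_mem_even hn hw⟩, P.right.map_add, P.right.map_add_smul⟩
  bil := P.bil
  rigid_left γ hγ := P.rigid_left γ hγ.1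
  rigid_right γ hγ := P.rigid_right γ hγ.1
  same := P.same
  homog := P.homog

lemma QPair.even_le_of_two [Fintype F] (P : QPair L a b φ χ) (hn : n = 2) :
    P.evenGroup (hn ▸ le_rfl) ≤ L := by
  have hn2 : 2 ≤ n := hn ▸ le_rfl
  set E := P.evenGroup hn2 with hE
  set P₀ := P.inf_even hn2
  have hform : P₀.form = P.form := QuadraticMap.ext fun x => rfl
  intro g hg
  have hgQ := P.mem_iso.1 ((P.mem_evenGroup hn2).1 hg).1
  obtain ⟨l, hl, hla⟩ := P₀.move_singular hn2 (x := g ⋆ a)
    (fun h => P.left.ne_zero ((app_eq_zero_iff g).1 h))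
    (by rw [hform, hgQ]; exact P.form_left)
  have hlgQ := P.mem_iso.1 ((P.mem_evenGroup hn2).1 (mul_mem hl.2 hg)).1
  have hlgS : ∀ x y, β ((l * g) ⋆ x) ((l * g) ⋆ y) = β x y := fun x y => by
    rw [← P.polar_form, ← P.polar_form, QuadraticMap.polar, QuadraticMap.polar, ← app_add, hlgQ,
      hlgQ, hlgQ]
  set y := (l * g) ⋆ b with hy
  have hlga : (l * g) ⋆ a = a := by rw [app_mul]; exact hla
  have hay : β a y = 1 := by
    conv_lhs => rw [← hlga]
    rw [hy, hlgS, P.bil]
  have hya : β y a = 1 := by rw [bil_comm]; exact hay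
  obtain ⟨s, hs, hsa, hsy⟩ : ∃ s ∈ L ⊓ E, s ⋆ a = a ∧ s ⋆ y = b := by
    set w := wProj a b y with hw
    have hwa : β a w = 0 := P.wProj_left y
    refine ⟨sg a w (φ w), P₀.left.mem w hwa, by simp [app_sg hwa, hwa], ?_⟩
    have hQy : P.form y = 0 := by rw [hy, hlgQ, P.form_right]
    rw [P.form_apply, hya, one_mul, ← hw] at hQy
    have hyw : β y w = 0 := by rw [hw, wProj_apply]; simp [hya]; grind
    rw [app_sg hwa, hya, hyw, show φ w = β y b by grind, one_smul, zero_smul, add_zero, mul_one,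
      hw, wProj_apply, hya, one_smul]
    match_scalars <;> grind
  set h := s * (l * g) with hh
  have hhE : h ∈ E := mul_mem hs.2 (mul_mem hl.2 hg)
  suffices h ∈ L by
    have := L.mul_mem (L.inv_mem hl.1) (L.mul_mem (L.inv_mem hs.1) this)
    simpa [hh] using this
  have hha : h ⋆ a = a := by rw [hh, app_mul, hlga, hsa]
  have hhb : h ⋆ b = b := by rw [hh, app_mul, ← hy, hsy]
  obtain ⟨hhiso, hev⟩ := (P.mem_evenGroup hn2).1 hhE
  have hhQ := P.mem_iso.1 hhiso
  set hO := P.toO h hhQ
  have hpar : parity P.bNondeg (QPair.four_le hn2) hO = 1 := by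
    rw [parity_apply]; exact (dickson_eq_one_iff h hhiso).2 hev
  obtain ⟨u, hua, hub, hu⟩ := P.exists_ne hn2
  have hQu : P.form u ≠ 0 := by rw [P.form_eq_left hua]; exact hu
  have hodd : ∀ x (hx : P.form x ≠ 0),
      parity P.bNondeg (QPair.four_le hn2) (reflQ P.form x hx) = -1 := fun x hx => by
    rw [parity_apply, dickson_refl P.bNondeg]
  have hdim : finrank F V = 4 := by
    rw [Module.finrank_fintype_fun_eq_card, Fintype.card_sum, Fintype.card_fin]; omega
  -- an isometry fixing `a`, `b`, `u` is trivial or a reflection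
  have fix3 : ∀ k : OQ P.form, k.1 a = a → k.1 b = b → k.1 u = u →
      k = 1 ∨ ∃ (x : V) (hx : P.form x ≠ 0), k = reflQ P.form x hx := by
    intro k ka kb ku
    by_cases hk : ∀ v, k.1 v = v
    · exact Or.inl (Subtype.ext (LinearEquiv.ext hk))
    right
    refine OrthGen.exists_reflQ_of_finrank_fix P.bNondeg k ?_
    have hli : LinearIndependent F ![a, b, u] := by
      rw [Fintype.linearIndependent_iff]
      intro c hc i
      simp [Fin.sum_univ_three] at hc
      have h1 := congrArg (β b) hc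
      have h2 := congrArg (β a) hc
      simp [P.bil, P.bil', hua, hub] at h1 h2
      have h3 : c 2 = 0 := by
        rw [h1, h2, zero_smul, zero_smul, zero_add, zero_add, smul_eq_zero] at hc
        exact hc.resolve_right fun h => hQu (by rw [h]; exact map_zero _)
      fin_cases i
      · exact h1
      · exact h2
      · exact h3
    have hsub : Submodule.span F (Set.range ![a, b, u]) ≤ fixSpace k := by
      rw [Submodule.span_le]
      rintro _ ⟨i, rfl⟩
      fin_cases i <;> simp [mem_fixSpace, ka, kb, ku]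
    have h3 := Submodule.finrank_mono hsub
    rw [finrank_span_eq_card hli, Fintype.card_fin] at h3
    have h4 : finrank F (fixSpace k) < finrank F V := by
      refine Submodule.finrank_lt fun h => hk fun v => mem_fixSpace.1 ?_
      rw [h]; trivial
    omega
  by_cases hhu : h ⋆ u = u
  · rcases fix3 hO hha hhb hhu with h1 | ⟨x, hx, h1⟩
    · have : h = 1 := ext_app fun v => by
        rw [app_one]; exact congrArg (fun k : OQ P.form => k.1 v) h1
      rw [this]; exact one_mem L
    · rw [h1, hodd] at hpar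
      exact absurd hpar (by decide)
  have hhuS : ∀ x, β (h ⋆ x) (h ⋆ u) = β x u := fun x => by
    rw [← P.polar_form, ← P.polar_form, QuadraticMap.polar, QuadraticMap.polar, ← app_add, hhQ,
      hhQ, hhQ]
  set x := h ⋆ u + u with hx_def
  have hhua : β a (h ⋆ u) = 0 := by
    conv_lhs => rw [← hha]
    rw [hhuS, hua]
  have hhub : β b (h ⋆ u) = 0 := by
    conv_lhs => rw [← hhb]
    rw [hhuS, hub]
  have hxa : β a x = 0 := by simp [hx_def, hua, hhua]
  have hxb : β b x = 0 := by simp [hx_def, hub, hhub]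
  have hx : P.form x ≠ 0 := by
    intro h0
    rw [hx_def, P.form_add, hhQ, CharTwo.add_self_eq_zero, zero_add] at h0
    -- then `h u` is a multiple of `u`
    obtain ⟨v, hva, hvb, huv⟩ := P.exists_partner (fun h => hQu (by rw [h]; exact map_zero _))
      hua hub
    set z := h ⋆ u + β (h ⋆ u) v • u with hz
    have hz0 : z = 0 := by
      by_contra hz0
      have hza : β a z = 0 := by simp [hz, hua, hhua]
      have hzb : β b z = 0 := by simp [hz, hub, hhub]
      have hzu : β u z = 0 := by simp [hz, bil_comm u (h ⋆ u), h0]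
      have hzv : β v z = 0 := by
        simp [hz, bil_comm v u, huv, bil_comm v (h ⋆ u)]
        grind
      have hli : LinearIndependent F ![a, b, u, v] := by
        rw [Fintype.linearIndependent_iff]
        intro c hc i
        simp [Fin.sum_univ_four] at hc
        have h1 := congrArg (β b) hc
        have h2 := congrArg (β a) hc
        have h3 := congrArg (β v) hc
        have h4 := congrArg (β u) hc
        simp [P.bil, P.bil', hua, hub, hva, hvb, huv, bil_comm v u, bil_comm v a, bil_comm v b,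
          bil_comm u a, bil_comm u b] at h1 h2 h3 h4
        fin_cases i
        exacts [h1, h2, h3, h4]
      have hspan : Submodule.span F (Set.range ![a, b, u, v]) = ⊤ := by
        refine Submodule.eq_top_of_finrank_eq ?_
        rw [finrank_span_eq_card hli, Fintype.card_fin, hdim]
      have hker : (⊤ : Submodule F V) ≤ LinearMap.ker (β z) := by
        rw [← hspan, Submodule.span_le]
        rintro _ ⟨i, rfl⟩
        fin_cases i <;> simp [bil_comm z, hza, hzb, hzu, hzv]
      exact hz0 (bil_eq_zero fun y => hker trivial)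
    rw [hz, add_eq_zero_iff_eq_neg, ← neg_smul, CharTwo.neg_eq] at hz0
    have h5 := hhQ u
    rw [hz0, QuadraticMap.map_smul, smul_eq_mul, mul_left_eq_self₀] at h5
    rcases h5 with h5 | h5
    · have : β (h ⋆ u) v = 1 := by grind
      rw [this, one_smul] at hz0
      exact hhu hz0
    · exact hQu h5
  set k := reflQ P.form x hx * hO with hk
  have hrapp : ∀ v, (reflQ P.form x hx).1 v = v + ((P.form x)⁻¹ * β v x) • x := fun v => by
    rw [reflQ_apply, P.polar_form, sub_eq_add_neg, ← neg_smul, CharTwo.neg_eq, bil_comm x v]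
  have hkapp : ∀ v, k.1 v = h ⋆ v + ((P.form x)⁻¹ * β (h ⋆ v) x) • x := fun v => hrapp _
  have hku : k.1 u = u := by
    rw [hkapp]
    have : β (h ⋆ u) x = P.form x := by
      rw [hx_def, P.form_add, hhQ]; simp; grind
    rw [this, inv_mul_cancel₀ hx, one_smul, hx_def, vec_add_cancel]
  have hka : k.1 a = a := by rw [hkapp, hha, hxa, mul_zero, zero_smul, add_zero]
  have hkb : k.1 b = b := by rw [hkapp, hhb, hxb, mul_zero, zero_smul, add_zero]
  rcases fix3 k hka hkb hku with h1 | ⟨z, hz, h1⟩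
  · have := congrArg (parity P.bNondeg (QPair.four_le hn2)) h1
    rw [hk, map_mul, hodd, hpar, map_one] at this
    exact absurd this (by decide)
  have hrz : ∀ v, (reflQ P.form z hz).1 v = v + ((P.form z)⁻¹ * β v z) • z := fun v => by
    rw [reflQ_apply, P.polar_form, sub_eq_add_neg, ← neg_smul, CharTwo.neg_eq, bil_comm z v]
  have hz0 : z ≠ 0 := fun h => hz (by rw [h]; exact map_zero _)
  have hza : β a z = 0 := by
    have := hka
    rw [h1, hrz, add_eq_left, smul_eq_zero] at this
    simpa [hz] using this.resolve_right hz0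
  have hzb : β b z = 0 := by
    have := hkb
    rw [h1, hrz, add_eq_left, smul_eq_zero] at this
    simpa [hz] using this.resolve_right hz0
  have hh' : ∀ v, h ⋆ v = (reflQ P.form x hx).1 ((reflQ P.form z hz).1 v) := by
    intro v
    rw [← h1, hk]
    show h ⋆ v = (reflQ P.form x hx * (reflQ P.form x hx * hO)).1 v
    rw [← mul_assoc, reflQ_mul_self, one_mul]
    rfl
  have hQx : P.form x = φ x := P.form_eq_left hxa
  have hQz : P.form z = φ z := P.form_eq_left hza
  obtain ⟨t, ht⟩ := exists_sq (φ x / φ z)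
  have hφx : φ x ≠ 0 := hQx ▸ hx
  have hφz : φ z ≠ 0 := hQz ▸ hz
  have htz : φ (t • z) = φ x := by
    rw [P.homog z t hza hzb, ht, div_mul_cancel₀ _ hφz]
  obtain ⟨m, hm, -, hma, hmb, hmw⟩ := P.exists_mono hxa hxb hφx
  obtain ⟨m', hm', -, hma', hmb', hmw'⟩ := P.exists_mono (u := t • z) (by simp [hza])
    (by simp [hzb]) (by rw [htz]; exact hφx)
  have heq : h = m * m' := by
    refine ext_pair P.bil P.bil' ?_ ?_ fun w hwa hwb => ?_
    · rw [app_mul m m', hma', htz, app_smul, hmb, smul_smul, inv_mul_cancel₀ hφx, one_smul, hha]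
    · rw [app_mul m m', hmb', htz, app_smul, hma, smul_smul, mul_inv_cancel₀ hφx, one_smul, hhb]
    · have hzw : ((φ (t • z))⁻¹ * β w (t • z)) • (t • z) = ((φ z)⁻¹ * β w z) • z := by
        rw [htz, map_smul, smul_eq_mul, smul_smul]
        congr 1
        field_simp at ht ⊢
        grind
      rw [app_mul m m', hmw' w hwa hwb, hzw, hh', hrz, hrapp, hQz, hQx,
        hmw _ (by simp [hwa, hza]) (by simp [hwb, hzb])]
  rw [heq]
  exact mul_mem hm hm'

lemma QPair.even_le [Fintype F] (P : QPair L a b φ χ) (hn : 2 ≤ n) (hL : ∀ g ∈ L, ∀ x, P.form (g ⋆ x) = P.form x) :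
    P.evenGroup hn ≤ L := by
  rcases Nat.lt_or_ge n 3 with h2 | h3
  · exact P.even_le_of_two (by omega)
  have hdim : 5 ≤ finrank F V := by
    rw [Module.finrank_fintype_fun_eq_card, Fintype.card_sum, Fintype.card_fin]; omega
  set K : Subgroup (OQ P.form) :=
    (L.comap (Cfsg.isometryGroup F ⇑P.form).subtype).map (OrthGen.matEquiv P.form).toMonoidHom
  have hcentre : ∀ {a b : V} {φ χ : V → F} (P' : QPair L a b φ χ), P'.form = P.form →
      a ∈ GeoClasses.siegelCentres P.form K := by
    intro a b φ χ P' hf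
    have hQa : P.form a = 0 := hf ▸ P'.form_left
    refine ⟨hQa, fun w hw => ?_⟩
    have hw' : β a w = 0 := by rw [← P.polar_form]; exact hw
    have hs := P'.left.mem w hw'
    refine ⟨⟨_, P.mem_iso.2 (hL _ hs)⟩, hs, Subtype.ext (LinearEquiv.ext fun x => ?_)⟩
    show sg a w (φ w) ⋆ x = _
    rw [siegel_apply, app_sg hw', P.polar_form, P.polar_form, ← hf, P'.form_eq_left hw',
      bil_comm a x, bil_comm w x]
    match_scalars <;> grind
  have hle := GeoClasses.commutator_le_of_centre_pair P.bNondeg hdim (hcentre P rfl)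
    (hcentre P.symm P.form_symm) (by rw [P.polar_form, P.bil']; exact one_ne_zero)
  rintro g ⟨⟨g, hg⟩, hk, rfl⟩
  have hx := GeoClasses.notExceptional_five (Q := P.form) hdim
  have hgK : OrthGen.matEquiv P.form ⟨g, hg⟩ ∈ K := by
    refine hle ?_
    rw [OrthGen.commutator_eq_ker_dickson P.bNondeg hx, MonoidHom.mem_ker]
    show dickson _ = 1
    rw [← parity_apply P.bNondeg (QPair.four_le hn)]
    exact hk
  obtain ⟨g', hg', he⟩ := hgK
  have := (OrthGen.matEquiv P.form).injective he
  exact this ▸ hg'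

/-- The orthogonal group or its subgroup of even elements. -/
theorem QPair.orth_dichotomy [Fintype F] (P : QPair L a b φ χ) (hn : 2 ≤ n)
    (hL : ∀ g ∈ L, ∀ x, P.form (g ⋆ x) = P.form x) :
    L = Cfsg.isometryGroup F ⇑P.form ∨ ∀ g : G, g ∈ L ↔
      g ∈ Cfsg.isometryGroup F ⇑P.form ∧ Even ((g : M2n) - 1).rank := by
  have hle : L ≤ Cfsg.isometryGroup F ⇑P.form := fun g hg => P.mem_iso.2 (hL g hg)
  have heL := P.even_le hn hL
  by_cases hall : L ≤ P.evenGroup hn
  · right
    intro g
    rw [← P.mem_evenGroup hn]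
    exact ⟨fun h => hall h, fun h => heL h⟩
  left
  obtain ⟨l, hl, hlE⟩ := SetLike.not_le_iff_exists.1 hall
  refine le_antisymm hle fun g hg => ?_
  by_cases hgE : g ∈ P.evenGroup hn
  · exact heL hgE
  set p := parity P.bNondeg (QPair.four_le (F := F) hn)
  have hodd : ∀ x (hx : x ∈ Cfsg.isometryGroup F ⇑P.form), x ∉ P.evenGroup hn →
      p (OrthGen.matEquiv P.form ⟨x, hx⟩) = -1 := fun x hx h =>
    (Int.units_eq_one_or _).resolve_left fun h1 => h ⟨⟨x, hx⟩, h1, rfl⟩
  have : g * l⁻¹ ∈ P.evenGroup hn := by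
    refine ⟨⟨g, hg⟩ * ⟨l, hle hl⟩⁻¹, ?_, rfl⟩
    show p (OrthGen.matEquiv P.form _) = 1
    rw [map_mul, map_inv, map_mul, map_inv, hodd g hg hgE, hodd l (hle hl) hlE]
    decide
  simpa using mul_mem (heL this) hl

end Cfsg.Agent.MaxSub.RootGroup
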