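import Cfsg.Agent.MaxSub.RootGroup.Forms
import Cfsg.Agent.Cores.Basic
import Cfsg.Prelude.Def_CaseTheorems

/-!
A subgroup of order `q^(2n-2)` of `O₂` of a vector stabiliser without transvections is a root group.
-/

set_option autoImplicit false
set_option maxHeartbeats 800000

namespace Cfsg.Agent.MaxSub.RootGroup

open Matrix Cfsg.Agent.Forms

variable {F : Type*} [Field F] [CharP F 2] {n : ℕ}

local notation "V" => (Fin n ⊕ Fin n → F)
local notation "G" => GL (Fin n ⊕ Fin n) F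
local notation "M2n" => Matrix (Fin n ⊕ Fin n) (Fin n ⊕ Fin n) F
local notation "β" => sympBil n F
local infixr:73 " ⋆ " => app

variable {a b : Fin n ⊕ Fin n → F}

/-- A vector orthogonal to `a^⊥` is a multiple of `a`. -/
lemma eq_smul_of_perp_perp (hab : β a b = 1) (hba : β b a = 1) {v : V}
    (h : ∀ x, β a x = 0 → β x v = 0) : v = β b v • a := by
  refine sub_eq_zero.1 (bil_eq_zero fun y => ?_)
  set y' := y - β a y • b with hy
  have hy' : β a y' = 0 := by simp [hy, hab]
  have h1 : β v y' = 0 := by rw [GeoClasses.spB_swap, h y' hy', neg_zero]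
  have h2 : β v b = -β b v := GeoClasses.spB_swap b v
  simp only [hy, map_sub, map_smul, smul_eq_mul] at h1
  rw [LinearMap.map_sub₂, LinearMap.map_smul₂, smul_eq_mul]
  have h3 : β v a = 0 := by
    have := h a (bil_self a)
    rw [GeoClasses.spB_swap, this, neg_zero]
  grind

omit [CharP F 2] in
lemma exists_bil_one (ha : a ≠ 0) : ∃ b : V, β a b = 1 := by
  obtain ⟨u, hu⟩ := exists_bil_ne_zero ha
  exact ⟨(β a u)⁻¹ • u, by rw [map_smul, smul_eq_mul, inv_mul_cancel₀ hu]⟩

/-- Two transvections with non-orthogonal centres do not multiply to an element of two-power order. -/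
lemma bil_eq_zero_of_two_power {u w : V} {k : ℕ} (h : (tv u 1 * tv w 1) ^ (2 ^ k) = 1) :
    β u w = 0 := by
  by_contra hd
  set δ := β u w with hδ
  have hwu : β w u = δ := by rw [bil_comm, ← hδ]
  set c := tv u (1 : F) * tv w 1 with hc
  have hcu : c ⋆ u = (1 + δ ^ 2) • u + δ • w := by
    simp only [hc, app_mul, app_tv, map_add, map_smul, LinearMap.add_apply, LinearMap.smul_apply,
      smul_eq_mul, bil_self, ← hδ, hwu, one_mul]
    match_scalars <;> grind
  have hcw : c ⋆ w = δ • u + w := by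
    simp only [hc, app_mul, app_tv, map_add, map_smul, LinearMap.add_apply, LinearMap.smul_apply,
      smul_eq_mul, bil_self, ← hδ, hwu, one_mul]
    match_scalars <;> grind
  have hcc : ∀ r s : F, c ⋆ c ⋆ (r • u + s • w) = δ ^ 2 • c ⋆ (r • u + s • w) + (r • u + s • w) := by
    intro r s
    simp only [app_add, app_smul, hcu, hcw]
    match_scalars <;> grind
  have hspan : ∀ r s : F, ∃ r' s' : F, c ⋆ (r • u + s • w) = r' • u + s' • w := by
    intro r s
    refine ⟨r * (1 + δ ^ 2) + s * δ, r * δ + s, ?_⟩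
    simp only [app_add, app_smul, hcu, hcw]
    module
  have hpow : ∀ k : ℕ, ∃ A C : F, A ≠ 0 ∧ ∀ r s : F,
      (c ^ (2 ^ k)) ⋆ (r • u + s • w) = A • c ⋆ (r • u + s • w) + C • (r • u + s • w) := by
    intro k
    induction k with
    | zero => exact ⟨1, 0, one_ne_zero, fun r s => by simp⟩
    | succ k ih =>
      obtain ⟨A, C, hA, hk⟩ := ih
      refine ⟨A ^ 2 * δ ^ 2, A ^ 2 + C ^ 2, mul_ne_zero (pow_ne_zero 2 hA) (pow_ne_zero 2 hd),
        fun r s => ?_⟩
      obtain ⟨r', s', hrs⟩ := hspan r s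
      rw [pow_succ, pow_mul, sq (c ^ (2 ^ k)), app_mul, hk, app_add, app_smul, app_smul]
      have h1 := hk r' s'
      rw [← hrs, hcc] at h1
      rw [h1, hk]
      match_scalars <;> grind
  obtain ⟨A, C, hA, hk⟩ := hpow k
  have h1 := hk 1 0
  rw [h, app_one, one_smul, zero_smul, add_zero, hcu] at h1
  have h2 := congrArg (β u) h1
  simp [← hδ] at h2
  exact hd (by simpa [hA] using h2)

/-- A two-group normalised by the transvections fixing `a` acts trivially on `a^⊥` modulo `a`. -/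
lemma twoGroup_siegel (ha : a ≠ 0) {P : Subgroup G} (hP : P ≤ Sp)
    (hfix : ∀ p ∈ P, p ⋆ a = a) (hord : ∀ p ∈ P, ∃ k : ℕ, p ^ (2 ^ k) = 1)
    (hnorm : ∀ p ∈ P, ∀ w, β a w = 0 → tv w 1 * p * (tv w 1)⁻¹ ∈ P) {p : G} (hp : p ∈ P)
    (hab : β a b = 1) : ∃ w γ, β a w = 0 ∧ β b w = 0 ∧ p = sg a w γ := by
  have hperp : ∀ p ∈ P, ∀ w, β a w = 0 → β a (p ⋆ w) = 0 := fun p hp w hw => by
    conv_lhs => rw [← hfix p hp]
    rw [bil_app (hP hp), hw]
  have hmem : ∀ p ∈ P, ∀ w, β a w = 0 → tv (p ⋆ w) 1 * tv w 1 ∈ P := by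
    intro p hp w hw
    have h := mul_mem hp (hnorm p⁻¹ (inv_mem hp) w hw)
    rw [← conj_tv (hP hp)]
    convert h using 1
    rw [show (tv w (1 : F))⁻¹ = tv w 1 from sg_inv _ _ _]
    group
  have hzero : ∀ p ∈ P, ∀ w, β a w = 0 → β (p ⋆ w) w = 0 := fun p hp w hw => by
    obtain ⟨k, hk⟩ := hord _ (hmem p hp w hw)
    exact bil_eq_zero_of_two_power hk
  refine exists_sg_of_stab hab (hP hp) (hfix p hp) fun w hw => ?_
  have hba : β b a = 1 := by rw [bil_comm]; exact hab
  have hv : ∀ x, β a x = 0 → β x (p ⋆ w + w) = 0 := by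
    intro x hx
    have h1 := hzero _ (hmem p hp w hw) x hx
    have h2 := hzero p hp w hw
    have h3 : β w (p ⋆ w) = 0 := by rw [bil_comm]; exact h2
    simp only [app_mul, app_tv, map_add, map_smul, LinearMap.add_apply, LinearMap.smul_apply,
      smul_eq_mul, one_mul, h3, mul_zero, add_zero, bil_self, bil_comm w x, bil_comm (p ⋆ w) x,
      zero_add] at h1
    rw [map_add]
    have h4 : (β x (p ⋆ w) + β x w) ^ 2 = 0 := by grind
    simpa using h4
  refine ⟨β b (p ⋆ w + w), ?_⟩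
  rw [← eq_smul_of_perp_perp hab hba hv, add_comm (p ⋆ w) w, vec_add_cancel]

/-- The hypotheses give a root group. -/
theorem exists_root [Fintype F] (hn : 1 ≤ n) (ha : a ≠ 0) (X : Subgroup G)
    (hO : ∀ H : Subgroup G, (∀ g, g ∈ H ↔ g ∈ Sp ∧ g ⋆ a = a) →
      X ≤ (Cfsg.pCore 2 ↥H).map H.subtype)
    (hcard : Nat.card ↥X = Fintype.card F ^ (2 * n - 2))
    (hntv : ∀ x ∈ X, ((x : M2n) - 1).rank ≠ 1) {L : Subgroup G} (hXL : X ≤ L) :
    ∃ φ, Root L a φ := by
  classical
  obtain ⟨b, hab⟩ := exists_bil_one ha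
  have hba : β b a = 1 := by rw [bil_comm]; exact hab
  let H : Subgroup G :=
    { carrier := {g | g ∈ Sp ∧ g ⋆ a = a}
      mul_mem' := fun {g h} hg hh => ⟨mul_mem hg.1 hh.1, by rw [app_mul, hh.2, hg.2]⟩
      one_mem' := ⟨one_mem _, app_one a⟩
      inv_mem' := fun {g} hg => ⟨inv_mem hg.1, by
        conv_lhs => rw [← hg.2]
        exact app_inv_app g a⟩ }
  set P := (Cfsg.pCore 2 ↥H).map H.subtype with hPdef
  have hXP : X ≤ P := hO H fun g => Iff.rfl
  have hPH : ∀ p ∈ P, p ∈ H := by rintro _ ⟨p, -, rfl⟩; exact p.2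
  have hsieg : ∀ p ∈ P, ∃ w γ, β a w = 0 ∧ β b w = 0 ∧ p = sg a w γ := by
    intro p hp
    refine twoGroup_siegel ha (fun q hq => (hPH q hq).1) (fun q hq => (hPH q hq).2) ?_ ?_ hp hab
    · rintro _ ⟨q, hq, rfl⟩
      obtain ⟨k, hk⟩ := (Cores.pCore_isPGroup : IsPGroup 2 (Cfsg.pCore 2 ↥H)) ⟨q, hq⟩
      refine ⟨k, ?_⟩
      have := congrArg (fun x : ↥(Cfsg.pCore 2 ↥H) => ((x : H) : G)) hk
      simpa using this
    · rintro _ ⟨q, hq, rfl⟩ w hw
      have hT : tv w 1 ∈ H := ⟨tv_mem_Sp w 1, by simp [hw]⟩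
      exact ⟨_, (Cfsg.pCore_normal 2 H).conj_mem q hq ⟨_, hT⟩, rfl⟩
  have htv : ∀ γ, tv a γ ∈ X → γ = 0 := by
    intro γ hγ
    by_contra hne
    refine hntv _ hγ ?_
    have hrange : LinearMap.range (Matrix.mulVecLin ((tv a γ : M2n) - 1)) = F ∙ a := by
      have happ : ∀ x : V, Matrix.mulVecLin ((tv a γ : M2n) - 1) x = (γ * β x a) • a := fun x => by
        rw [Matrix.mulVecLin_apply, Matrix.sub_mulVec, Matrix.one_mulVec]
        show tv a γ ⋆ x - x = _
        rw [app_tv, add_sub_cancel_left]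
      apply le_antisymm
      · rintro _ ⟨x, rfl⟩
        rw [happ]
        exact Submodule.smul_mem _ _ (Submodule.mem_span_singleton_self a)
      · rw [Submodule.span_singleton_le_iff_mem]
        refine ⟨γ⁻¹ • b, ?_⟩
        rw [happ, map_smul, LinearMap.smul_apply, hba, smul_eq_mul, mul_one,
          mul_inv_cancel₀ hne, one_smul]
    rw [Matrix.rank, hrange, finrank_span_singleton ha]
  have huniq : ∀ w γ γ', β a w = 0 → sg a w γ ∈ X → sg a w γ' ∈ X → γ = γ' := by
    intro w γ γ' hw h h'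
    have := mul_mem h h'
    rw [sg_mul hw hw, bil_self, add_zero, vec_add_self] at this
    have := htv _ this
    grind
  let Φ : V →ₗ[F] F × F := (β a).prod (β b)
  have hΦ : Function.Surjective Φ := fun ⟨s, t⟩ =>
    ⟨s • b + t • a, by simp [Φ, hab, hba]⟩
  have hWcard : Nat.card (LinearMap.ker Φ) = Fintype.card F ^ (2 * n - 2) := by
    rw [Module.natCard_eq_pow_finrank (K := F), Nat.card_eq_fintype_card]
    congr 1
    have h := Φ.finrank_range_add_finrank_ker
    rw [LinearMap.range_eq_top.2 hΦ, finrank_top, Module.finrank_prod, Module.finrank_self,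
      Module.finrank_fintype_fun_eq_card, Fintype.card_sum, Fintype.card_fin] at h
    omega
  choose f g hfa hfb hfx using fun x : X => hsieg x.1 (hXP x.2)
  have hf : ∀ x, f x ∈ LinearMap.ker Φ := fun x => by
    rw [LinearMap.mem_ker]
    exact Prod.ext (hfa x) (hfb x)
  let π : X → LinearMap.ker Φ := fun x => ⟨f x, hf x⟩
  have hπinj : Function.Injective π := by
    intro x y hxy
    have he : f x = f y := congrArg Subtype.val hxy
    apply Subtype.ext
    have hx := hfx x ▸ x.2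
    have hy := hfx y ▸ y.2
    rw [he] at hx
    rw [hfx x, hfx y, he, huniq _ _ _ (hfa y) hx hy]
  have hπ : Function.Surjective π :=
    ((Nat.bijective_iff_injective_and_card π).2 ⟨hπinj, hcard.trans hWcard.symm⟩).2
  have hex : ∀ w, β a w = 0 → ∃ γ, sg a w γ ∈ X := by
    intro w hw
    have hker : w + β b w • a ∈ LinearMap.ker Φ := by
      rw [LinearMap.mem_ker]
      exact Prod.ext (by simp [Φ, hw]) (by simp [Φ, hba]; grind)
    obtain ⟨x, hx⟩ := hπ ⟨_, hker⟩
    refine ⟨g x, ?_⟩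
    have h := hfx x ▸ x.2
    rwa [show f x = w + β b w • a from congrArg Subtype.val hx, sg_add_smul hw] at h
  let φ : V → F := fun w => if hw : β a w = 0 then (hex w hw).choose else 0
  have hφ : ∀ w, β a w = 0 → sg a w (φ w) ∈ X := fun w hw => by
    simp only [φ, dif_pos hw]
    exact (hex w hw).choose_spec
  refine ⟨φ, ha, fun w hw => hXL (hφ w hw), fun u v hu hv => ?_, fun u t hu => ?_⟩
  · have huv : β a (u + v) = 0 := by simp [hu, hv]
    refine huniq _ _ _ huv (hφ _ huv) ?_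
    rw [← sg_mul hu hv]
    exact mul_mem (hφ u hu) (hφ v hv)
  · have hut : β a (u + t • a) = 0 := by simp [hu]
    refine huniq _ _ _ hut (hφ _ hut) ?_
    rw [sg_add_smul hu]
    exact hφ u hu

end Cfsg.Agent.MaxSub.RootGroup
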